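import Cfsg.Agent.H22.StarFree
import Cfsg.Agent.H22.Star
import Cfsg.Agent.H25.CharIntegral
import Cfsg.Agent.H56.SubsectionContrib

/-!
# Sums over a section weighted by a star product

A block of `C(u)` carried below a maximal pair `(P, e)` has defect at most that of `C_P(v)` for the
images `v` of `u`.  This bounds sums of class functions against the section parts.
-/

set_option autoImplicit false
set_option linter.unusedSectionVars false

open scoped ComplexConjugate Classical

namespace Cfsg.Agent.H22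

open Cfsg
open Cfsg.Agent.H41 (ResField)

universe u

variable {G : Type u} [Group G] [Fintype G] {M : Ideal AlgInt} [M.IsMaximal] {p : ℕ}
  [Fact p.Prime] [CharP (ResField M) p] {B : Set (IrrCharacter G)} {P : Subgroup G}
  {e : MonoidAlgebra (ResField M) G}

/-- The defect of a block of a centraliser carried below a maximal pair. -/
theorem blockDefect_carried_le (hM : IsPModular p M) (hB : IsPBlock M B)
    (hm : IsMaxEl p ⊤ (elTop M B) (P, e)) {x : G} {b : Set (IrrCharacter (CZ x))}
    (hb : IsPBlock M b) (hx : ∃ g, CarriesInto p (P, e) x (el M (CZ x) b) g) {d : ℕ}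
    (hd : ∀ v ∈ P, orderOf v = orderOf x →
      Nat.card (P ⊓ Subgroup.centralizer ({v} : Set G) : Subgroup G) ≤ p ^ d) :
    blockDefect p b ≤ d := by
  obtain ⟨g, hg⟩ := hx
  have hS := split M G
  have hfT : IsBlockEl (cS g (CZ x)) (cj g (el M (CZ x) b)) := (isBlockEl_el hb).cj g
  have hTN : cS g (CZ x) ≤ Subgroup.normalizer (cS g (Subgroup.zpowers x) : Set G) :=
    (cS_mono (Subgroup.centralizer_le_normalizer _)).trans (cS_normalizer g _).le
  obtain ⟨y, hy, hD⟩ := exists_conj_inf_defect hS (isBlockEl_elTop hB) hm hg hTN hfT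
  rw [← cS_mul, ← cj_mul_apply] at hD
  rw [← cS_mul] at hy
  have hD0 := hD.conj (y * g)⁻¹
  rw [cS_inv_cS, cj_inv_cj] at hD0
  have hcard := H40.card_defectGroup hM hb ((isDefectGroup_subgroupOf_iff hM hb hD0.le).2 hD0)
  rw [Nat.card_congr (Subgroup.subgroupOfEquivOfLe hD0.le).toEquiv, card_cS] at hcard
  have hv : y * g * x * (y * g)⁻¹ ∈ P := hy.le (conj_mem_cS (Subgroup.mem_zpowers x))
  have hle : P ⊓ cS (y * g) (CZ x) ≤
      P ⊓ Subgroup.centralizer ({y * g * x * (y * g)⁻¹} : Set G) := by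
    refine inf_le_inf_left _ ?_
    rintro w ⟨c, hc, rfl⟩
    have hc' : c * x = x * c := by
      have : c ∈ CZ x := hc
      rwa [CZ, centralizer_zpowers_eq, Subgroup.mem_centralizer_singleton_iff] at this
    rw [Subgroup.mem_centralizer_singleton_iff]
    show y * g * c * (y * g)⁻¹ * (y * g * x * (y * g)⁻¹) =
      y * g * x * (y * g)⁻¹ * (y * g * c * (y * g)⁻¹)
    calc _ = y * g * (c * x) * (y * g)⁻¹ := by group
      _ = _ := by rw [hc']; group
  have h1 := (Subgroup.card_le_of_le hle).trans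
    (hd _ hv (by rw [← MulAut.conj_apply, MulEquiv.orderOf_eq]))
  rw [hcard] at h1
  exact (Nat.pow_le_pow_iff_right (Fact.out : p.Prime).one_lt).1 h1

omit [M.IsMaximal] [Fact p.Prime] [CharP (ResField M) p] in
/-- A class function with integral values has integral central character values. -/
theorem isIntegral_sum_mul_irr {K : Type*} [Group K] [Fintype K] (φ : IrrCharacter K) (f : K → ℂ)
    (hf : IsClassFunction K f) (hint : ∀ k, IsIntegral ℤ (f k)) :
    IsIntegral ℤ ((∑ k, f k * (φ : K → ℂ) k) / (φ : K → ℂ) 1) := by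
  obtain ⟨n, ρ, hρ, e⟩ := φ.2
  have := hρ
  rw [← e, ρ.char_one]
  exact H25.isIntegral_central_scalar ρ f hf hint

/-- A weighted sum over the section of `x`, scaled by the `p`-part of the order of `C(x)`. -/
theorem isIntegral_sum_fiber_star (hM : IsPModular p M) {η : G → ℂ}
    (hη : ∀ g, IsIntegral ℤ (η g)) (χ : IrrCharacter G) {n : G → ℕ}
    (hn : ∀ g h : G, n (h * g * h⁻¹) = n g) {x : G} {j : ℕ} (hx : orderOf x = p ^ j)
    (m d a : ℕ) (ha : a + d ≤ (Nat.card (CZ x)).factorization p)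
    (hm : ∀ g, pp p g = x → m ∣ n g)
    (hdef : ∀ b : Set (IrrCharacter (CZ x)), IsPBlock M b →
      (∃ g, CarriesInto p (P, e) x (el M (CZ x) b) g) → blockDefect p b ≤ d) :
    ∃ I : ℂ, IsIntegral ℤ I ∧
      ∑ g ∈ Finset.univ.filter (fun g : G => pp p g = x),
        (n g : ℂ) * star p M (P, e) η (χ : G → ℂ) g = (m : ℂ) * (p : ℂ) ^ a * I := by
  let f : CZ x → ℕ := fun y => if p ∣ orderOf y then 0 else n (x * y) / m
  have hf : ∀ y : CZ x, ¬ p ∣ orderOf y → n (x * y) = m * f y := by
    intro y hy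
    obtain ⟨c, hc⟩ := hm (x * y) (pp_eq (isPPart_mul_regular hx y hy))
    simp only [f, if_neg hy, hc]
    rcases Nat.eq_zero_or_pos m with rfl | hmp
    · simp
    · rw [Nat.mul_div_cancel_left c hmp]
  have hfc : IsClassFunction (CZ x) (fun y => (f y : ℂ)) := by
    intro u v
    have e1 : orderOf (v * u * v⁻¹) = orderOf u := by
      rw [← MulAut.conj_apply, MulEquiv.orderOf_eq]
    have hv : x * (v : G) = v * x := comm_of_mem_CZ v.2
    have e2 : n (x * ((v * u * v⁻¹ : CZ x) : G)) = n (x * u) := by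
      rw [show x * ((v * u * v⁻¹ : CZ x) : G) = (v : G) * (x * u) * (v : G)⁻¹ by
        push_cast
        rw [← mul_assoc, ← mul_assoc, hv]
        group]
      exact hn _ _
    simp only [f, e1, e2]
  have hterm : ∀ c ∈ blocksOf M (CZ x), ∃ I : ℂ, IsIntegral ℤ I ∧
      wt p (P, e) η x (el M (CZ x) c) *
        ∑ y ∈ Finset.univ.filter (fun y : CZ x => ¬ p ∣ orderOf y),
          (f y : ℂ) * blockPart c (sec x (χ : G → ℂ)) y = (p : ℂ) ^ a * I := by
    intro c hc
    have hcb := mem_blocksOf.1 hc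
    by_cases hcar : ∃ g, CarriesInto p (P, e) x (el M (CZ x) c) g
    swap
    · exact ⟨0, isIntegral_zero, by rw [wt_of_forall_not fun g hg => hcar ⟨g, hg⟩]; simp⟩
    have hw : IsIntegral ℤ (wt p (P, e) η x (el M (CZ x) c)) := by
      rw [wt, dif_pos hcar]
      exact hη _
    have hdc := hdef c hcb hcar
    have hdeg : ∀ φ ∈ H56.Subsec.mem' c, ∃ q : ℕ,
        (φ : CZ x → ℂ) 1 = (p : ℂ) ^ a * (q : ℂ) := by
      intro φ hφ
      have h1 := H42.factorization_degree_add_defect (p := p) hcb (H56.Subsec.mem_mem'.1 hφ)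
      obtain ⟨r, hr⟩ := H26.exists_nat_char_one (H26.irr_isCharacter φ)
      have hdr : charDegree (φ : CZ x → ℂ) = r := H42.charDegree_of_eq_nat hr
      have hdvd : p ^ a ∣ r := by
        rw [← hdr]
        exact (pow_dvd_pow p (by omega)).trans (Nat.ordProj_dvd _ p)
      obtain ⟨q, hq⟩ := hdvd
      exact ⟨q, by rw [hr, hq]; push_cast; rfl⟩
    choose! q hq using hdeg
    refine ⟨wt p (P, e) η x (el M (CZ x) c) * ∑ φ ∈ H56.Subsec.mem' c,
        ((H56.Subsec.mult x χ φ : ℂ) * H56.Subsec.scal x φ) * ((q φ : ℂ) *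
          ((∑ y, (f y : ℂ) * (φ : CZ x → ℂ) y) / (φ : CZ x → ℂ) 1)),
      hw.mul (IsIntegral.sum _ fun φ _ => ((H42.isIntegral_natCast _).mul
        (H56.Subsec.scal_isIntegral x φ)).mul ((H42.isIntegral_natCast _).mul
          (isIntegral_sum_mul_irr φ _ hfc fun _ => H42.isIntegral_natCast _))), ?_⟩
    have hbp : ∀ y : CZ x, blockPart c (sec x (χ : G → ℂ)) y = ∑ φ ∈ H56.Subsec.mem' c,
        ((H56.Subsec.mult x χ φ : ℂ) * H56.Subsec.scal x φ) * (φ : CZ x → ℂ) y := by
      intro y
      rw [H32.blockPart_eq_sum]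
      refine Finset.sum_congr rfl fun φ _ => ?_
      rw [show sec x (χ : G → ℂ) = H56.Subsec.theta x χ from rfl, H56.Subsec.theta_eq,
        H26.classInner_sum_smul_irr]
    rw [mul_left_comm ((p : ℂ) ^ a)]
    congr 1
    rw [Finset.sum_filter]
    have h0 : ∀ y : CZ x, (if ¬ p ∣ orderOf y then (f y : ℂ) * blockPart c (sec x (χ : G → ℂ)) y else 0)
        = (f y : ℂ) * blockPart c (sec x (χ : G → ℂ)) y := fun y => by
      by_cases hy : p ∣ orderOf y
      · rw [if_neg (not_not.2 hy)]; simp [f, hy]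
      · rw [if_pos hy]
    rw [Finset.sum_congr rfl fun y _ => h0 y]
    simp only [hbp, Finset.mul_sum]
    rw [Finset.sum_comm]
    refine Finset.sum_congr rfl fun φ hφ => ?_
    rw [hq φ hφ, Finset.sum_div, Finset.mul_sum, Finset.mul_sum, Finset.mul_sum]
    refine Finset.sum_congr rfl fun y _ => ?_
    have h1 : (p : ℂ) ^ a * (q φ : ℂ) ≠ 0 := hq φ hφ ▸ H26.irr_one_ne_zero φ
    field_simp [(mul_ne_zero_iff.1 h1).2, (mul_ne_zero_iff.1 h1).1]
  choose! I hI hIeq using hterm
  refine ⟨∑ c ∈ blocksOf M (CZ x), I c, IsIntegral.sum _ hI, ?_⟩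
  rw [sum_fiber_pp hx, Finset.mul_sum]
  calc _ = ∑ y ∈ Finset.univ.filter (fun y : CZ x => ¬ p ∣ orderOf y),
        ∑ c ∈ blocksOf M (CZ x), (m : ℂ) * (wt p (P, e) η x (el M (CZ x) c) *
          ((f y : ℂ) * blockPart c (sec x (χ : G → ℂ)) y)) := by
        refine Finset.sum_congr rfl fun y hy => ?_
        rw [star_mul_regular hx (H26.irr_isClassFunction χ) y (Finset.mem_filter.1 hy).2,
          hf y (Finset.mem_filter.1 hy).2, Finset.mul_sum]
        exact Finset.sum_congr rfl fun c _ => by push_cast; ring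
    _ = _ := by
        rw [Finset.sum_comm]
        refine Finset.sum_congr rfl fun c hc => ?_
        rw [← Finset.mul_sum, ← Finset.mul_sum, hIeq c hc]
        ring

end Cfsg.Agent.H22
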