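import Cfsg.Agent.H42.ClassMult
import Cfsg.Agent.H25.CharIntegral
import Mathlib.GroupTheory.Coset.Basic
import Mathlib.GroupTheory.OrderOfElement

/-!
# Pairs of conjugates of an involution with a given product
-/

set_option autoImplicit false
set_option linter.unusedSectionVars false

open scoped Classical

namespace Cfsg.Agent.H22

open Cfsg

variable {G : Type*} [Group G] [Fintype G]

/-- The number of ways to write `g` as a product of two conjugates of `z`. -/
noncomputable def pairCount (z g : G) : ℕ :=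
  (Finset.univ.filter fun i : G => IsConj z i ∧ IsConj z (i⁻¹ * g)).card

theorem isConj_conj_iff (z x h : G) : IsConj z (h * x * h⁻¹) ↔ IsConj z x :=
  ⟨fun e => e.trans (isConj_iff.2 ⟨h⁻¹, by group⟩), fun e => e.trans (isConj_iff.2 ⟨h, rfl⟩)⟩

theorem pairCount_conj (z g h : G) : pairCount z (h * g * h⁻¹) = pairCount z g := by
  unfold pairCount
  symm
  refine Finset.card_nbij' (fun i => h * i * h⁻¹) (fun i => h⁻¹ * i * h) ?_ ?_ ?_ ?_
  · intro i hi
    simp only [Finset.coe_filter, Finset.mem_univ, true_and, Set.mem_ofPred_eq] at hi ⊢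
    refine ⟨(isConj_conj_iff z i h).2 hi.1, ?_⟩
    rw [show (h * i * h⁻¹)⁻¹ * (h * g * h⁻¹) = h * (i⁻¹ * g) * h⁻¹ by group]
    exact (isConj_conj_iff z _ h).2 hi.2
  · intro i hi
    simp only [Finset.coe_filter, Finset.mem_univ, true_and, Set.mem_ofPred_eq] at hi ⊢
    constructor
    · rw [← isConj_conj_iff z _ h]
      simpa [mul_assoc] using hi.1
    · rw [← isConj_conj_iff z _ h]
      rw [show h * ((h⁻¹ * i * h)⁻¹ * g) * h⁻¹ = i⁻¹ * (h * g * h⁻¹) by group]
      exact hi.2
  · intro i _; simp [mul_assoc]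
  · intro i _; simp [mul_assoc]

/-- The sum of a character weighted by the pair counts. -/
theorem sum_pairCount_mul (z : G) (χ : IrrCharacter G) :
    ∑ g : G, (pairCount z g : ℂ) * (χ : G → ℂ) g =
      ((Subgroup.centralizer ({z} : Set G)).index : ℂ) ^ 2 * (χ : G → ℂ) z ^ 2 / (χ : G → ℂ) 1 := by
  have hcl : IsClassFunction G (fun x => if IsConj z x then (1 : ℂ) else 0) := fun a b =>
    if_congr (isConj_conj_iff z a b) rfl rfl
  have hval : ∀ x, IsConj z x → (χ : G → ℂ) x = (χ : G → ℂ) z := fun x hx => by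
    obtain ⟨c, rfl⟩ := isConj_iff.1 hx
    exact H26.irr_isClassFunction χ z c
  have hK : ((Finset.univ.filter fun x => IsConj z x).card : ℂ) =
      ((Subgroup.centralizer ({z} : Set G)).index : ℂ) := by
    rw [H25.index_centralizer_eq_card_class z, Nat.card_eq_fintype_card, Fintype.card_subtype]
  have hsum : ∑ x : G, (if IsConj z x then (1 : ℂ) else 0) * (χ : G → ℂ) x =
      ((Subgroup.centralizer ({z} : Set G)).index : ℂ) * (χ : G → ℂ) z := by
    simp only [ite_mul, one_mul, zero_mul]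
    rw [← Finset.sum_filter, Finset.sum_congr rfl fun x hx => hval x (Finset.mem_filter.1 hx).2,
      Finset.sum_const, nsmul_eq_mul, hK]
  have hcount : ∀ g, (pairCount z g : ℂ) = ∑ i : G, (if IsConj z i then (1 : ℂ) else 0) *
      (if IsConj z (i⁻¹ * g) then 1 else 0) := fun g => by
    rw [pairCount, Finset.card_filter, Nat.cast_sum]
    exact Finset.sum_congr rfl fun i _ => by
      by_cases h1 : IsConj z i <;> by_cases h2 : IsConj z (i⁻¹ * g) <;>
        simp [h1, h2, -isConj_iff]
  simp only [hcount, Finset.sum_mul]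
  rw [Finset.sum_comm]
  have hin : ∀ i : G, ∑ g, (if IsConj z i then (1 : ℂ) else 0) *
      (if IsConj z (i⁻¹ * g) then 1 else 0) * (χ : G → ℂ) g =
      (if IsConj z i then (1 : ℂ) else 0) *
        (((Subgroup.centralizer ({z} : Set G)).index : ℂ) * (χ : G → ℂ) z / (χ : G → ℂ) 1 *
          (χ : G → ℂ) i) := fun i => by
    rw [← hsum, ← H42.irr_sum_mul χ _ hcl i, Finset.mul_sum,
      ← Equiv.sum_comp (Equiv.mulLeft i)]
    refine Finset.sum_congr rfl fun x _ => ?_
    have : (χ : G → ℂ) (i * x) = (χ : G → ℂ) (x * i) := by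
      rw [← H26.irr_isClassFunction χ (x * i) i]
      group
    simp [this, mul_assoc]
  rw [Finset.sum_congr rfl fun i _ => hin i]
  have h2 : ∀ i : G, (if IsConj z i then (1 : ℂ) else 0) *
      (((Subgroup.centralizer ({z} : Set G)).index : ℂ) * (χ : G → ℂ) z / (χ : G → ℂ) 1 *
        (χ : G → ℂ) i) = ((Subgroup.centralizer ({z} : Set G)).index : ℂ) * (χ : G → ℂ) z /
        (χ : G → ℂ) 1 * ((if IsConj z i then (1 : ℂ) else 0) * (χ : G → ℂ) i) := fun i => by ring
  rw [Finset.sum_congr rfl fun i _ => h2 i, ← Finset.mul_sum, hsum]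
  ring

/-- Products of two involutions with a rotation of order eight among their powers. -/
theorem four_dvd_pairCount {z g u : G} (hz : z * z = 1) (hu : u ∈ Subgroup.zpowers g)
    (h8 : orderOf u = 8) : 4 ∣ pairCount z g := by
  set S : Set G := {i | IsConj z i ∧ IsConj z (i⁻¹ * g)} with hS
  have hinv : ∀ i, IsConj z i → i * i = 1 := fun i hi => by
    obtain ⟨c, rfl⟩ := isConj_iff.1 hi
    calc c * z * c⁻¹ * (c * z * c⁻¹) = c * (z * z) * c⁻¹ := by group
      _ = 1 := by rw [hz]; group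
  have hug : u * g = g * u := by
    obtain ⟨n, rfl⟩ := hu
    exact ((Commute.refl g).zpow_left n).eq
  have hflip : ∀ i ∈ S, i * u * i⁻¹ = u⁻¹ := by
    rintro i ⟨h1, h2⟩
    obtain ⟨n, rfl⟩ := hu
    have hii : i⁻¹ = i := inv_eq_of_mul_eq_one_right (hinv i h1)
    have hj := hinv _ h2
    rw [hii] at hj
    have hg : i * g * i⁻¹ = g⁻¹ := by
      rw [hii]
      exact eq_inv_of_mul_eq_one_left (by rw [← hj]; group)
    show i * g ^ n * i⁻¹ = (g ^ n)⁻¹
    rw [← conj_zpow, hg, inv_zpow]
  have hclosed : ∀ i ∈ S, i * (u ^ 2)⁻¹ ∈ S := by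
    intro i hi
    have hf := hflip i hi
    have he : i * (u ^ 2)⁻¹ = u * i * u⁻¹ := by
      calc i * (u ^ 2)⁻¹ = (i * u * i⁻¹)⁻¹ * i * u⁻¹ := by rw [pow_two]; group
        _ = u * i * u⁻¹ := by rw [hf, inv_inv]
    rw [he]
    refine ⟨(isConj_conj_iff z i u).2 hi.1, ?_⟩
    rw [show (u * i * u⁻¹)⁻¹ * g = u * (i⁻¹ * g) * u⁻¹ by
      calc (u * i * u⁻¹)⁻¹ * g = u * i⁻¹ * (u⁻¹ * g) := by group
        _ = u * i⁻¹ * (g * u⁻¹) := by
          rw [(Commute.inv_left (show Commute u g from hug)).eq]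
        _ = _ := by group]
    exact (isConj_conj_iff z _ u).2 hi.2
  set H := Subgroup.zpowers (u ^ 2)⁻¹ with hH
  have hH4 : Nat.card H = 4 := by
    rw [hH, Nat.card_zpowers, orderOf_inv, orderOf_pow' u two_ne_zero, h8]
    rfl
  have hmul : ∀ i ∈ S, ∀ w ∈ H, i * w ∈ S := by
    intro i hi w hw
    rw [hH, (isOfFinOrder_of_finite _).mem_zpowers_iff_mem_range_orderOf, Finset.mem_image] at hw
    obtain ⟨k, -, rfl⟩ := hw
    induction k with
    | zero => simpa using hi
    | succ k ih =>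
      rw [pow_succ, ← mul_assoc]
      exact hclosed _ ih
  have heq : (QuotientGroup.mk : G → G ⧸ H) ⁻¹' (QuotientGroup.mk '' S) = S := by
    refine Set.Subset.antisymm ?_ (Set.subset_preimage_image _ _)
    rintro x ⟨i, hi, hix⟩
    have := hmul i hi _ (QuotientGroup.eq.1 hix)
    rwa [mul_inv_cancel_left] at this
  have hcard : pairCount z g = Nat.card S := by
    rw [pairCount, Nat.card_eq_fintype_card, ← Set.toFinset_card]
    congr 1
    ext i
    simp [S]
  rw [hcard, ← heq, Nat.card_congr (QuotientGroup.preimageMkEquivSubgroupProdSet H _), Nat.card_prod,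
    hH4]
  exact dvd_mul_right 4 _

end Cfsg.Agent.H22
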