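import Cfsg.Agent.H22.PairFusion
import Cfsg.Agent.H22.PairInducedIn
import Cfsg.Agent.H22.PairNilpotentDict
import Cfsg.Agent.H22.CoverPairs
import Cfsg.Agent.H86.PPrime.Basic
import Cfsg.Agent.H40.PPart

/-!
# Subpairs of a maximal pair with cyclic group
-/

set_option autoImplicit false
set_option linter.unusedSectionVars false

namespace Cfsg.Agent.H22

open Cfsg
open Cfsg.Agent.H41 (ResField)

variable {k : Type*} [Field k] {G : Type*} [Group G] [Finite G] {p : ℕ} [Fact p.Prime] [CharP k p]
  {P Q : Subgroup G} {b e f : MonoidAlgebra k G}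

theorem le_centralizer_of_cyclic (hcyc : IsCyclic P) (hQ : Q ≤ P) :
    P ≤ Subgroup.centralizer (Q : Set G) := fun x hx =>
  Subgroup.mem_centralizer_iff.2 fun y hy => congrArg Subtype.val
    ((IsCyclic.isMulCommutative (α := P)).is_comm.comm ⟨y, hQ hy⟩ ⟨x, hx⟩)

theorem le_or_le_of_cyclic (hP : IsPGroup p P) (hcyc : IsCyclic P) {R S : Subgroup G}
    (hR : R ≤ P) (hS : S ≤ P) : R ≤ S ∨ S ≤ R := by
  have key : ∀ {A B : Subgroup G}, A ≤ P → B ≤ P → Nat.card A ≤ Nat.card B → A ≤ B := by
    intro A B hA hB hle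
    obtain ⟨a, ha⟩ := IsPGroup.iff_card.1 (hP.to_le hA)
    obtain ⟨b, hb⟩ := IsPGroup.iff_card.1 (hP.to_le hB)
    have hab : a ≤ b := (Nat.pow_le_pow_iff_right (Fact.out : p.Prime).one_lt).1 (ha ▸ hb ▸ hle)
    intro x hx
    -- the only subgroup of a given order
    have h1 : x ^ p ^ b = 1 := orderOf_dvd_iff_pow_eq_one.1 ((Subgroup.orderOf_coe
      (⟨x, hx⟩ : A)).symm ▸ ((orderOf_dvd_natCard _).trans (ha ▸ pow_dvd_pow p hab)))
    by_contra hxB
    classical
    have : Fintype P := Fintype.ofFinite P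
    have hc : (Finset.univ.filter fun z : P => z ^ p ^ b = 1).card ≤ p ^ b :=
      IsCyclic.card_pow_eq_one_le (pow_pos (Fact.out : p.Prime).pos b)
    have : Fintype B := Fintype.ofFinite B
    have hsub : insert (⟨x, hA hx⟩ : P)
        ((Finset.univ : Finset B).map ⟨Subgroup.inclusion hB, Subgroup.inclusion_injective hB⟩) ⊆
        Finset.univ.filter fun z : P => z ^ p ^ b = 1 := by
      intro z hz
      rw [Finset.mem_filter]
      refine ⟨Finset.mem_univ _, Subtype.ext ?_⟩
      rw [Finset.mem_insert, Finset.mem_map] at hz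
      rcases hz with rfl | ⟨y, -, rfl⟩
      · simpa using h1
      · show (y : G) ^ p ^ b = 1
        rw [← hb, ← SubmonoidClass.coe_pow, pow_card_eq_one', OneMemClass.coe_one]
    have h2 := (Finset.card_le_card hsub).trans hc
    rw [Finset.card_insert_of_notMem (fun h => hxB (by
      rw [Finset.mem_map] at h
      obtain ⟨y, -, hy⟩ := h
      have hy' : (y : G) = x := congrArg Subtype.val hy
      exact hy' ▸ y.2)), Finset.card_map, Finset.card_univ, ← Nat.card_eq_fintype_card, hb] at h2
    omega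
  rcases le_total (Nat.card R) (Nat.card S) with h | h
  · exact Or.inl (key hR hS h)
  · exact Or.inr (key hS hR h)

theorem nsub_of_cyclic (hm : IsPairEl p ⊤ (P, e)) (hcyc : IsCyclic P) (hQ : Q ≤ P)
    (hf : IsBlockEl (Subgroup.centralizer (Q : Set G)) f) (hbel : Below f (P, e)) :
    NSub p ⊤ (Q, f) (P, e) where
  left := ⟨le_top, hm.pGroup.to_le hQ, by rw [cen_top']; exact hf⟩
  right := hm
  le := hQ
  normal := (le_centralizer_of_cyclic hcyc hQ).trans (Subgroup.centralizer_le_normalizer _)
  inv := hf.cent.inv.mono (le_centralizer_of_cyclic hcyc hQ)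
  occ := hbel

section Local

variable (hS : Split k G) (hb : IsBlockEl ⊤ b) (hm : IsMaxEl p ⊤ b (P, e)) (hcyc : IsCyclic P)
  (hle : NSub p ⊤ (Q, f) (P, e))

include hS hb hm hcyc hle

theorem isMaxEl_centralizer : IsMaxEl p (Subgroup.centralizer (Q : Set G)) f (P, e) := by
  have hPC := le_centralizer_of_cyclic hcyc hle.le
  have hf : IsBlockEl (Subgroup.centralizer (Q : Set G)) f := by simpa using hle.left.block
  have hblk : IsBlockEl (Subgroup.centralizer (P : Set G)) e := by simpa using hm.pair.block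
  have hpair : IsPairEl p (Subgroup.centralizer (Q : Set G)) (P, e) :=
    ⟨hPC, hm.pair.pGroup, by
      show IsBlockEl (cen (Subgroup.centralizer (Q : Set G)) P) e
      rwa [show cen (Subgroup.centralizer (Q : Set G)) P = Subgroup.centralizer (P : Set G) from
        inf_eq_left.2 (Subgroup.centralizer_le hle.le)]⟩
  have hD : IsDefEl p (Subgroup.centralizer (Q : Set G)) f
      (P ⊓ Subgroup.centralizer (Q : Set G)) :=
    (defect_iff_max hS hb hm (Relation.ReflTransGen.single hle)
      (Subgroup.centralizer_le_normalizer _) hf).2 fun g _ =>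
      Subgroup.card_le_of_le (le_inf inf_le_left (inf_le_left.trans hPC))
  rw [inf_eq_left.2 hPC] at hD
  exact isMaxEl_of_isDefEl hpair hle.occ hD

theorem isNilEl_centralizer (hQ1 : Q ≠ ⊥) : IsNilEl p (Subgroup.centralizer (Q : Set G)) f := by
  have hf : IsBlockEl (Subgroup.centralizer (Q : Set G)) f := by simpa using hle.left.block
  intro R g hR hbel x hxC hxR _ hreg
  obtain ⟨y, hy, hple⟩ := exists_conj_ple hS hf hR hbel (isMaxEl_centralizer hS hb hm hcyc hle)
  have hQy : cS y Q = Q := cS_eq_self (Subgroup.centralizer_le_normalizer _ hy)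
  have hxQ : ∀ q ∈ Q, x * q = q * x := fun q hq => (Subgroup.mem_centralizer_iff.1 hxC q hq).symm
  rcases le_or_le_of_cyclic hm.pair.pGroup hcyc (R := cS y R) hple.le hle.le with h | h
  · rw [← hQy, cS_le_cS_iff] at h
    exact Subgroup.mem_centralizer_iff.2 fun r hr => (hxQ r (h hr)).symm
  · rw [← hQy, cS_le_cS_iff] at h
    obtain ⟨w, hw, hw1⟩ := Q.ne_bot_iff_exists_ne_one.1 hQ1 |> fun ⟨w, hw⟩ =>
      (⟨w, w.2, fun e => hw (Subtype.ext e)⟩ : ∃ w, w ∈ Q ∧ w ≠ 1)
    have : IsCyclic R := isCyclic_of_injective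
      ((((MulAut.conj y).toMonoidHom).comp R.subtype).codRestrict P fun r =>
        hple.le (conj_mem_cS r.2))
      fun r s hrs => Subtype.ext ((MulAut.conj y).injective (congrArg Subtype.val hrs))
    refine Subgroup.mem_centralizer_iff.2 fun r hr => ?_
    exact (H86.PPrime.cyclic_fix hR.pGroup hreg hxR (h hw) hw1 (hxQ w hw) r hr).symm

/-- The stabiliser of the subpair is the stabiliser of the pair times the centraliser. -/
theorem exists_mul_mem_pairStab {t : G} (ht : t ∈ pairStab Q f) :
    ∃ y ∈ Subgroup.centralizer (Q : Set G), y * t ∈ pairStab P e := by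
  have hf : IsBlockEl (Subgroup.centralizer (Q : Set G)) f := by simpa using hle.left.block
  have hmax := isMaxEl_centralizer hS hb hm hcyc hle
  have hpair : IsPairEl p (Subgroup.centralizer (Q : Set G)) (cS t P, cj t e) := by
    have := hmax.pair.conj t
    rwa [cS_centralizer, cS_eq_self ht.1] at this
  have hbel : Below f (cS t P, cj t e) := by
    have := hle.occ.conj t
    rwa [show cj t f = f from ht.2] at this
  obtain ⟨y, hy, hy'⟩ := exists_conj_ple hS hf hpair hbel hmax
  dsimp only at hy'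
  rw [← cS_mul, ← cj_mul_apply] at hy'
  have heq : cS (y * t) P = P := Subgroup.eq_of_le_of_card_ge hy'.le (card_cS _ _).ge
  refine ⟨y, hy, mem_normalizer_of_cS heq, ?_⟩
  rw [heq] at hy'
  exact ple_unique hS hmax.pair hy' Relation.ReflTransGen.refl

theorem mem_pairStab_of_mem {t : G} (ht : t ∈ pairStab P e) : t ∈ pairStab Q f := by
  have hQt : cS t Q = Q := by
    have h1 : cS t Q ≤ P := (cS_mono hle.le).trans (cS_eq_self ht.1).le
    rcases le_or_le_of_cyclic hm.pair.pGroup hcyc h1 hle.le with h | h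
    · exact Subgroup.eq_of_le_of_card_ge h (card_cS _ _).ge
    · exact (Subgroup.eq_of_le_of_card_ge h (card_cS _ _).le).symm
  refine ⟨mem_normalizer_of_cS hQt, ?_⟩
  have h2 := PLe.conj_mem (a := (Q, f)) (c := (P, e)) (Relation.ReflTransGen.single hle)
    (Subgroup.mem_top t)
  dsimp only at h2
  rw [hQt, cS_eq_self ht.1, show cj t e = e from ht.2] at h2
  exact ple_unique hS hm.pair h2 (Relation.ReflTransGen.single hle)

/-- An element of the stabiliser centralising `Q` centralises `P`. -/
theorem mem_centralizer_of_mem_stab (hQ1 : Q ≠ ⊥) {t : G}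
    (ht : t ∈ pairStab P e) (htQ : t ∈ Subgroup.centralizer (Q : Set G)) :
    t ∈ Subgroup.centralizer (P : Set G) := by
  obtain ⟨x, hx⟩ := H40.exists_isPPart p t
  obtain ⟨y, rfl, hc, ⟨j, hj⟩, hy⟩ := id hx
  obtain ⟨i, hi⟩ := H40.exists_pow_eq_of_isPPart hx
  have hxT : x ∈ pairStab P e := by rw [← hi]; exact pow_mem ht i
  have hxQ : x ∈ Subgroup.centralizer (Q : Set G) := by rw [← hi]; exact pow_mem htQ i
  have hyT : y ∈ pairStab P e := by
    have := mul_mem (inv_mem hxT) ht
    rwa [inv_mul_cancel_left] at this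
  have hyQ : y ∈ Subgroup.centralizer (Q : Set G) := by
    have := mul_mem (inv_mem hxQ) htQ
    rwa [inv_mul_cancel_left] at this
  refine mul_mem ?_ ?_
  · -- `p`-elements of the stabiliser act trivially
    have hblk : IsBlockEl (Subgroup.centralizer (P : Set G)) e := by simpa using hm.pair.block
    have hD : IsDefEl p (pairStab P e) e (P ⊓ pairStab P e) :=
      (defect_iff_max hS hb hm (Relation.ReflTransGen.refl : PLe p ⊤ (P, e) (P, e))
        inf_le_left (isBlockEl_pairStab hm.pair.pGroup hblk)).2 fun g _ =>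
        Subgroup.card_le_of_le (le_inf inf_le_left
          (inf_le_left.trans (le_pairStab hblk.cent.supp)))
    have hU : IsPGroup p ((Subgroup.zpowers x).subgroupOf (pairStab P e)) :=
      (IsPGroup.of_card ((Nat.card_zpowers x).trans hj)).comap_subtype
    have hcard := card_le_defect_image hS (C := Subgroup.centralizer (P : Set G))
      (centralizer_le_pairStab hblk) (inf_le_left.trans (normalizer_le_normalizer_centralizer P))
      hblk (inv_iff_le_stabEl.2 inf_le_right) hD (stabConj P e)
      (fun u hu => MulEquiv.ext fun z => Subtype.ext (by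
        rw [coe_stabConj, ← Subgroup.mem_centralizer_iff.1 hu z z.2, mul_inv_cancel_right]
        rfl)) (Subgroup.map_le_range (stabConj P e) _) (hU.map (stabConj P e))
    have htriv : ((P ⊓ pairStab P e).subgroupOf (pairStab P e)).map (stabConj P e) = ⊥ := by
      rw [eq_bot_iff]
      rintro _ ⟨u, hu, rfl⟩
      refine MulEquiv.ext fun z => Subtype.ext ?_
      have h3 : (z : G) * (u : G) = (u : G) * (z : G) :=
        Subgroup.mem_centralizer_iff.1 (le_centralizer_of_cyclic hcyc le_rfl hu.1) z z.2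
      rw [coe_stabConj, ← h3, mul_inv_cancel_right]
      rfl
    rw [htriv, Subgroup.card_bot] at hcard
    have h1 : stabConj P e ⟨x, hxT⟩ ∈
        ((Subgroup.zpowers x).subgroupOf (pairStab P e)).map (stabConj P e) :=
      Subgroup.mem_map_of_mem _ (Subgroup.mem_zpowers x)
    rw [Subgroup.eq_bot_of_card_le _ hcard, Subgroup.mem_bot] at h1
    refine Subgroup.mem_centralizer_iff.2 fun z hz => ?_
    have h2 := congrArg (fun φ : MulAut P => ((φ ⟨z, hz⟩ : P) : G)) h1
    rw [coe_stabConj] at h2
    exact (mul_inv_eq_iff_eq_mul.1 h2).symm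
  · obtain ⟨w, hw, hw1⟩ := Q.ne_bot_iff_exists_ne_one.1 hQ1 |> fun ⟨w, hw⟩ =>
      (⟨w, w.2, fun e => hw (Subtype.ext e)⟩ : ∃ w, w ∈ Q ∧ w ≠ 1)
    refine Subgroup.mem_centralizer_iff.2 fun z hz => ?_
    exact (H86.PPrime.cyclic_fix hm.pair.pGroup hy hyT.1 (hle.le hw) hw1
      (Subgroup.mem_centralizer_iff.1 hyQ w hw).symm z hz).symm

end Local

end Cfsg.Agent.H22
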