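import Mathlib.Algebra.BigOperators.Ring.Finset
import Mathlib.Algebra.Order.BigOperators.Group.Finset
import Mathlib.Algebra.Ring.Parity
import Mathlib.LinearAlgebra.Dimension.Finrank
import Mathlib.LinearAlgebra.Dimension.Constructions
import Mathlib.LinearAlgebra.Dimension.StrongRankCondition
import Mathlib.LinearAlgebra.FiniteDimensional.Basic
import Mathlib.Data.Int.Order.Lemmas
import Mathlib.Tactic.Linarith
import Mathlib.Tactic.LinearCombination
import Mathlib.Tactic.IntervalCases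
import Mathlib.Tactic.Ring

/-!
# The numerical part of the dihedral defect theorem

For each member `χ` of the block `a χ r` are the multiplicities of the linear characters of the
cyclic maximal subgroup of order `2 * h`, `D χ` is the value at the central involution.
-/

set_option autoImplicit false
set_option linter.unusedSectionVars false

namespace Cfsg.Agent.H22.Dihedral

variable {ι : Type*} [Fintype ι] [DecidableEq ι]

/-- The difference of two multiplicities. -/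
def wdiff (a : ι → ℕ → ℤ) (r u : ℕ) (χ : ι) : ℤ := a χ r - a χ u

/-- What the block data give. -/
structure Data (h : ℕ) (a : ι → ℕ → ℤ) (D : ι → ℤ) (Z : Finset ι) : Prop where
  gram : ∀ r u r' u', 0 < r → r < h → 0 < u → u < h → 0 < r' → r' < h → 0 < u' → u' < h →
    ∑ χ, wdiff a r u χ * wdiff a r' u' χ =
      (if r = r' then 1 else 0) - (if r = u' then 1 else 0) - (if u = r' then 1 else 0) +
        (if u = u' then 1 else 0)
  inner_D : ∀ r u, 0 < r → r < h → 0 < u → u < h →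
    ∑ χ, wdiff a r u χ * D χ = 2 * ((-1) ^ r - (-1) ^ u)
  sum_D : ∑ χ, D χ ^ 2 = 4 * h
  D_ne : ∀ χ, D χ ≠ 0
  odd_D : ∀ χ, Odd (D χ) ↔ χ ∈ Z
  sum_s : ∑ χ, wdiff a 0 h χ ^ 2 = 4
  odd_s : ∀ χ, Odd (wdiff a 0 h χ) ↔ Odd (D χ)
  nonempty : Z.Nonempty
  card_ge : h + 1 ≤ Fintype.card ι

theorem one_le_sq {x : ℤ} (hx : x ≠ 0) : 1 ≤ x ^ 2 := by
  have := sq_pos_of_ne_zero hx
  omega

theorem odd_sq_eight {x : ℤ} (hx : Odd x) : ∃ t : ℤ, 0 ≤ t ∧ x ^ 2 = 1 + 8 * t := by
  obtain ⟨y, rfl⟩ := hx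
  obtain ⟨t, ht⟩ := Int.even_mul_succ_self y
  have h0 : 0 ≤ (2 * y + 1) ^ 2 - 1 := by
    have := one_le_sq (x := 2 * y + 1) (by omega)
    omega
  have he : (2 * y + 1) ^ 2 = 1 + 8 * t := by linear_combination 4 * ht
  exact ⟨t, by omega, he⟩

theorem even_sq_four {x : ℤ} (hx : ¬ Odd x) (h0 : x ≠ 0) :
    ∃ t : ℤ, 0 ≤ t ∧ x ^ 2 = 4 + 4 * t ∧ (t < 3 → t = 0) := by
  obtain ⟨y, rfl⟩ := Int.not_odd_iff_even.1 hx
  have h1 : y ≠ 0 := fun e => h0 (by rw [e]; rfl)
  refine ⟨y ^ 2 - 1, by have := one_le_sq h1; omega, by ring, fun hlt => ?_⟩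
  have : -2 < y ∧ y < 2 := by constructor <;> nlinarith
  rcases this with ⟨h2, h3⟩
  interval_cases y <;> simp_all

theorem support_pair {w : ι → ℤ} (hw : ∑ χ, w χ ^ 2 = 2) :
    ∃ p q, p ≠ q ∧ w p ^ 2 = 1 ∧ w q ^ 2 = 1 ∧ ∀ χ, χ ≠ p → χ ≠ q → w χ = 0 := by
  have hle : ∀ χ, w χ ^ 2 ≤ 1 := by
    intro χ
    have h := Finset.single_le_sum (f := fun χ => w χ ^ 2) (fun _ _ => sq_nonneg _)
      (Finset.mem_univ χ)
    have h2 : -2 < w χ ∧ w χ < 2 := by constructor <;> nlinarith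
    rcases h2 with ⟨h2, h3⟩
    interval_cases hv : w χ <;> norm_num
  have hval : ∀ χ, w χ ^ 2 = if w χ ≠ 0 then 1 else 0 := by
    intro χ
    by_cases h : w χ = 0
    · simp [h]
    · rw [if_pos h]
      exact le_antisymm (hle χ) (one_le_sq h)
  have hcard : (Finset.univ.filter fun χ => w χ ≠ 0).card = 2 := by
    have h := hw
    rw [Finset.sum_congr rfl fun χ _ => hval χ, ← Finset.sum_filter, Finset.sum_const,
      nsmul_eq_mul, mul_one] at h
    exact_mod_cast h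
  obtain ⟨p, q, hpq, hset⟩ := Finset.card_eq_two.1 hcard
  have hmem : ∀ χ, w χ ≠ 0 ↔ χ = p ∨ χ = q := fun χ => by
    have := Finset.ext_iff.1 hset χ
    simpa using this
  exact ⟨p, q, hpq, by rw [hval, if_pos ((hmem p).2 (Or.inl rfl))],
    by rw [hval, if_pos ((hmem q).2 (Or.inr rfl))], fun χ h1 h2 => by
      by_contra h
      rcases (hmem χ).1 h with e | e <;> contradiction⟩

variable {h : ℕ} {a : ι → ℕ → ℤ} {D : ι → ℤ} {Z : Finset ι}

section Counts

variable (H : Data h a D Z)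

include H

theorem card_Z_le : Z.card ≤ 4 := by
  have h1 : (Z.card : ℤ) ≤ ∑ χ, wdiff a 0 h χ ^ 2 := by
    calc (Z.card : ℤ) = ∑ χ ∈ Z, 1 := by simp
      _ ≤ ∑ χ ∈ Z, wdiff a 0 h χ ^ 2 := Finset.sum_le_sum fun χ hχ => one_le_sq fun e => by
          have := (H.odd_s χ).2 ((H.odd_D χ).2 hχ)
          rw [e] at this
          exact absurd this (by decide)
      _ ≤ _ := Finset.sum_le_sum_of_subset_of_nonneg (Finset.subset_univ _) fun _ _ _ => sq_nonneg _
  rw [H.sum_s] at h1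
  exact_mod_cast h1

theorem counts : Z.card = 4 ∧
    ((Fintype.card ι = h + 3 ∧ ∀ χ ∉ Z, D χ ^ 2 = 4) ∨
      (Fintype.card ι = h + 1 ∧ (∀ χ ∉ Z, D χ ^ 2 = 4) ∧ ∑ χ ∈ Z, D χ ^ 2 = 12)) := by
  have hle := card_Z_le H
  choose! t ht0 ht using fun χ (hχ : χ ∈ Z) => odd_sq_eight ((H.odd_D χ).2 hχ)
  choose! e he0 he he3 using fun χ (hχ : χ ∈ Zᶜ) =>
    even_sq_four (fun ho => Finset.mem_compl.1 hχ ((H.odd_D χ).1 ho)) (H.D_ne χ)
  have hsum := H.sum_D
  rw [← Finset.sum_add_sum_compl Z, Finset.sum_congr rfl ht, Finset.sum_congr rfl he,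
    Finset.sum_add_distrib, Finset.sum_add_distrib, ← Finset.mul_sum, ← Finset.mul_sum,
    Finset.sum_const, Finset.sum_const, nsmul_eq_mul, nsmul_eq_mul, mul_one] at hsum
  have hc : Z.card + Zᶜ.card = Fintype.card ι := Finset.card_add_card_compl Z
  have hA := Finset.sum_nonneg ht0
  have hE := Finset.sum_nonneg he0
  have hpos := H.nonempty.card_pos
  have hge := H.card_ge
  have h4 : Z.card = 4 := by omega
  refine ⟨h4, ?_⟩
  have hlt : ∑ χ ∈ Zᶜ, e χ < 3 := by omega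
  have hz : ∀ χ ∈ Zᶜ, e χ = 0 := fun χ hχ =>
    he3 χ hχ (lt_of_le_of_lt (Finset.single_le_sum he0 hχ) hlt)
  have hout : ∀ χ ∉ Z, D χ ^ 2 = 4 := fun χ hχ => by
    rw [he χ (Finset.mem_compl.2 hχ), hz χ (Finset.mem_compl.2 hχ)]
    rfl
  rw [Finset.sum_eq_zero hz] at hsum
  by_cases hA0 : ∑ χ ∈ Z, t χ = 0
  · exact Or.inl ⟨by omega, hout⟩
  · refine Or.inr ⟨by omega, hout, ?_⟩
    rw [Finset.sum_congr rfl ht, Finset.sum_add_distrib, ← Finset.mul_sum, Finset.sum_const,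
      nsmul_eq_mul, mul_one, h4]
    have : ∑ χ ∈ Z, t χ = 1 := by omega
    rw [this]
    rfl

/-- In the small case the four members outside the exceptional one have squares one. -/
theorem exists_three (h12 : ∑ χ ∈ Z, D χ ^ 2 = 12) (h4 : Z.card = 4) :
    ∃ p₀ ∈ Z, D p₀ ^ 2 = 9 ∧ ∀ χ ∈ Z, χ ≠ p₀ → D χ ^ 2 = 1 := by
  choose! t ht0 ht using fun χ (hχ : χ ∈ Z) => odd_sq_eight ((H.odd_D χ).2 hχ)
  rw [Finset.sum_congr rfl ht, Finset.sum_add_distrib, ← Finset.mul_sum, Finset.sum_const,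
    nsmul_eq_mul, mul_one, h4] at h12
  have h1 : ∑ χ ∈ Z, t χ = 1 := by omega
  obtain ⟨p₀, hp₀, hne⟩ := Finset.exists_ne_zero_of_sum_ne_zero (s := Z) (f := t) (by omega)
  rw [← Finset.add_sum_erase Z t hp₀] at h1
  have hr := Finset.sum_nonneg (f := t) (s := Z.erase p₀) fun χ hχ => ht0 χ (Finset.mem_of_mem_erase hχ)
  have h0 := ht0 p₀ hp₀
  refine ⟨p₀, hp₀, by rw [ht p₀ hp₀]; omega, fun χ hχ hne' => ?_⟩
  have hle := Finset.single_le_sum (f := t) (fun χ hχ => ht0 χ (Finset.mem_of_mem_erase hχ))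
    (Finset.mem_erase.2 ⟨hne', hχ⟩)
  have := ht0 χ hχ
  rw [ht χ hχ]
  omega

theorem norm_two {r u : ℕ} (hr0 : 0 < r) (hr : r < h) (hu0 : 0 < u) (hu : u < h) (hne : r ≠ u) :
    ∑ χ, wdiff a r u χ ^ 2 = 2 := by
  simp only [sq]
  rw [H.gram r u r u hr0 hr hu0 hu hr0 hr hu0 hu]
  simp [hne, Ne.symm hne]

/-- A mixed difference lies inside `Z` or outside it. -/
theorem mixed_cases (hout : ∀ χ ∉ Z, D χ ^ 2 = 4) {p₀ : ι} (hp₀ : D p₀ ^ 2 = 9)
    (hone : ∀ χ ∈ Z, χ ≠ p₀ → D χ ^ 2 = 1) {r u : ℕ} (hr0 : 0 < r) (hr : r < h) (hu0 : 0 < u)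
    (hu : u < h) (hro : Odd r) (hue : Even u) :
    (∀ χ, wdiff a r u χ ≠ 0 → χ ∉ Z) ∨
      ∃ q ∈ Z.erase p₀, ∀ χ, wdiff a r u χ =
        if χ = p₀ ∨ χ = q then (if 0 < D χ then -1 else 1) else 0 := by
  have hne : r ≠ u := fun e => (Nat.not_even_iff_odd.2 hro) (e ▸ hue)
  obtain ⟨p, q, hpq, hp, hq, hz⟩ := support_pair (norm_two H hr0 hr hu0 hu hne)
  have hin := H.inner_D r u hr0 hr hu0 hu
  rw [hro.neg_one_pow, hue.neg_one_pow,
    ← Finset.sum_subset (Finset.subset_univ ({p, q} : Finset ι)) (fun χ _ hχ => by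
      rw [hz χ (fun e => hχ (by simp [e])) (fun e => hχ (by simp [e])), zero_mul]),
    Finset.sum_pair hpq] at hin
  have hD : ∀ χ, (χ ∉ Z ∧ (D χ = 2 ∨ D χ = -2)) ∨ (χ ∈ Z ∧ χ ≠ p₀ ∧ (D χ = 1 ∨ D χ = -1)) ∨
      (χ = p₀ ∧ (D χ = 3 ∨ D χ = -3)) := by
    intro χ
    by_cases hχ : χ ∈ Z
    · by_cases e : χ = p₀
      · right; right
        refine ⟨e, ?_⟩
        have : D χ ^ 2 = 3 ^ 2 := by rw [e, hp₀]; norm_num
        exact sq_eq_sq_iff_eq_or_eq_neg.1 this
      · right; left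
        exact ⟨hχ, e, sq_eq_one_iff.1 (hone χ hχ e)⟩
    · left
      refine ⟨hχ, ?_⟩
      have : D χ ^ 2 = 2 ^ 2 := by rw [hout χ hχ]; norm_num
      exact sq_eq_sq_iff_eq_or_eq_neg.1 this
  have hwp := sq_eq_one_iff.1 hp
  have hwq := sq_eq_one_iff.1 hq
  rcases hD p with ⟨hpZ, dp⟩ | ⟨hpZ, hp0, dp⟩ | ⟨rfl, dp⟩ <;>
    rcases hD q with ⟨hqZ, dq⟩ | ⟨hqZ, hq0, dq⟩ | ⟨rfl, dq⟩
  · left
    intro χ hχ
    by_contra hχZ
    exact hχ (hz χ (fun e => hpZ (e ▸ hχZ)) (fun e => hqZ (e ▸ hχZ)))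
  · exfalso
    rcases hwp with e1 | e1 <;> rcases hwq with e2 | e2 <;> rcases dp with e3 | e3 <;>
      rcases dq with e4 | e4 <;> rw [e1, e2, e3, e4] at hin <;> omega
  · exfalso
    rcases hwp with e1 | e1 <;> rcases hwq with e2 | e2 <;> rcases dp with e3 | e3 <;>
      rcases dq with e4 | e4 <;> rw [e1, e2, e3, e4] at hin <;> omega
  · exfalso
    rcases hwp with e1 | e1 <;> rcases hwq with e2 | e2 <;> rcases dp with e3 | e3 <;>
      rcases dq with e4 | e4 <;> rw [e1, e2, e3, e4] at hin <;> omega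
  · exfalso
    rcases hwp with e1 | e1 <;> rcases hwq with e2 | e2 <;> rcases dp with e3 | e3 <;>
      rcases dq with e4 | e4 <;> rw [e1, e2, e3, e4] at hin <;> omega
  · right
    refine ⟨p, Finset.mem_erase.2 ⟨hp0, hpZ⟩, fun χ => ?_⟩
    split_ifs with hc hpos
    · rcases hc with rfl | rfl <;> rcases hwp with e1 | e1 <;> rcases hwq with e2 | e2 <;>
        rcases dp with e3 | e3 <;> rcases dq with e4 | e4 <;> rw [e1, e2, e3, e4] at hin <;> omega
    · rcases hc with rfl | rfl <;> rcases hwp with e1 | e1 <;> rcases hwq with e2 | e2 <;>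
        rcases dp with e3 | e3 <;> rcases dq with e4 | e4 <;> rw [e1, e2, e3, e4] at hin <;> omega
    · push Not at hc
      exact hz χ hc.2 hc.1
  · exfalso
    rcases hwp with e1 | e1 <;> rcases hwq with e2 | e2 <;> rcases dp with e3 | e3 <;>
      rcases dq with e4 | e4 <;> rw [e1, e2, e3, e4] at hin <;> omega
  · right
    refine ⟨q, Finset.mem_erase.2 ⟨hq0, hqZ⟩, fun χ => ?_⟩
    split_ifs with hc hpos
    · rcases hc with rfl | rfl <;> rcases hwp with e1 | e1 <;> rcases hwq with e2 | e2 <;>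
        rcases dp with e3 | e3 <;> rcases dq with e4 | e4 <;> rw [e1, e2, e3, e4] at hin <;> omega
    · rcases hc with rfl | rfl <;> rcases hwp with e1 | e1 <;> rcases hwq with e2 | e2 <;>
        rcases dp with e3 | e3 <;> rcases dq with e4 | e4 <;> rw [e1, e2, e3, e4] at hin <;> omega
    · push Not at hc
      exact hz χ hc.1 hc.2
  · exact absurd rfl hpq

theorem false_of_small (h8 : 8 ≤ h) (hk : Fintype.card ι = h + 1)
    (hout : ∀ χ ∉ Z, D χ ^ 2 = 4) (h12 : ∑ χ ∈ Z, D χ ^ 2 = 12) (h4 : Z.card = 4) : False := by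
  obtain ⟨p₀, hp₀Z, hp₀, hone⟩ := exists_three H h12 h4
  have hmix := fun {r u : ℕ} (hr0 : 0 < r) (hr : r < h) (hu0 : 0 < u) (hu : u < h) (hro : Odd r)
    (hue : Even u) => mixed_cases H hout hp₀ hone hr0 hr hu0 hu hro hue
  -- nearby mixed differences are of the same kind
  have hlink : ∀ r u r' u', 0 < r → r < h → 0 < u → u < h → 0 < r' → r' < h → 0 < u' → u' < h →
      (r = r' ∧ u ≠ u' ∨ r ≠ r' ∧ u = u') → Odd r → Even u → Odd r' → Even u' →
      (∀ χ, wdiff a r u χ ≠ 0 → χ ∉ Z) → ∀ χ, wdiff a r' u' χ ≠ 0 → χ ∉ Z := by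
    intro r u r' u' hr0 hr hu0 hu hr0' hr' hu0' hu' hor hro hue hro' hue' hall
    rcases hmix hr0' hr' hu0' hu' hro' hue' with h' | ⟨q, hq, h'⟩
    · exact h'
    exfalso
    have hg := H.gram r u r' u' hr0 hr hu0 hu hr0' hr' hu0' hu'
    have hru : r ≠ u' ∧ u ≠ r' := ⟨fun e => (Nat.not_even_iff_odd.2 hro) (e ▸ hue'),
      fun e => (Nat.not_even_iff_odd.2 hro') (e ▸ hue)⟩
    rw [Finset.sum_eq_zero fun χ _ => ?_, if_neg hru.1, if_neg hru.2] at hg
    · rcases hor with ⟨e, e'⟩ | ⟨e, e'⟩ <;> simp [e, e'] at hg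
    · by_cases hw : wdiff a r u χ = 0
      · rw [hw, zero_mul]
      · rw [h' χ, if_neg, mul_zero]
        rintro (rfl | rfl)
        · exact hall _ hw hp₀Z
        · exact hall _ hw (Finset.mem_of_mem_erase hq)
  have o1 : Odd 1 := odd_one
  have o3 : Odd 3 := by decide
  have e2 : Even 2 := even_two
  have e4 : Even 4 := by decide
  have e6 : Even 6 := by decide
  have hout12 : ∀ χ, wdiff a 1 2 χ ≠ 0 → χ ∉ Z := by
    by_contra hno
    -- otherwise four distinct differences are supported on `p₀` and one of three others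
    let pr : Fin 4 → ℕ × ℕ := ![(1, 2), (1, 4), (1, 6), (3, 2)]
    have hpr : ∀ i, 0 < (pr i).1 ∧ (pr i).1 < h ∧ 0 < (pr i).2 ∧ (pr i).2 < h ∧
        Odd (pr i).1 ∧ Even (pr i).2 := by
      intro i
      fin_cases i <;> simp [pr, o1, o3, e2, e4, e6] <;> omega
    have hzed : ∀ i, ∃ q ∈ Z.erase p₀, ∀ χ, wdiff a (pr i).1 (pr i).2 χ =
        if χ = p₀ ∨ χ = q then (if 0 < D χ then -1 else 1) else 0 := by
      intro i
      obtain ⟨h1, h2, h3, h4', h5, h6⟩ := hpr i
      rcases hmix h1 h2 h3 h4' h5 h6 with hh | hh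
      · exfalso
        apply hno
        fin_cases i
        · exact hh
        · exact hlink 1 4 1 2 one_pos (by omega) (by omega) (by omega) one_pos (by omega) two_pos
            (by omega) (Or.inl ⟨rfl, by omega⟩) o1 e4 o1 e2 hh
        · exact hlink 1 6 1 2 one_pos (by omega) (by omega) (by omega) one_pos (by omega) two_pos
            (by omega) (Or.inl ⟨rfl, by omega⟩) o1 e6 o1 e2 hh
        · exact hlink 3 2 1 2 (by omega) (by omega) (by omega) (by omega) one_pos (by omega) two_pos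
            (by omega) (Or.inr ⟨by omega, rfl⟩) o3 e2 o1 e2 hh
      · exact hh
    choose q hq hval using hzed
    have hcard : (Z.erase p₀).card < (Finset.univ : Finset (Fin 4)).card := by
      rw [Finset.card_erase_of_mem hp₀Z, h4]
      simp
    obtain ⟨i, -, j, -, hij, hqq⟩ :=
      Finset.exists_ne_map_eq_of_card_lt_of_maps_to hcard (f := q) fun i _ => hq i
    have heq : ∀ χ, wdiff a (pr i).1 (pr i).2 χ = wdiff a (pr j).1 (pr j).2 χ := fun χ => by
      rw [hval, hval, hqq]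
    obtain ⟨i1, i2, i3, i4, i5, i6⟩ := hpr i
    obtain ⟨j1, j2, j3, j4, j5, j6⟩ := hpr j
    have g1 := H.gram _ _ _ _ i1 i2 i3 i4 i1 i2 i3 i4
    have g2 := H.gram _ _ _ _ i1 i2 i3 i4 j1 j2 j3 j4
    rw [Finset.sum_congr rfl fun χ _ => by rw [← heq χ], g1] at g2
    fin_cases i <;> fin_cases j <;> simp [pr] at g2 hij
  have houtr : ∀ t, 0 < t → t < h → t ≠ 1 → ∀ χ ∈ Z, wdiff a 1 t χ = 0 := by
    intro t ht0 ht ht1 χ hχ
    rcases Nat.even_or_odd t with hte | hto
    · by_contra hw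
      by_cases ht2 : t = 2
      · subst ht2; exact hout12 χ hw hχ
      · exact hlink 1 2 1 t one_pos (by omega) two_pos (by omega) one_pos (by omega) ht0 ht
          (Or.inl ⟨rfl, Ne.symm ht2⟩) o1 e2 o1 hte hout12 χ hw hχ
    · have h1 : wdiff a 1 2 χ = 0 := by
        by_contra hw; exact hout12 χ hw hχ
      have h2 : wdiff a t 2 χ = 0 := by
        by_contra hw
        exact hlink 1 2 t 2 one_pos (by omega) two_pos (by omega) ht0 ht two_pos (by omega)
          (Or.inr ⟨Ne.symm ht1, rfl⟩) o1 e2 hto e2 hout12 χ hw hχ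
      simp only [wdiff] at h1 h2 ⊢
      omega
  -- too many independent differences outside `Z`
  let v : Fin (h - 2) → ({χ // χ ∉ Z} → ℚ) := fun t χ => (wdiff a 1 (t + 2) χ.1 : ℚ)
  have hli : LinearIndependent ℚ v := by
    rw [Fintype.linearIndependent_iff]
    intro g hg t
    have hg' : ∀ χ, ∑ i, g i * (wdiff a 1 (i + 2) χ : ℚ) = 0 := by
      intro χ
      by_cases hχ : χ ∈ Z
      · refine Finset.sum_eq_zero fun i _ => ?_
        rw [houtr _ (by omega) (by omega) (by omega) χ hχ]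
        simp
      · have := congrFun hg ⟨χ, hχ⟩
        simpa [v, Finset.sum_apply] using this
    have key : ∀ s : Fin (h - 2), g s + ∑ i, g i = 0 := by
      intro s
      have h0 : ∑ χ, (∑ i, g i * (wdiff a 1 (i + 2) χ : ℚ)) * (wdiff a 1 (s + 2) χ : ℚ) = 0 :=
        Finset.sum_eq_zero fun χ _ => by rw [hg' χ, zero_mul]
      simp only [Finset.sum_mul] at h0
      rw [Finset.sum_comm] at h0
      have hin : ∀ i : Fin (h - 2), ∑ χ, g i * (wdiff a 1 (i + 2) χ : ℚ) * (wdiff a 1 (s + 2) χ : ℚ) =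
          g i * ((if i = s then 1 else 0) + 1) := by
        intro i
        have hgr := H.gram 1 (i + 2) 1 (s + 2) one_pos (by omega) (by omega) (by omega) one_pos
          (by omega) (by omega) (by omega)
        rw [if_pos rfl, if_neg (by omega : ¬ 1 = (s : ℕ) + 2), if_neg (by omega : ¬ (i : ℕ) + 2 = 1)]
          at hgr
        rw [Finset.sum_congr rfl fun χ _ => mul_assoc _ _ _, ← Finset.mul_sum]
        congr 1
        have := congrArg (fun z : ℤ => (z : ℚ)) hgr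
        simp only [Fin.ext_iff]
        push_cast at this
        rw [this]
        by_cases e : (i : ℕ) = s <;> simp [e]
      rw [Finset.sum_congr rfl fun i _ => hin i] at h0
      simp only [mul_add, mul_one, Finset.sum_add_distrib, mul_ite, mul_zero, Finset.sum_ite_eq',
        Finset.mem_univ, if_true] at h0
      exact h0
    have hS : ∑ i, g i = 0 := by
      have h0 := Finset.sum_eq_zero (s := Finset.univ) fun s _ => key s
      rw [Finset.sum_add_distrib, Finset.sum_const, Finset.card_univ, Fintype.card_fin,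
        nsmul_eq_mul] at h0
      have h1 : ((h - 2 : ℕ) : ℚ) + 1 ≠ 0 := by positivity
      exact (mul_eq_zero.1 (by linear_combination h0 : (((h - 2 : ℕ) : ℚ) + 1) * ∑ i, g i = 0)).resolve_left h1
    have := key t
    linarith
  have hle := hli.fintype_card_le_finrank
  rw [Module.finrank_fintype_fun_eq_card, Fintype.card_fin, Fintype.card_subtype_compl,
    Fintype.card_coe, h4, hk] at hle
  omega

/-- The conclusion, except in the case `h = 4`. -/
theorem main (hev : Even h) (h6 : h ≠ 6) (hsmall : h = 4 → Fintype.card ι = 5 → False) :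
    Z.card = 4 ∧ Fintype.card ι = h + 3 ∧ ∀ χ ∉ Z, D χ ^ 2 = 4 := by
  obtain ⟨h4, h' | ⟨hk, hout, h12⟩⟩ := counts H
  · exact ⟨h4, h'⟩
  exfalso
  have hcard := Finset.card_le_univ Z
  rw [h4, hk] at hcard
  by_cases h8 : 8 ≤ h
  · exact false_of_small H h8 hk hout h12 h4
  · by_cases he : h = 4
    · exact hsmall he (by omega)
    · obtain ⟨m, rfl⟩ := hev
      omega

end Counts

end Cfsg.Agent.H22.Dihedral
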