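import Cfsg.Agent.H22.TICore
import Cfsg.Agent.H42.RegularPart
import Mathlib.Algebra.Field.GeomSum
import Mathlib.RingTheory.RootsOfUnity.Complex

/-!
# Class functions of a dihedral group supported on the rotations
-/

set_option autoImplicit false
set_option linter.unusedSectionVars false

open scoped ComplexConjugate Classical

namespace Cfsg.Agent.H22.DihFun

open Cfsg

theorem geo {N : ℕ} (hN : 0 < N) {ζ : ℂ} (hζ : IsPrimitiveRoot ζ N) (m : ℤ) :
    ∑ j ∈ Finset.range N, ζ ^ (m * j) = if (N : ℤ) ∣ m then (N : ℂ) else 0 := by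
  have he : ∀ j : ℕ, ζ ^ (m * j) = (ζ ^ m) ^ j := fun j => by rw [zpow_mul, zpow_natCast]
  simp only [he]
  split_ifs with hm
  · rw [(hζ.zpow_eq_one_iff_dvd m).2 hm]
    simp
  · have h1 : ζ ^ m ≠ 1 := fun h => hm ((hζ.zpow_eq_one_iff_dvd m).1 h)
    rw [geom_sum_eq h1, ← zpow_natCast, ← zpow_mul, mul_comm, zpow_mul, zpow_natCast,
      hζ.pow_eq_one]
    simp

variable {P : Type*} [Group P] [Fintype P]

/-- A group with a cyclic subgroup of index two inverted by the other elements. -/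
structure Cyc (P : Type*) [Group P] (σ : P) (h : ℕ) : Prop where
  two_le : 2 ≤ h
  order : orderOf σ = 2 * h
  card : Nat.card P = 4 * h
  refl : ∀ v : P, v ∉ Subgroup.zpowers σ → v * σ * v⁻¹ = σ⁻¹
  pGroup : IsPGroup 2 P

variable {σ : P} {h : ℕ} (hc : Cyc P σ h)

include hc

theorem N_pos : 0 < 2 * h := by have := hc.two_le; omega

theorem card_A : Nat.card (Subgroup.zpowers σ) = 2 * h := by
  rw [Nat.card_zpowers, hc.order]

theorem exists_pow {g : P} (hg : g ∈ Subgroup.zpowers σ) : ∃ j < 2 * h, g = σ ^ j := by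
  rw [(isOfFinOrder_of_finite σ).mem_zpowers_iff_mem_range_orderOf, Finset.mem_image] at hg
  obtain ⟨j, hj, e⟩ := hg
  exact ⟨j, hc.order ▸ Finset.mem_range.1 hj, e.symm⟩

theorem pow_inj {i j : ℕ} (hi : i < 2 * h) (hj : j < 2 * h) (e : σ ^ i = σ ^ j) : i = j :=
  pow_injOn_Iio_orderOf (by simpa [hc.order] using hi) (by simpa [hc.order] using hj) e

theorem pow_eq_iff_dvd {i j : ℕ} : σ ^ i = σ ^ j ↔ ((2 * h : ℕ) : ℤ) ∣ (j : ℤ) - i := by
  rw [← zpow_natCast, ← zpow_natCast σ j, zpow_eq_zpow_iff_modEq, hc.order, Int.modEq_iff_dvd]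

theorem orderOf_z : orderOf (σ ^ h) = 2 := by
  have := hc.two_le
  rw [orderOf_pow' σ (by omega), hc.order, Nat.gcd_eq_right (dvd_mul_left h 2)]
  exact Nat.mul_div_left 2 (by omega)

theorem z_mem_zpowers {u : P} (hu : u ∈ Subgroup.zpowers σ) (h1 : u ≠ 1) :
    σ ^ h ∈ Subgroup.zpowers u := by
  have : Fact (Nat.Prime 2) := ⟨Nat.prime_two⟩
  obtain ⟨k, hk⟩ := IsPGroup.iff_orderOf.1 hc.pGroup u
  have hw : orderOf (u ^ (2 ^ (k - 1))) = 2 := by
    rcases k with - | k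
    · exact absurd (orderOf_eq_one_iff.1 (by rw [hk, pow_zero])) h1
    · rw [orderOf_pow' _ (pow_ne_zero _ two_ne_zero), hk, Nat.add_sub_cancel,
        Nat.gcd_eq_right (pow_dvd_pow 2 (Nat.le_succ k)), Nat.pow_div (Nat.le_succ k) two_pos]
      simp
  rw [TICore.eq_of_mem_zpowers (g := σ) (z := u ^ (2 ^ (k - 1))) (z' := σ ^ h) hw (orderOf_z hc)
    (Subgroup.pow_mem _ hu _) (Subgroup.pow_mem _ (Subgroup.mem_zpowers σ) _)]
  exact Subgroup.pow_mem _ (Subgroup.mem_zpowers u) _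

theorem conj_pow_eq {v : P} (hv : v ∉ Subgroup.zpowers σ) {g : P} (hg : g ∈ Subgroup.zpowers σ) :
    v * g * v⁻¹ = g⁻¹ := by
  obtain ⟨i, rfl⟩ := hg
  show v * σ ^ i * v⁻¹ = (σ ^ i)⁻¹
  rw [← conj_zpow, hc.refl v hv, inv_zpow]

theorem mem_of_conj {v g : P} (h' : v * g * v⁻¹ ∈ Subgroup.zpowers σ) :
    g ∈ Subgroup.zpowers σ := by
  by_cases hv : v ∈ Subgroup.zpowers σ
  · have := (Subgroup.zpowers σ).mul_mem ((Subgroup.zpowers σ).mul_mem
      ((Subgroup.zpowers σ).inv_mem hv) h') hv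
    simpa [mul_assoc] using this
  · have hv' : v⁻¹ ∉ Subgroup.zpowers σ := fun e => hv (by simpa using (Subgroup.zpowers σ).inv_mem e)
    have := conj_pow_eq hc hv' h'
    rw [show v⁻¹ * (v * g * v⁻¹) * v⁻¹⁻¹ = g by group] at this
    rw [this]
    exact (Subgroup.zpowers σ).inv_mem h'

theorem sum_A (F : Subgroup.zpowers σ → ℂ) :
    ∑ a, F a = ∑ j ∈ Finset.range (2 * h), F ⟨σ ^ j, Subgroup.pow_mem _ (Subgroup.mem_zpowers σ) j⟩ := by
  symm
  refine Finset.sum_bij (fun j _ => ⟨σ ^ j, Subgroup.pow_mem _ (Subgroup.mem_zpowers σ) j⟩)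
    (fun _ _ => Finset.mem_univ _) (fun i hi j hj e => ?_) (fun a _ => ?_) (fun _ _ => rfl)
  · exact pow_inj hc (Finset.mem_range.1 hi) (Finset.mem_range.1 hj) (congrArg Subtype.val e)
  · obtain ⟨j, hj, e⟩ := exists_pow hc a.2
    exact ⟨j, Finset.mem_range.2 hj, Subtype.ext e.symm⟩

theorem ind_of_notMem (θ : Subgroup.zpowers σ → ℂ) {g : P} (hg : g ∉ Subgroup.zpowers σ) :
    indFun (Subgroup.zpowers σ) θ g = 0 := by
  rw [H25.indFun_apply]
  refine mul_eq_zero_of_right _ (Finset.sum_eq_zero fun x _ => H25.extendByZero_of_notMem _ _ ?_)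
  intro h'
  exact hg (mem_of_conj hc (v := x⁻¹) (by simpa using h'))

theorem ind_of_mem (θ : Subgroup.zpowers σ → ℂ) (g : Subgroup.zpowers σ) :
    indFun (Subgroup.zpowers σ) θ g = θ g + θ g⁻¹ := by
  have hA : (Finset.univ.filter fun x : P => x ∈ (Subgroup.zpowers σ)).card = 2 * h := by
    rw [← Fintype.card_subtype, ← card_A hc, Nat.card_eq_fintype_card]
  have hA' : (Finset.univ.filter fun x : P => x ∉ (Subgroup.zpowers σ)).card = 2 * h := by
    have := Finset.card_filter_add_card_filter_not (s := (Finset.univ : Finset P)) (fun x => x ∈ (Subgroup.zpowers σ))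
    rw [Finset.card_univ, hA, ← Nat.card_eq_fintype_card, hc.card] at this
    omega
  rw [H25.indFun_apply, ← Finset.sum_filter_add_sum_filter_not Finset.univ (fun x : P => x ∈ (Subgroup.zpowers σ)),
    Finset.sum_congr rfl fun x hx => show extendByZero (Subgroup.zpowers σ) θ (x⁻¹ * (g : P) * x) = θ g from ?_,
    Finset.sum_congr (s₁ := Finset.univ.filter fun x : P => x ∉ (Subgroup.zpowers σ)) rfl
      fun x hx => show extendByZero (Subgroup.zpowers σ) θ (x⁻¹ * (g : P) * x) = θ g⁻¹ from ?_,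
    Finset.sum_const, Finset.sum_const, hA, hA', card_A hc, nsmul_eq_mul, nsmul_eq_mul, ← mul_add,
    ← mul_assoc, inv_mul_cancel₀ (Nat.cast_ne_zero.2 (N_pos hc).ne'), one_mul]
  · have hx' : x⁻¹ ∉ (Subgroup.zpowers σ) := fun e => (Finset.mem_filter.1 hx).2 (by simpa using (Subgroup.zpowers σ).inv_mem e)
    have := conj_pow_eq hc hx' g.2
    rw [inv_inv] at this
    rw [this]
    exact H25.extendByZero_apply_coe (Subgroup.zpowers σ) θ g⁻¹
  · have hx' := (Finset.mem_filter.1 hx).2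
    obtain ⟨i, rfl⟩ := hx'
    rw [show ((σ ^ i : P))⁻¹ * (g : P) * σ ^ i = g by
      obtain ⟨j, hj⟩ := g.2
      rw [← hj]
      show (σ ^ i)⁻¹ * σ ^ j * σ ^ i = σ ^ j
      group]
    exact H25.extendByZero_apply_coe (Subgroup.zpowers σ) θ g

theorem classInner_ind (θ : Subgroup.zpowers σ → ℂ) {F : P → ℂ} (hF : IsClassFunction P F) :
    classInner (indFun (Subgroup.zpowers σ) θ) F = ((2 * h : ℕ) : ℂ)⁻¹ *
      ∑ j ∈ Finset.range (2 * h),
        θ ⟨σ ^ j, Subgroup.pow_mem _ (Subgroup.mem_zpowers σ) j⟩ * conj (F (σ ^ j)) := by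
  rw [H25.classInner_indFun_left _ _ _ hF, classInner, card_A hc, sum_A hc]

omit hc in
/-- The base primitive root. -/
noncomputable def root (h : ℕ) : ℂ :=
  Complex.exp (2 * Real.pi * Complex.I / ((2 * h : ℕ) : ℂ))

theorem root_prim : IsPrimitiveRoot (root h) (2 * h) :=
  Complex.isPrimitiveRoot_exp (2 * h) (N_pos hc).ne'

theorem root_h : root h ^ (h : ℤ) = -1 := by
  have h1 : IsPrimitiveRoot (root h ^ h) 2 := (root_prim hc).pow (N_pos hc) (mul_comm 2 h)
  rw [zpow_natCast]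
  exact h1.eq_neg_one_of_two_right

theorem exists_hom : ∃ f : Subgroup.zpowers σ →* ℂˣ,
    ∀ j : ℕ, (f ⟨σ ^ j, Subgroup.pow_mem _ (Subgroup.mem_zpowers σ) j⟩ : ℂ) = root h ^ j := by
  have hz := root_prim hc
  set u : ℂˣ := (hz.isUnit (N_pos hc).ne').unit
  have hgen : ∀ x : Subgroup.zpowers σ, x ∈ Subgroup.zpowers (⟨σ, Subgroup.mem_zpowers σ⟩ :
      Subgroup.zpowers σ) := by
    rintro ⟨x, i, rfl⟩
    exact ⟨i, Subtype.ext (by simp)⟩
  have hord : orderOf u ∣ orderOf (⟨σ, Subgroup.mem_zpowers σ⟩ : Subgroup.zpowers σ) := by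
    rw [Subgroup.orderOf_mk, hc.order, orderOf_dvd_iff_pow_eq_one]
    exact Units.ext (by simpa [u] using hz.pow_eq_one)
  refine ⟨monoidHomOfForallMemZpowers hgen hord, fun j => ?_⟩
  rw [show (⟨σ ^ j, Subgroup.pow_mem _ (Subgroup.mem_zpowers σ) j⟩ : Subgroup.zpowers σ) =
    ⟨σ, Subgroup.mem_zpowers σ⟩ ^ j from Subtype.ext (by simp), map_pow,
    monoidHomOfForallMemZpowers_apply_gen]
  simp [u]

/-- A linear character of the rotations. -/
noncomputable def lam (r : ℕ) : Subgroup.zpowers σ → ℂ :=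
  fun a => (((exists_hom hc).choose ^ r) a : ℂ)

theorem lam_irr (r : ℕ) : IsIrrCharacter (Subgroup.zpowers σ) (lam hc r) :=
  H26.isIrrCharacter_hom _

theorem lam_pow (r j : ℕ) :
    lam hc r ⟨σ ^ j, Subgroup.pow_mem _ (Subgroup.mem_zpowers σ) j⟩ =
      root h ^ ((r : ℤ) * j) := by
  rw [lam, MonoidHom.pow_apply, Units.val_pow_eq_pow_val, (exists_hom hc).choose_spec, ← pow_mul,
    mul_comm, ← zpow_natCast]
  push_cast
  rfl

theorem lam_inv (r j : ℕ) :
    lam hc r (⟨σ ^ j, Subgroup.pow_mem _ (Subgroup.mem_zpowers σ) j⟩ : Subgroup.zpowers σ)⁻¹ =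
      root h ^ (-((r : ℤ) * j)) := by
  rw [zpow_neg, ← lam_pow hc]
  simp [lam]

/-- The induced linear character. -/
noncomputable def fr (r : ℕ) : P → ℂ := indFun (Subgroup.zpowers σ) (lam hc r)

theorem fr_class (r : ℕ) : IsClassFunction P (fr hc r) := H25.isClassFunction_indFun _ _

theorem fr_pow (r j : ℕ) :
    fr hc r (σ ^ j) = root h ^ ((r : ℤ) * j) + root h ^ (-((r : ℤ) * j)) := by
  rw [← lam_pow hc, ← lam_inv hc]
  exact ind_of_mem hc _ ⟨σ ^ j, _⟩

theorem conj_root (m : ℤ) : conj (root h ^ m) = root h ^ (-m) := by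
  rw [map_zpow₀, zpow_neg, ← inv_zpow]
  congr 1
  refine (Complex.inv_eq_conj ?_).symm
  exact Complex.norm_eq_one_of_pow_eq_one (root_prim hc).pow_eq_one (N_pos hc).ne'

theorem fr_z (r : ℕ) : fr hc r (σ ^ h) = 2 * (-1) ^ r := by
  rw [fr_pow hc, mul_comm (r : ℤ), zpow_neg, zpow_mul, root_h hc, zpow_natCast]
  rcases neg_one_pow_eq_or ℂ r with e | e <;> rw [e] <;> norm_num

theorem fr_one (r : ℕ) : fr hc r 1 = 2 := by
  have := fr_pow hc r 0
  rw [pow_zero] at this
  rw [this]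
  norm_num

theorem fr_sub_eq_zero (r u : ℕ) (g : P) (hg : σ ^ h ∉ Subgroup.zpowers g) :
    (fr hc r - fr hc u) g = 0 := by
  by_cases hA : g ∈ Subgroup.zpowers σ
  · by_cases h1 : g = 1
    · rw [h1, Pi.sub_apply, fr_one hc, fr_one hc, sub_self]
    · exact absurd (z_mem_zpowers hc hA h1) hg
  · rw [Pi.sub_apply, fr, fr, ind_of_notMem hc _ hA, ind_of_notMem hc _ hA, sub_self]

theorem inner_fr (r u : ℕ) :
    classInner (fr hc r) (fr hc u) =
      (if ((2 * h : ℕ) : ℤ) ∣ (r : ℤ) - u then 1 else 0) +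
        (if ((2 * h : ℕ) : ℤ) ∣ (r : ℤ) + u then 1 else 0) := by
  rw [fr, classInner_ind hc _ (fr_class hc u)]
  have : ∀ j ∈ Finset.range (2 * h),
      lam hc r ⟨σ ^ j, Subgroup.pow_mem _ (Subgroup.mem_zpowers σ) j⟩ * conj (fr hc u (σ ^ j)) =
        root h ^ (((r : ℤ) - u) * j) + root h ^ (((r : ℤ) + u) * j) := by
    intro j _
    have h0 : root h ≠ 0 := (root_prim hc).ne_zero (N_pos hc).ne'
    rw [lam_pow hc, fr_pow hc, map_add, conj_root hc, conj_root hc, mul_add, ← zpow_add₀ h0,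
      ← zpow_add₀ h0]
    ring_nf
  rw [Finset.sum_congr rfl this, Finset.sum_add_distrib, geo (N_pos hc) (root_prim hc),
    geo (N_pos hc) (root_prim hc), mul_add]
  have hN : ((2 * h : ℕ) : ℂ) ≠ 0 := Nat.cast_ne_zero.2 (N_pos hc).ne'
  split_ifs <;> simp only [mul_zero, inv_mul_cancel₀ hN]

theorem exists_int_inner {F : P → ℂ} (hF : IsGeneralizedCharacter P F) (hF' : IsClassFunction P F)
    (r : ℕ) : ∃ n : ℤ, classInner (fr hc r) F = n := by
  rw [fr, H25.classInner_indFun_left _ _ _ hF']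
  obtain ⟨a, b, ha, hb, rfl⟩ := hF
  obtain ⟨n, hn⟩ := H42.exists_int_classInner (θ := fun x : Subgroup.zpowers σ => (a - b) (x : P))
    ⟨_, _, H26.isCharacter_comp ha (Subgroup.zpowers σ).subtype,
      H26.isCharacter_comp hb (Subgroup.zpowers σ).subtype, rfl⟩ ⟨lam hc r, lam_irr hc r⟩
  exact ⟨n, by rw [H26.classInner_comm, hn]; simp⟩

theorem fr_symm {r : ℕ} (hr : r ≤ 2 * h) : fr hc (2 * h - r) = fr hc r := by
  funext g
  by_cases hA : g ∈ Subgroup.zpowers σ
  · obtain ⟨j, -, rfl⟩ := exists_pow hc hA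
    rw [fr_pow hc, fr_pow hc, add_comm]
    have h0 : root h ≠ 0 := (root_prim hc).ne_zero (N_pos hc).ne'
    have h1 : root h ^ (((2 * h : ℕ) : ℤ) * j) = 1 := by
      rw [zpow_mul, zpow_natCast (root h) (2 * h), (root_prim hc).pow_eq_one, one_zpow]
    rw [Nat.cast_sub hr, sub_mul, neg_sub, zpow_sub₀ h0, zpow_sub₀ h0, h1, div_one, one_div,
      ← zpow_neg]
  · rw [fr, fr, ind_of_notMem hc _ hA, ind_of_notMem hc _ hA]

/-- The value at the involution from the multiplicities. -/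
theorem value_z {F : P → ℂ} (hF : IsClassFunction P F) :
    conj (F (σ ^ h)) = ∑ r ∈ Finset.range (2 * h), (-1) ^ r * classInner (fr hc r) F := by
  have h0 : root h ≠ 0 := (root_prim hc).ne_zero (N_pos hc).ne'
  simp only [fr, classInner_ind hc _ hF, Finset.mul_sum]
  rw [Finset.sum_comm]
  have : ∀ j ∈ Finset.range (2 * h), ∀ r ∈ Finset.range (2 * h),
      (-1 : ℂ) ^ r * (((2 * h : ℕ) : ℂ)⁻¹ *
        (lam hc r ⟨σ ^ j, Subgroup.pow_mem _ (Subgroup.mem_zpowers σ) j⟩ * conj (F (σ ^ j)))) =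
      ((2 * h : ℕ) : ℂ)⁻¹ * conj (F (σ ^ j)) * root h ^ (((h : ℤ) + j) * r) := by
    intro j _ r _
    rw [lam_pow hc, ← root_h hc, ← zpow_natCast, ← zpow_mul, add_mul, zpow_add₀ h0,
      mul_comm (r : ℤ) (j : ℤ)]
    ring
  rw [Finset.sum_congr rfl fun j hj => Finset.sum_congr rfl (this j hj)]
  simp only [← Finset.mul_sum, geo (N_pos hc) (root_prim hc)]
  have hh : h < 2 * h := by have := hc.two_le; omega
  rw [Finset.sum_eq_single h (fun j hj hne => ?_) (fun e => absurd (Finset.mem_range.2 hh) e)]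
  · rw [if_pos (by push_cast; exact ⟨1, by ring⟩), mul_right_comm,
      inv_mul_cancel₀ (Nat.cast_ne_zero.2 (N_pos hc).ne'), one_mul]
  · rw [if_neg, mul_zero]
    rintro ⟨t, ht⟩
    have hj' := Finset.mem_range.1 hj
    push_cast at ht
    rcases lt_trichotomy t 1 with h' | rfl | h'
    · have : t ≤ 0 := by omega
      nlinarith [hc.two_le]
    · omega
    · have : 2 ≤ t := by omega
      nlinarith

omit hc in
/-- The scaled indicator of the involution. -/
noncomputable def gz (_hc : Cyc P σ h) : P → ℂ := fun g => if g = σ ^ h then ((4 * h : ℕ) : ℂ) else 0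

theorem z_central (v : P) : v * σ ^ h * v⁻¹ = σ ^ h := by
  by_cases hv : v ∈ Subgroup.zpowers σ
  · obtain ⟨i, rfl⟩ := hv
    group
  · rw [conj_pow_eq hc hv (Subgroup.pow_mem _ (Subgroup.mem_zpowers σ) h), inv_eq_iff_mul_eq_one,
      ← pow_two]
    exact (orderOf_z hc) ▸ pow_orderOf_eq_one (σ ^ h)

theorem gz_class : IsClassFunction P (gz hc) := by
  intro u v
  have : v * u * v⁻¹ = σ ^ h ↔ u = σ ^ h :=
    ⟨fun e => mul_left_cancel (mul_right_cancel (e.trans (z_central hc v).symm)),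
      fun e => by rw [e, z_central hc]⟩
  simp only [gz, this]

theorem gz_eq_zero (g : P) (hg : σ ^ h ∉ Subgroup.zpowers g) : gz hc g = 0 :=
  if_neg fun (e : g = σ ^ h) => hg (by rw [e]; exact Subgroup.mem_zpowers _)

theorem inner_gz (F : P → ℂ) : classInner (gz hc) F = conj (F (σ ^ h)) := by
  rw [classInner, Finset.sum_eq_single (σ ^ h) (fun g _ hg => by rw [gz, if_neg hg, zero_mul])
    (fun e => absurd (Finset.mem_univ _) e), gz, if_pos rfl, hc.card, ← mul_assoc,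
    inv_mul_cancel₀ (Nat.cast_ne_zero.2 (by have := hc.two_le; omega)), one_mul]

theorem inner_fr_gz (r : ℕ) : classInner (fr hc r) (gz hc) = 2 * (-1) ^ r := by
  rw [H26.classInner_comm, inner_gz hc, Complex.conj_conj, fr_z hc]

omit hc in
/-- The indicator of a class of rotations. -/
noncomputable def dl (_hc : Cyc P σ h) (i : ℕ) : P → ℂ :=
  indFun (Subgroup.zpowers σ) fun a => if (a : P) = σ ^ i then 1 else 0

theorem dl_class (i : ℕ) : IsClassFunction P (dl hc i) := H25.isClassFunction_indFun _ _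

theorem dl_pow (i j : ℕ) : dl hc i (σ ^ j) =
    (if σ ^ j = σ ^ i then 1 else 0) + (if (σ ^ j)⁻¹ = σ ^ i then 1 else 0) :=
  ind_of_mem hc _ ⟨σ ^ j, Subgroup.pow_mem _ (Subgroup.mem_zpowers σ) j⟩

theorem dl_eq_zero {i : ℕ} (hi0 : 0 < i) (hi : i ≤ h) (g : P)
    (hg : σ ^ h ∉ Subgroup.zpowers g) : dl hc i g = 0 := by
  by_cases hA : g ∈ Subgroup.zpowers σ
  · by_cases h1 : g = 1
    · have hne : ¬ (1 : P) = σ ^ i := fun e => by
        have := pow_inj hc (i := 0) (j := i) (N_pos hc) (by have := hc.two_le; omega)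
          (by rw [pow_zero, e])
        omega
      have := dl_pow hc i 0
      rw [pow_zero, _root_.inv_one, if_neg hne] at this
      rw [h1, this, zero_add]
    · exact absurd (z_mem_zpowers hc hA h1) hg
  · exact ind_of_notMem hc _ hA

theorem inner_dl {i k : ℕ} (hi0 : 0 < i) (hi : i ≤ h) (hk0 : 0 < k) (hk : k ≤ h) :
    classInner (dl hc i) (dl hc k) = 0 ↔ i ≠ k := by
  have hi' : i < 2 * h := by have := hc.two_le; omega
  have hk' : k < 2 * h := by have := hc.two_le; omega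
  rw [dl, classInner_ind hc _ (dl_class hc k),
    Finset.sum_eq_single i (fun j hj hne => by
      rw [if_neg fun e => hne (pow_inj hc (Finset.mem_range.1 hj) hi' e), zero_mul])
      (fun e => absurd (Finset.mem_range.2 hi') e), if_pos rfl, one_mul, dl_pow hc]
  have hN : ((2 * h : ℕ) : ℂ)⁻¹ ≠ 0 := inv_ne_zero (Nat.cast_ne_zero.2 (N_pos hc).ne')
  by_cases hik : i = k
  · subst hik
    simp only [if_true, ne_eq, not_true_eq_false, iff_false]
    split_ifs <;> simp <;> have := hc.two_le <;> omega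
  · have h2 : ¬ (σ ^ i)⁻¹ = σ ^ k := by
      rw [inv_eq_iff_mul_eq_one, ← pow_add, ← orderOf_dvd_iff_pow_eq_one, hc.order]
      intro hd
      have := Nat.le_of_dvd (by omega) hd
      omega
    rw [if_neg fun e => hik (pow_inj hc hi' hk' e), if_neg h2]
    simp [hik]

end Cfsg.Agent.H22.DihFun
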