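import Cfsg.Agent.H40.StarIntComb
import Cfsg.Agent.H22.StarNonzero
import Cfsg.Agent.H25.CharInd
import Cfsg.Agent.H27.Induction

/-!
# The trivial intersection set of a central involution

For an involution `z` and a nilpotent block `c` of its centraliser, the elements whose cyclic
group contains `z` form a trivial intersection set.  Inducing the star products of a height zero
member of `c` gives an isometry on the class functions of the defect group living there.
-/

set_option autoImplicit false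
set_option linter.unusedSectionVars false

open scoped ComplexConjugate Classical

namespace Cfsg.Agent.H22.TICore

open Cfsg
open Cfsg.Agent.H41 (ResField)
open Cfsg.Agent.H40.NilpotentBlocks (ext0)

variable {G : Type*} [Group G] [Fintype G] [Fact (Nat.Prime 2)] {M : Ideal AlgInt} [M.IsMaximal]
  [CharP (ResField M) 2] {z : G}

/-- The data: a nilpotent block of the centraliser of an involution inducing the block. -/
structure Setup (M : Ideal AlgInt) [M.IsMaximal] (B : Set (IrrCharacter G)) (z : G)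
    (c : Set (IrrCharacter (CZ z))) (P : Subgroup (CZ z))
    (e : MonoidAlgebra (ResField M) (CZ z)) (ξ₀ : IrrCharacter (CZ z)) : Prop where
  hM : IsPModular 2 M
  order : orderOf z = 2
  ind : IsInducedBlock M (CZ z) c B
  nil : IsNilpotentBlock 2 M c
  max : IsMaxEl 2 ⊤ (elTop M c) (P, e)
  defect : IsDefectGroup 2 M c P
  height_zero : ξ₀ ∈ c ∧ blockHeight 2 c (ξ₀ : CZ z → ℂ) = 0

/-- `z` inside its centraliser. -/
def zC (z : G) : CZ z :=
  ⟨z, by rw [CZ, centralizer_zpowers_eq, Subgroup.mem_centralizer_singleton_iff]⟩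

theorem zC_central (k : CZ z) : k * zC z = zC z * k :=
  Subtype.ext (comm_of_mem_CZ k.2).symm

theorem eq_of_mem_zpowers {g z z' : G} (hz : orderOf z = 2) (hz' : orderOf z' = 2)
    (h : z ∈ Subgroup.zpowers g) (h' : z' ∈ Subgroup.zpowers g) : z' = z := by
  have hc : IsCyclic (Subgroup.zpowers g) := inferInstance
  have key : ∀ w (hw : w ∈ Subgroup.zpowers g), orderOf w = 2 →
      (⟨w, hw⟩ : Subgroup.zpowers g) ∈
        (Finset.univ.filter fun v : Subgroup.zpowers g => v ^ 2 = 1).erase 1 := by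
    intro w hw ho
    refine Finset.mem_erase.2 ⟨fun e => ?_, Finset.mem_filter.2 ⟨Finset.mem_univ _, ?_⟩⟩
    · rw [show w = 1 from congrArg Subtype.val e, orderOf_one] at ho
      omega
    · exact Subtype.ext (by simpa using ho ▸ pow_orderOf_eq_one w)
  have hcard : ((Finset.univ.filter fun v : Subgroup.zpowers g => v ^ 2 = 1).erase 1).card ≤ 1 := by
    rw [Finset.card_erase_of_mem (by simp)]
    have := IsCyclic.card_pow_eq_one_le (α := Subgroup.zpowers g) Nat.two_pos
    omega
  exact congrArg Subtype.val (Finset.card_le_one.1 hcard _ (key z' h' hz') _ (key z h hz))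

theorem mem_CZ_of_mem_zpowers {g z : G} (h : z ∈ Subgroup.zpowers g) : g ∈ CZ z := by
  obtain ⟨i, rfl⟩ := h
  rw [CZ, centralizer_zpowers_eq, Subgroup.mem_centralizer_singleton_iff]
  exact ((Commute.refl g).zpow_right i).eq

/-- The trivial intersection property. -/
theorem conj_mem_CZ (hz : orderOf z = 2) {g x : G} (h : z ∈ Subgroup.zpowers g)
    (h' : z ∈ Subgroup.zpowers (x * g * x⁻¹)) : x ∈ CZ z := by
  obtain ⟨i, hi⟩ := h
  have hz' : orderOf (x * z * x⁻¹) = 2 := by
    rw [← MulAut.conj_apply, MulEquiv.orderOf_eq, hz]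
  have hm : x * z * x⁻¹ ∈ Subgroup.zpowers (x * g * x⁻¹) := ⟨i, by
    show (x * g * x⁻¹) ^ i = _
    rw [conj_zpow, ← hi]⟩
  have := eq_of_mem_zpowers hz hz' h' hm
  rw [CZ, centralizer_zpowers_eq, Subgroup.mem_centralizer_singleton_iff]
  rwa [mul_inv_eq_iff_eq_mul] at this

theorem mem_zpowers_coe_iff {K : Subgroup G} {a b : K} :
    (a : G) ∈ Subgroup.zpowers (b : G) ↔ a ∈ Subgroup.zpowers b := by
  constructor
  · rintro ⟨i, hi⟩
    exact ⟨i, Subtype.ext (by simpa using hi)⟩
  · rintro ⟨i, rfl⟩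
    exact ⟨i, by simp⟩

theorem zpowers_pp {H : Type*} [Group H] [Finite H] {z g : H} (hz : orderOf z = 2)
    (h : z ∈ Subgroup.zpowers g) : z ∈ Subgroup.zpowers (pp 2 g) := by
  obtain ⟨i, hi⟩ := h
  have h1 : pp 2 z = z := pp_eq ⟨1, (mul_one z), Commute.one_right z, ⟨1, by rw [hz]; norm_num⟩,
    by simp⟩
  refine ⟨i, ?_⟩
  show pp 2 g ^ i = z
  rw [← h1, pp, pp, ← hi]
  show (g ^ _) ^ i = (g ^ i) ^ _
  rw [← zpow_natCast, ← zpow_natCast (g ^ i), ← zpow_mul, ← zpow_mul, mul_comm]

variable {B : Set (IrrCharacter G)} {c : Set (IrrCharacter (CZ z))} {P : Subgroup (CZ z)}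
  {e : MonoidAlgebra (ResField M) (CZ z)} {ξ₀ : IrrCharacter (CZ z)}

/-- A class function of the defect group moved to the centraliser by the star product. -/
noncomputable def gfun (M : Ideal AlgInt) [M.IsMaximal] (P : Subgroup (CZ z))
    (e : MonoidAlgebra (ResField M) (CZ z)) (ξ₀ : IrrCharacter (CZ z)) (f : P → ℂ) : CZ z → ℂ :=
  H22.star 2 M (P, e) (ext0 f) (ξ₀ : CZ z → ℂ)

/-- The character of the defect group attached to a character of the group. -/
noncomputable def Phi (M : Ideal AlgInt) [M.IsMaximal] (P : Subgroup (CZ z))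
    (e : MonoidAlgebra (ResField M) (CZ z)) (ξ₀ : IrrCharacter (CZ z)) (χ : G → ℂ) : P → ℂ :=
  ∑ θ : IrrCharacter P,
    classInner (fun k : CZ z => χ k) (gfun M P e ξ₀ (θ : P → ℂ)) • (θ : P → ℂ)

section Linear

theorem gfun_add (f f' : P → ℂ) (k : CZ z) :
    gfun M P e ξ₀ (f + f') k = gfun M P e ξ₀ f k + gfun M P e ξ₀ f' k := by
  have h : ext0 (f + f') = ext0 f + ext0 f' := by
    funext g
    unfold ext0
    simp only [Pi.add_apply]
    split_ifs <;> simp
  rw [gfun, h, H40.StarNorm.star_add]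
  rfl

theorem gfun_sum {ι : Type*} (S : Finset ι) (a : ι → ℂ) (f : ι → P → ℂ) :
    gfun M P e ξ₀ (∑ i ∈ S, a i • f i) = ∑ i ∈ S, a i • gfun M P e ξ₀ (f i) := by
  funext k
  have h : ext0 (∑ i ∈ S, a i • f i) = fun g => ∑ i ∈ S, a i * ext0 (f i) g := by
    funext g
    unfold ext0
    split_ifs <;> simp [Finset.sum_apply]
  rw [gfun, h, H40.StarNorm.star_sum, Finset.sum_apply]
  rfl

/-- A function vanishing at the elements of `P` conjugate to the `2`-part gives zero there. -/
theorem gfun_eq_zero {f : P → ℂ} {k : CZ z}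
    (h : ∀ (u : P) (x : CZ z), x * pp 2 k * x⁻¹ = (u : CZ z) → f u = 0) :
    gfun M P e ξ₀ f k = 0 := by
  rw [gfun, H22.star]
  refine finsum_mem_eq_zero_of_forall_eq_zero fun b _ => mul_eq_zero_of_left ?_ _
  rw [wt]
  split_ifs with hx
  · unfold ext0
    split_ifs with hm
    · exact h ⟨_, hm⟩ _ rfl
    · rfl
  · rfl

end Linear

variable (S : Setup M B z c P e ξ₀)

include S

theorem block : IsPBlock M c := S.ind.1

theorem mem_ξ₀ : ξ₀ ∈ c := S.height_zero.1

theorem starInt : H40.NilpotentBlocks.StarInt 2 M (P, e) c :=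
  H40.NilpotentBlocks.starInt S.hM S.ind.1 S.max

theorem pairStable {f : P → ℂ} (hf : IsClassFunction P f) : PairStable 2 (P, e) (ext0 f) :=
  H40.NilpotentBlocks.pairStable_ext0 S.nil S.max hf

theorem isClassFunction_gfun {f : P → ℂ} (hf : IsClassFunction P f) :
    IsClassFunction (CZ z) (gfun M P e ξ₀ f) :=
  isClassFunction_star (pairStable S hf) (H26.irr_isClassFunction ξ₀)

theorem gfun_one (k : CZ z) : gfun M P e ξ₀ (fun _ => 1) k = (ξ₀ : CZ z → ℂ) k := by
  rw [← H40.StarNorm.star_one S.hM S.ind.1 S.max S.height_zero.1 k, gfun, H22.star, H22.star]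
  refine finsum_mem_congr rfl fun b _ => ?_
  congr 1
  rw [wt, wt]
  split_ifs with hx
  · have hmem := (hx.choose_spec : CarriesInto 2 (P, e) _ _ _).le
      (conj_mem_cS (Subgroup.mem_zpowers _))
    exact dif_pos hmem
  · rfl

/-- The star products with the characters of the defect group are the members of `c`. -/
theorem exists_param : ∃ E : IrrCharacter P ≃ c, ∀ θ : IrrCharacter P,
    gfun M P e ξ₀ (θ : P → ℂ) = ((E θ : IrrCharacter (CZ z)) : CZ z → ℂ) := by
  have hint := starInt S
  choose Ψ hΨc hΨ using fun θ : IrrCharacter P => H40.NilpotentBlocks.exists_star_eq_irr S.nil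
    S.max hint S.hM S.defect S.height_zero.1 S.height_zero.2 θ
  obtain ⟨Φ, -, -⟩ := H40.NilpotentBlocks.exists_equiv S.nil S.max hint S.hM S.defect
    S.height_zero.1 S.height_zero.2
  let F : IrrCharacter P → c := fun θ => ⟨Ψ θ, hΨc θ⟩
  have hinj : Function.Injective F := by
    intro l l' hll
    by_contra hne
    have hll' : Ψ l = Ψ l' := congrArg Subtype.val hll
    have h := H40.NilpotentBlocks.classInner_star S.nil S.max hint S.hM S.defect S.height_zero.1
      S.height_zero.2 l l'
    rw [if_neg hne, hΨ, hΨ, hll', H26.classInner_irr, if_pos rfl] at h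
    exact one_ne_zero h
  exact ⟨Equiv.ofBijective F ((Fintype.bijective_iff_injective_and_card _).2
    ⟨hinj, (Fintype.card_congr Φ).symm⟩), hΨ⟩

theorem gfun_expansion {f : P → ℂ} (hf : IsClassFunction P f) :
    gfun M P e ξ₀ f =
      ∑ θ : IrrCharacter P, classInner f (θ : P → ℂ) • gfun M P e ξ₀ (θ : P → ℂ) := by
  conv_lhs => rw [H26.class_function_expansion f hf]
  exact gfun_sum _ _ _

/-- The star products are an isometry. -/
theorem classInner_gfun {f f' : P → ℂ} (hf : IsClassFunction P f) (hf' : IsClassFunction P f') :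
    classInner (gfun M P e ξ₀ f) (gfun M P e ξ₀ f') = classInner f f' := by
  conv_rhs => rw [H26.class_function_expansion f hf]
  rw [gfun_expansion S hf, gfun_expansion S hf', H26.classInner_sum_left, H26.classInner_sum_left]
  refine Finset.sum_congr rfl fun θ _ => ?_
  rw [H26.classInner_smul_left, H26.classInner_smul_left, H26.classInner_sum_right,
    Finset.sum_eq_single θ]
  · rw [H26.classInner_smul_right, gfun,
      H40.NilpotentBlocks.classInner_star S.nil S.max (starInt S) S.hM S.defect S.height_zero.1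
        S.height_zero.2, if_pos rfl, mul_one, ← H26.classInner_comm]
  · intro θ' _ hne
    rw [H26.classInner_smul_right, gfun, gfun,
      H40.NilpotentBlocks.classInner_star S.nil S.max (starInt S) S.hM S.defect S.height_zero.1
        S.height_zero.2, if_neg hne.symm, mul_zero]
  · exact fun h => absurd (Finset.mem_univ _) h

/-- Functions living where `z` is a power give functions living there. -/
theorem gfun_eq_zero_off {f : P → ℂ} (hf : ∀ u : P, z ∉ Subgroup.zpowers ((u : CZ z) : G) → f u = 0)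
    {k : CZ z} (hk : z ∉ Subgroup.zpowers (k : G)) : gfun M P e ξ₀ f k = 0 := by
  refine gfun_eq_zero fun u x hx => hf u fun hu => hk ?_
  have hu' : zC z ∈ Subgroup.zpowers (u : CZ z) := mem_zpowers_coe_iff.1 hu
  rw [← hx] at hu'
  obtain ⟨i, hi⟩ := hu'
  have hx' : x * pp 2 k ^ i * x⁻¹ = zC z := by rw [← conj_zpow]; exact hi
  have h2 : pp 2 k ^ i = zC z := by
    calc pp 2 k ^ i = x⁻¹ * (x * pp 2 k ^ i * x⁻¹) * x := by group
      _ = zC z := by rw [hx', mul_assoc, ← zC_central, inv_mul_cancel_left]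
  refine (mem_zpowers_coe_iff (a := zC z)).2 ?_
  rw [← h2, pp, ← zpow_natCast, ← zpow_mul]
  exact Subgroup.zpow_mem _ (Subgroup.mem_zpowers k) _

/-- At the section of `z` only the value at `z` matters. -/
theorem gfun_at_z {f : P → ℂ} (hP : zC z ∈ P) {k : CZ z} (hk : pp 2 k = zC z) :
    gfun M P e ξ₀ f k = f ⟨zC z, hP⟩ * (ξ₀ : CZ z → ℂ) k := by
  have h0 : gfun M P e ξ₀ (f + fun _ => -(f ⟨zC z, hP⟩)) k = 0 := by
    refine gfun_eq_zero fun u x hx => ?_
    rw [hk, zC_central, mul_inv_cancel_right] at hx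
    have : u = ⟨zC z, hP⟩ := Subtype.ext hx.symm
    rw [this]
    simp
  rw [gfun_add] at h0
  have hc : gfun M P e ξ₀ (fun _ => -(f ⟨zC z, hP⟩)) k =
      -(f ⟨zC z, hP⟩) * (ξ₀ : CZ z → ℂ) k := by
    have h := congrFun (gfun_sum (M := M) (e := e) (ξ₀ := ξ₀) (Finset.univ : Finset (Fin 1))
      (fun _ => -(f ⟨zC z, hP⟩)) (fun _ => fun _ : P => (1 : ℂ))) k
    simp only [Fin.sum_univ_one] at h
    rw [Pi.smul_apply, gfun_one S, smul_eq_mul] at h
    rw [← h]
    congr 1
    funext u
    simp
  rw [hc] at h0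
  linear_combination h0

/-- The part of a restriction in `c`. -/
theorem blockPart_res (χ : G → ℂ) :
    blockPart c (fun k : CZ z => χ k) =
      ∑ θ : IrrCharacter P, classInner (fun k : CZ z => χ k) (gfun M P e ξ₀ (θ : P → ℂ)) •
        gfun M P e ξ₀ (θ : P → ℂ) := by
  obtain ⟨E, hE⟩ := exists_param S
  funext k
  rw [H32.blockPart_eq_sum, Finset.sum_subtype (p := (· ∈ c)) _ (fun x => by simp),
    Finset.sum_apply]
  exact (Fintype.sum_equiv E _ _ fun θ => by simp [hE]).symm

theorem isGeneralized_Phi (χ : IrrCharacter G) :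
    IsGeneralizedCharacter P (Phi M P e ξ₀ (χ : G → ℂ)) := by
  obtain ⟨E, hE⟩ := exists_param S
  obtain ⟨n, hn, -⟩ := H26.exists_nat_coeffs
    (H26.isCharacter_comp (H26.irr_isCharacter χ) (CZ z).subtype)
  show _ ∈ H27.genChars P
  rw [Phi]
  refine sum_mem fun θ _ => ?_
  rw [show classInner (fun k : CZ z => (χ : G → ℂ) k) (gfun M P e ξ₀ (θ : P → ℂ)) =
    ((n (E θ) : ℤ) : ℂ) by rw [hE]; exact_mod_cast hn (E θ : IrrCharacter (CZ z)),
    Int.cast_smul_eq_zsmul]
  exact zsmul_mem (H27.mem_genChars_of_isCharacter (H26.irr_isCharacter θ)) _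

/-- The inner product with the attached character is the coefficient of the induced function. -/
theorem classInner_indFun {f : P → ℂ} (hf : IsClassFunction P f) (χ : IrrCharacter G) :
    classInner (indFun (CZ z) (gfun M P e ξ₀ f)) (χ : G → ℂ) =
      classInner f (Phi M P e ξ₀ (χ : G → ℂ)) := by
  rw [H25.classInner_indFun_left _ _ _ (H26.irr_isClassFunction χ), gfun_expansion S hf,
    H26.classInner_sum_left, Phi, H26.classInner_sum_right]
  refine Finset.sum_congr rfl fun θ _ => ?_
  rw [H26.classInner_smul_left, H26.classInner_smul_right, ← H26.classInner_comm, mul_comm]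

theorem indFun_on_set {f : P → ℂ} (hf : IsClassFunction P f)
    (hs : ∀ u : P, z ∉ Subgroup.zpowers ((u : CZ z) : G) → f u = 0) {k : CZ z}
    (hk : z ∈ Subgroup.zpowers (k : G)) :
    indFun (CZ z) (gfun M P e ξ₀ f) k = gfun M P e ξ₀ f k := by
  refine H25.indFun_apply_eq_self _ _ (isClassFunction_gfun S hf) k fun x hx => ?_
  by_cases hm : x⁻¹ * (k : G) * x ∈ CZ z
  · rw [H25.extendByZero_of_mem _ _ hm]
    refine gfun_eq_zero_off S hs fun h' => hx (inv_mem_iff.1 ?_)
    exact conj_mem_CZ S.order hk (by simpa using h')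
  · exact H25.extendByZero_of_notMem _ _ hm

/-- Outside the block the attached functional vanishes. -/
theorem classInner_Phi_eq_zero {f : P → ℂ} (hf : IsClassFunction P f)
    (hs : ∀ u : P, z ∉ Subgroup.zpowers ((u : CZ z) : G) → f u = 0) {χ : IrrCharacter G}
    (hχ : χ ∉ B) : classInner f (Phi M P e ξ₀ (χ : G → ℂ)) = 0 := by
  have h1 : classInner f (Phi M P e ξ₀ (χ : G → ℂ)) =
      classInner (gfun M P e ξ₀ f) (blockPart c (fun k : CZ z => (χ : G → ℂ) k)) := by
    rw [blockPart_res S, gfun_expansion S hf, H26.classInner_sum_left, Phi,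
      H26.classInner_sum_right]
    refine Finset.sum_congr rfl fun θ _ => ?_
    rw [H26.classInner_smul_left, H26.classInner_smul_right, H26.classInner_sum_right,
      Finset.sum_eq_single θ]
    · rw [H26.classInner_smul_right, gfun, H40.NilpotentBlocks.classInner_star S.nil S.max
        (starInt S) S.hM S.defect S.height_zero.1 S.height_zero.2, if_pos rfl, mul_one, mul_comm]
    · intro θ' _ hne
      rw [H26.classInner_smul_right, gfun, gfun, H40.NilpotentBlocks.classInner_star S.nil S.max
        (starInt S) S.hM S.defect S.height_zero.1 S.height_zero.2, if_neg hne.symm, mul_zero]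
    · exact fun h => absurd (Finset.mem_univ _) h
  rw [h1, classInner]
  refine mul_eq_zero_of_right _ (Finset.sum_eq_zero fun k _ => ?_)
  by_cases hk : z ∈ Subgroup.zpowers (k : G)
  · rw [H40.blockPart_eq_sum c (ϑ := fun h : CZ z => (χ : G → ℂ) (h : G))
      (H26.isClassFunction_of_isCharacter (H26.isCharacter_comp (H26.irr_isCharacter χ) (CZ z).subtype)) k]
    rw [show ∑ h : CZ z, blockCoeff c h * (χ : G → ℂ) ((h * k : CZ z) : G) =
        ∑ h : CZ z, blockCoeff c h * (χ : G → ℂ) ((h : G) * (k : G)) from rfl,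
      H40.sum_blockCoeff_mul_eq_zero S.hM (H40.blockClosed_of_isPBlock S.ind.1)
        (H40.blockClosed_of_isPBlock S.ind.2.1) (fun ψ hψ => ?_) (fun w hw => ?_) hχ,
      map_zero, mul_zero]
    · obtain ⟨χ', hχ'⟩ := H41.IsPBlock.nonempty S.ind.2.1
      rw [H40.omegaBar_restrictZ_of_isInducedBlock S.ind hψ hχ', H40.omegaBar_setLocIdem,
        if_pos hχ']
    · rw [← pp_eq hw]
      intro x hx
      rw [Subgroup.mem_centralizer_singleton_iff] at hx
      obtain ⟨i, hi⟩ := zpowers_pp S.order hk
      rw [CZ, centralizer_zpowers_eq, Subgroup.mem_centralizer_singleton_iff, ← hi]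
      exact ((show Commute x (pp 2 (k : G)) from hx).zpow_right i).eq
  · rw [gfun_eq_zero_off S hs hk, zero_mul]

/-- The isometry. -/
theorem sum_classInner_mul {f f' : P → ℂ} (hf : IsClassFunction P f) (hf' : IsClassFunction P f')
    (hs : ∀ u : P, z ∉ Subgroup.zpowers ((u : CZ z) : G) → f u = 0)
    (hs' : ∀ u : P, z ∉ Subgroup.zpowers ((u : CZ z) : G) → f' u = 0) :
    ∑ χ ∈ H42.blockFinset B, classInner f (Phi M P e ξ₀ (χ : G → ℂ)) *
      conj (classInner f' (Phi M P e ξ₀ (χ : G → ℂ))) = classInner f f' := by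
  rw [Finset.sum_subset (Finset.subset_univ _) fun χ _ hχ => by
      rw [classInner_Phi_eq_zero S hf hs (fun h => hχ (H42.mem_blockFinset.2 h)), zero_mul],
    ← classInner_gfun S hf hf']
  simp only [← classInner_indFun S hf, ← classInner_indFun S hf']
  have hI := H25.isClassFunction_indFun (CZ z) (gfun M P e ξ₀ f')
  calc _ = classInner (indFun (CZ z) (gfun M P e ξ₀ f)) (indFun (CZ z) (gfun M P e ξ₀ f')) := by
        conv_rhs => arg 2; rw [H26.class_function_expansion _ hI]
        rw [H26.classInner_sum_right]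
        exact Finset.sum_congr rfl fun χ _ => by rw [H26.classInner_smul_right, mul_comm]
    _ = _ := by
        rw [H25.classInner_indFun_left _ _ _ hI, classInner, classInner]
        congr 1
        refine Finset.sum_congr rfl fun k _ => ?_
        by_cases hk : z ∈ Subgroup.zpowers (k : G)
        · rw [indFun_on_set S hf' hs' hk]
        · rw [gfun_eq_zero_off S hs hk, zero_mul, zero_mul]

/-- The induced function as a combination of the members of the block. -/
theorem sum_classInner_smul {f : P → ℂ} (hf : IsClassFunction P f)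
    (hs : ∀ u : P, z ∉ Subgroup.zpowers ((u : CZ z) : G) → f u = 0) (g : G) :
    ∑ χ ∈ H42.blockFinset B, classInner f (Phi M P e ξ₀ (χ : G → ℂ)) * (χ : G → ℂ) g =
      indFun (CZ z) (gfun M P e ξ₀ f) g := by
  rw [Finset.sum_subset (Finset.subset_univ _) fun χ _ hχ => by
      rw [classInner_Phi_eq_zero S hf hs (fun h => hχ (H42.mem_blockFinset.2 h)), zero_mul]]
  conv_rhs => rw [H26.class_function_expansion _ (H25.isClassFunction_indFun (CZ z) _)]
  rw [Finset.sum_apply]
  exact Finset.sum_congr rfl fun χ _ => by rw [← classInner_indFun S hf]; rfl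

theorem indFun_eq_zero_regular {f : P → ℂ}
    (hs : ∀ u : P, z ∉ Subgroup.zpowers ((u : CZ z) : G) → f u = 0) {g : G}
    (hg : ¬ 2 ∣ orderOf g) : indFun (CZ z) (gfun M P e ξ₀ f) g = 0 := by
  rw [H25.indFun_apply]
  refine mul_eq_zero_of_right _ (Finset.sum_eq_zero fun x _ => ?_)
  by_cases hx : x⁻¹ * g * x ∈ CZ z
  swap
  · exact H25.extendByZero_of_notMem _ _ hx
  rw [H25.extendByZero_of_mem _ _ hx]
  refine gfun_eq_zero_off S hs fun h => hg ?_
  have hd := orderOf_dvd_of_mem_zpowers h
  rw [S.order] at hd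
  have he : orderOf (x⁻¹ * g * x) = orderOf g := by
    rw [show x⁻¹ * g * x = MulAut.conj x⁻¹ g by simp, MulEquiv.orderOf_eq]
  rwa [he] at hd

end Cfsg.Agent.H22.TICore
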