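import Cfsg.Agent.H22.StarFree
import Cfsg.Agent.H22.CyclicSubpair
import Cfsg.Agent.H22.TICore
import Mathlib.GroupTheory.SpecificGroups.Dihedral

/-!
# The centraliser of the central involution of a dihedral defect group
-/

set_option autoImplicit false
set_option linter.unusedSectionVars false

namespace Cfsg.Agent.H22.Dihedral

open Cfsg
open Cfsg.Agent.H41 (ResField)

variable {G : Type*} [Group G] [Finite G]

/-- A dihedral subgroup of order `4 * h` with its cyclic subgroup generated by `σ`. -/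
structure DihData (D : Subgroup G) (σ τ : G) (h : ℕ) : Prop where
  two_le : 2 ≤ h
  even : Even h
  σ_mem : σ ∈ D
  τ_mem : τ ∈ D
  order : orderOf σ = 2 * h
  τ_out : τ ∉ Subgroup.zpowers σ
  card : Nat.card D = 4 * h
  reflect : ∀ u ∈ D, u ∉ Subgroup.zpowers σ → u * u = 1 ∧ u * σ * u⁻¹ = σ⁻¹

theorem exists_dihData {D : Subgroup G} {n : ℕ} (hn : 3 ≤ n)
    (hdih : Nonempty (D ≃* DihedralGroup (2 ^ (n - 1)))) :
    ∃ σ τ : G, DihData D σ τ (2 ^ (n - 2)) := by
  obtain ⟨e⟩ := hdih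
  obtain ⟨m, rfl⟩ : ∃ m, n = m + 3 := ⟨n - 3, by omega⟩
  rw [show m + 3 - 1 = m + 2 by omega] at e
  rw [show m + 3 - 2 = m + 1 by omega]
  set N := 2 ^ (m + 2) with hN
  have hNN : N = 2 * 2 ^ (m + 1) := by rw [hN, pow_succ 2 (m + 1), mul_comm]
  have : NeZero N := ⟨pow_ne_zero _ two_ne_zero⟩
  have hmem : ∀ i : ZMod N, ((e.symm (DihedralGroup.r i) : D) : G) ∈
      Subgroup.zpowers ((e.symm (DihedralGroup.r 1) : D) : G) := fun i => by
    refine ⟨i.val, ?_⟩
    show ((e.symm (DihedralGroup.r 1) : D) : G) ^ ((i.val : ℕ) : ℤ) = _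
    rw [zpow_natCast, ← SubmonoidClass.coe_pow, ← map_pow, DihedralGroup.r_one_pow,
      ZMod.natCast_zmod_val]
  refine ⟨((e.symm (DihedralGroup.r 1) : D) : G), ((e.symm (DihedralGroup.sr 0) : D) : G), ?_, ?_,
    SetLike.coe_mem _, SetLike.coe_mem _, ?_, ?_, ?_, ?_⟩
  · exact le_of_eq_of_le (pow_one 2).symm (Nat.pow_le_pow_right two_pos (by omega))
  · exact (Nat.even_pow).2 ⟨even_two, by omega⟩
  · rw [Subgroup.orderOf_coe, MulEquiv.orderOf_eq, DihedralGroup.orderOf_r_one, hNN]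
  · rintro ⟨i, hi⟩
    have h : (e.symm (DihedralGroup.r 1)) ^ i = e.symm (DihedralGroup.sr 0) :=
      Subtype.ext (by simpa using hi)
    rw [← map_zpow, e.symm.injective.eq_iff, DihedralGroup.r_one_zpow] at h
    cases h
  · rw [Nat.card_congr e.toEquiv, DihedralGroup.nat_card, hNN]
    ring
  · intro u hu hout
    rcases hi : e ⟨u, hu⟩ with i | i
    · exfalso
      refine hout ?_
      have := hmem i
      rwa [← hi, e.symm_apply_apply] at this
    · constructor
      · have h : (⟨u, hu⟩ : D) * ⟨u, hu⟩ = 1 := e.injective (by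
          rw [map_mul, hi, DihedralGroup.sr_mul_self, map_one])
        exact congrArg Subtype.val h
      · have h : (⟨u, hu⟩ : D) * e.symm (DihedralGroup.r 1) * ⟨u, hu⟩⁻¹ =
            (e.symm (DihedralGroup.r 1))⁻¹ := e.injective (by
          rw [map_mul, map_mul, map_inv, map_inv, hi, e.apply_symm_apply,
            DihedralGroup.sr_mul_r, DihedralGroup.inv_sr, DihedralGroup.sr_mul_sr,
            DihedralGroup.inv_r]
          congr 1
          ring)
        simpa using congrArg Subtype.val h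

variable {D : Subgroup G} {σ τ : G} {h : ℕ}

section Group

variable (hd : DihData D σ τ h)

include hd

theorem zpowers_le : Subgroup.zpowers σ ≤ D := Subgroup.zpowers_le.2 hd.σ_mem

theorem orderOf_z : orderOf (σ ^ h) = 2 := by
  have := hd.two_le
  rw [orderOf_pow' σ (by omega), hd.order, Nat.gcd_eq_right (dvd_mul_left h 2)]
  exact Nat.mul_div_left 2 (by omega)

theorem z_mem_zpowers : σ ^ h ∈ Subgroup.zpowers σ := Subgroup.pow_mem _ (Subgroup.mem_zpowers σ) _

theorem z_comm {u : G} (hu : u ∈ D) : u * σ ^ h = σ ^ h * u := by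
  by_cases hA : u ∈ Subgroup.zpowers σ
  · obtain ⟨i, rfl⟩ := hA
    exact (((Commute.refl σ).zpow_left i).pow_right h).eq
  · obtain ⟨-, h2⟩ := hd.reflect u hu hA
    have h3 : u * σ ^ h * u⁻¹ = σ ^ h := by
      rw [← conj_pow, h2, inv_pow, inv_eq_iff_mul_eq_one, ← pow_two]
      exact (orderOf_z hd) ▸ pow_orderOf_eq_one (σ ^ h)
    rwa [mul_inv_eq_iff_eq_mul] at h3

theorem mem_zpowers_of_z {u : G} (hu : u ∈ D) (hz : σ ^ h ∈ Subgroup.zpowers u) :
    u ∈ Subgroup.zpowers σ := by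
  by_contra hA
  have : Fintype G := Fintype.ofFinite G
  obtain ⟨i, hi⟩ := hz
  have h2 : u ^ (2 : ℤ) = 1 := by
    rw [zpow_two, (hd.reflect u hu hA).1]
  rcases Int.even_or_odd' i with ⟨j, rfl | rfl⟩
  · have h1 : σ ^ h = 1 := by
      rw [← hi]
      show u ^ (2 * j) = 1
      rw [zpow_mul, h2, one_zpow]
    have := orderOf_z hd
    rw [h1, orderOf_one] at this
    omega
  · refine hA ?_
    have h1 : σ ^ h = u := by
      rw [← hi]
      show u ^ (2 * j + 1) = u
      rw [zpow_add, zpow_mul, h2, one_zpow, zpow_one, one_mul]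
    rw [← h1]
    exact z_mem_zpowers hd

theorem eq_z_of_sq {a : G} (ha : a ∈ Subgroup.zpowers σ) (h2 : a * a = 1) (h1 : a ≠ 1) :
    a = σ ^ h := by
  have : Fintype G := Fintype.ofFinite G
  refine TICore.eq_of_mem_zpowers (g := σ) (orderOf_z hd) ?_ (z_mem_zpowers hd) ha
  exact orderOf_eq_prime (by rw [pow_two, h2]) h1

/-- An element of odd order centralising `z` and normalising a subgroup centralises it. -/
theorem centralizes (hP : IsPGroup 2 D) {R : Subgroup G} (hR : R ≤ D) {x : G} (hx : ¬ 2 ∣ orderOf x)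
    (hz : x * σ ^ h = σ ^ h * x) (hn : x ∈ Subgroup.normalizer (R : Set G)) :
    ∀ r ∈ R, x * r = r * x := by
  have : Fact (Nat.Prime 2) := ⟨Nat.prime_two⟩
  set Z := Subgroup.zpowers (σ ^ h) with hZ
  set U := (R ⊔ Z) ⊓ Subgroup.zpowers σ with hU
  have hRZ : R ⊔ Z ≤ D := sup_le hR (Subgroup.zpowers_le.2 (zpowers_le hd (z_mem_zpowers hd)))
  have hconj : ∀ w ∈ R ⊔ Z, x * w * x⁻¹ ∈ R ⊔ Z := by
    have hle : R ⊔ Z ≤ (R ⊔ Z).comap (MulAut.conj x).toMonoidHom := by
      refine sup_le (fun w hw => ?_) (Subgroup.zpowers_le.2 ?_)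
      · exact Subgroup.mem_comap.2 (Subgroup.mem_sup_left ((Subgroup.mem_normalizer_iff.1 hn w).1 hw))
      · refine Subgroup.mem_comap.2 (Subgroup.mem_sup_right ?_)
        show x * σ ^ h * x⁻¹ ∈ Z
        rw [hz, mul_inv_cancel_right]
        exact Subgroup.mem_zpowers _
    exact fun w hw => hle hw
  have hUinv : ∀ w ∈ U, x * w * x⁻¹ ∈ U := by
    intro w hw
    refine ⟨hconj w hw.1, ?_⟩
    by_contra hout
    obtain ⟨h2, -⟩ := hd.reflect _ (hRZ (hconj w hw.1)) hout
    have hw2 : w * w = 1 := by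
      have e : x * w * x⁻¹ * (x * w * x⁻¹) = x * (w * w) * x⁻¹ := by group
      rw [e, mul_inv_eq_one] at h2
      exact mul_left_cancel (a := x) (by rw [h2, mul_one])
    by_cases hw1 : w = 1
    · exact hout (by rw [hw1, mul_one, mul_inv_cancel]; exact one_mem _)
    · rw [eq_z_of_sq hd hw.2 hw2 hw1, hz, mul_inv_cancel_right] at hout
      exact hout (z_mem_zpowers hd)
  have hxU : x ∈ Subgroup.normalizer (U : Set G) := by
    refine mem_normalizer_of_cS (Subgroup.eq_of_le_of_card_ge ?_ (card_cS _ _).ge)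
    rintro w ⟨v, hv, rfl⟩
    exact hUinv v hv
  have hσ2 : IsPGroup 2 U := hP.to_le (inf_le_left.trans hRZ)
  have : IsCyclic U := Subgroup.isCyclic_of_le (inf_le_right : U ≤ Subgroup.zpowers σ)
  have hfix : ∀ w ∈ U, x * w = w * x := H86.PPrime.cyclic_fix hσ2 hx hxU
    (w := σ ^ h) ⟨Subgroup.mem_sup_right (Subgroup.mem_zpowers _), z_mem_zpowers hd⟩
    (fun e => by have := orderOf_z hd; rw [e, orderOf_one] at this; omega) hz
  intro r hr
  have hr' : r ∈ R ⊔ Z := Subgroup.mem_sup_left hr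
  by_cases hA : r ∈ Subgroup.zpowers σ
  · exact hfix r ⟨hr', hA⟩
  -- the image differs from `r` by a fixed element
  set r' := x * r * x⁻¹ with hr'def
  have hout : r' ∉ Subgroup.zpowers σ := fun h' => hA <| by
    have hm : r' ∈ U := ⟨hconj r hr', h'⟩
    have := hfix r' hm
    have e : r = r' := by
      calc r = x⁻¹ * (x * r * x⁻¹) * x := by group
        _ = x⁻¹ * (r' * x) := by rw [mul_assoc]
        _ = r' := by rw [← this, inv_mul_cancel_left]
    rw [e]
    exact h'
  obtain ⟨hr2, hrσ⟩ := hd.reflect r (hR hr) hA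
  obtain ⟨-, hrσ'⟩ := hd.reflect r' (hRZ (hconj r hr')) hout
  have ha : r⁻¹ * r' ∈ U := by
    refine ⟨(R ⊔ Z).mul_mem ((R ⊔ Z).inv_mem hr') (hconj r hr'), ?_⟩
    by_contra ho
    obtain ⟨-, h3⟩ := hd.reflect _ (D.mul_mem (D.inv_mem (hR hr)) (hRZ (hconj r hr'))) ho
    have h4 : r⁻¹ * r' * σ * (r⁻¹ * r')⁻¹ = σ := by
      calc r⁻¹ * r' * σ * (r⁻¹ * r')⁻¹ = r⁻¹ * (r' * σ * r'⁻¹) * r := by group
        _ = r⁻¹ * (r * σ * r⁻¹) * r := by rw [hrσ', hrσ]
        _ = σ := by group
    rw [h4, eq_inv_iff_mul_eq_one] at h3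
    have h5 := Nat.le_of_dvd two_pos (orderOf_dvd_iff_pow_eq_one.2 (by rwa [pow_two]) :
      orderOf σ ∣ 2)
    have := hd.two_le
    rw [hd.order] at h5
    omega
  set a := r⁻¹ * r' with ha'
  have hxa := hfix a ha
  have hiter : ∀ k : ℕ, x ^ k * r * (x ^ k)⁻¹ = r * a ^ k := by
    intro k
    induction k with
    | zero => simp
    | succ k ih =>
      have hk : Commute x (a ^ k) := (show Commute x a from hxa).pow_right k
      calc x ^ (k + 1) * r * (x ^ (k + 1))⁻¹ = x * (x ^ k * r * (x ^ k)⁻¹) * x⁻¹ := by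
            rw [pow_succ']; group
        _ = x * r * (a ^ k * x⁻¹) := by rw [ih]; group
        _ = r' * a ^ k := by rw [← (hk.inv_left).eq, hr'def]; group
        _ = _ := by
          rw [pow_succ' a, ← mul_assoc r]
          congr 1
          rw [ha', mul_inv_cancel_left]
  have hax : a ^ orderOf x = 1 := by
    have := hiter (orderOf x)
    rw [pow_orderOf_eq_one, _root_.inv_one, one_mul, mul_one] at this
    exact (mul_left_cancel (a := r) (by rwa [mul_one])).symm
  obtain ⟨k, hk⟩ := IsPGroup.iff_orderOf.1 hσ2 ⟨a, ha⟩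
  rw [Subgroup.orderOf_mk] at hk
  have h1 : orderOf a = 1 := Nat.eq_one_of_dvd_coprimes
    ((Nat.Coprime.pow_left k ((Nat.prime_two.coprime_iff_not_dvd).2 hx)))
    (dvd_of_eq hk) (orderOf_dvd_iff_pow_eq_one.2 hax)
  rw [orderOf_eq_one_iff, ha', inv_mul_eq_one] at h1
  rw [← mul_inv_eq_iff_eq_mul]
  exact h1.symm

end Group

section Setup

variable {G : Type*} [Group G] [Fintype G] [Fact (Nat.Prime 2)] {M : Ideal AlgInt} [M.IsMaximal]
  [CharP (ResField M) 2] {D : Subgroup G} {σ τ : G} {h : ℕ}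

theorem le_CZ (hd : DihData D σ τ h) : D ≤ CZ (σ ^ h) := fun u hu => by
  rw [CZ, centralizer_zpowers_eq, Subgroup.mem_centralizer_singleton_iff]
  exact z_comm hd hu

open scoped Classical in
/-- The nilpotent block of the centraliser of `z` below a maximal pair. -/
theorem exists_setup (hM : IsPModular 2 M) {B : Set (IrrCharacter G)} (hB : IsPBlock M B)
    (hD : IsDefectGroup 2 M B D) (hd : DihData D σ τ h) :
    ∃ (c : Set (IrrCharacter (CZ (σ ^ h)))) (e : MonoidAlgebra (ResField M) (CZ (σ ^ h)))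
      (ξ₀ : IrrCharacter (CZ (σ ^ h))),
      TICore.Setup M B (σ ^ h) c (D.subgroupOf (CZ (σ ^ h))) e ξ₀ ∧
        blockDefect 2 c = blockDefect 2 B := by
  have hS := split M G
  have hb := isBlockEl_elTop hB
  obtain ⟨e₀, hm⟩ := H40.NilpotentBlocks.exists_isMaxEl_of_defect hM hB hD
  have hzD : σ ^ h ∈ D := Subgroup.pow_mem _ hd.σ_mem h
  have hord := orderOf_z hd
  obtain ⟨c, hc, hcar, hbel⟩ := exists_carried_block hB hm hzD
  have hle : PLe 2 ⊤ (Subgroup.zpowers (σ ^ h), el M (CZ (σ ^ h)) c) (D, e₀) := by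
    unfold CarriesInto at hcar
    rwa [cS_one, cj_one_apply] at hcar
  have hDC := le_CZ hd
  have hzC : σ ^ h ∈ Subgroup.centralizer (D : Set G) :=
    Subgroup.mem_centralizer_iff.2 fun y hy => z_comm hd hy
  have hdef := blockDefect_eq_of_central hM hB hm hzD hzC hc hcar
  have hind := isInducedBlock_of_below hM hB (j := 1) (by rw [pow_one]; exact hord) hc hbel
  have hf := isBlockEl_el (M := M) hc
  have hDel : IsDefEl 2 (CZ (σ ^ h)) (el M (CZ (σ ^ h)) c) (D ⊓ CZ (σ ^ h)) :=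
    (defect_iff_max hS hb hm hle (Subgroup.centralizer_le_normalizer _) hf).2
      fun g _ => Subgroup.card_le_of_le (le_inf inf_le_left (inf_le_left.trans hDC))
  rw [inf_eq_left.2 hDC] at hDel
  obtain ⟨f, hfpair, hfbel⟩ := exists_pair_below hS hf hDC hm.pair.pGroup hDel.ne_zero
  have hmax := isMaxEl_of_isDefEl hfpair hfbel hDel
  have hnil : IsNilpotentBlock 2 M c := by
    refine isNilpotentBlock_sub hc fun R g hR hRb x hxC hxR _ hreg => ?_
    obtain ⟨y, hy, hple⟩ := exists_conj_ple hS hf hR hRb hmax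
    have hy' : y * σ ^ h = σ ^ h * y := by
      rw [CZ, centralizer_zpowers_eq, Subgroup.mem_centralizer_singleton_iff] at hy
      exact hy
    have hx' : x * σ ^ h = σ ^ h * x := by
      rw [CZ, centralizer_zpowers_eq, Subgroup.mem_centralizer_singleton_iff] at hxC
      exact hxC
    have hxy : y * x * y⁻¹ * σ ^ h = σ ^ h * (y * x * y⁻¹) :=
      (((show Commute y (σ ^ h) from hy').mul_left hx').mul_left
        (show Commute y (σ ^ h) from hy').inv_left).eq
    have hn : y * x * y⁻¹ ∈ Subgroup.normalizer (cS y R : Set G) := by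
      refine mem_normalizer_of_cS ?_
      rw [← cS_mul, inv_mul_cancel_right, cS_mul, cS_eq_self hxR]
    have hreg' : ¬ 2 ∣ orderOf (y * x * y⁻¹) := by
      rwa [← MulAut.conj_apply, MulEquiv.orderOf_eq]
    have hcomm := centralizes hd hm.pair.pGroup hple.le hreg' hxy hn
    refine Subgroup.mem_centralizer_iff.2 fun r hr => ?_
    have hr' := hcomm _ (conj_mem_cS (g := y) hr)
    calc r * x = y⁻¹ * (y * r * y⁻¹ * (y * x * y⁻¹)) * y := by group
      _ = x * r := by rw [← hr']; group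
  have hP : IsDefectGroup 2 M c (D.subgroupOf (CZ (σ ^ h))) :=
    (isDefectGroup_subgroupOf_iff hM hc hDC).2 hDel
  obtain ⟨e, he⟩ := H40.NilpotentBlocks.exists_isMaxEl_of_defect hM hc hP
  obtain ⟨ξ₀, hξ₀, h0, -⟩ := H42.exists_height_zero (p := 2) hc
  exact ⟨c, e, ξ₀, ⟨hM, hord, hind, hnil, he, hP, hξ₀, h0⟩, hdef⟩

end Setup

end Cfsg.Agent.H22.Dihedral
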