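import Cfsg.Agent.H22.DihedralComb
import Mathlib.Data.Complex.Basic
import Mathlib.Tactic.FieldSimp
import Mathlib.Tactic.Push

/-!
# The exceptional numerical pattern with five members

With five members the degrees are determined up to a scalar by the orthogonality to the four
differences, and so are the weighted cubic sums used against it.
-/

set_option autoImplicit false
set_option linter.unusedSectionVars false

namespace Cfsg.Agent.H22.Dihedral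

variable {ι : Type*} [Fintype ι] [DecidableEq ι]

/-- The functions orthogonal to the differences. -/
def Ortho (a : ι → ℕ → ℤ) (D : ι → ℤ) (W : ι → ℂ) : Prop :=
  ∑ χ, (wdiff a 0 4 χ : ℂ) * W χ = 0 ∧ ∑ χ, (wdiff a 1 2 χ : ℂ) * W χ = 0 ∧
    ∑ χ, (wdiff a 3 2 χ : ℂ) * W χ = 0 ∧ ∑ χ, (D χ : ℂ) * W χ = 0

theorem five_pattern {a : ι → ℕ → ℤ} {D : ι → ℤ} {Z : Finset ι} (H : Data 4 a D Z)
    (hk : Fintype.card ι = 5) (hs12 : ∑ χ, wdiff a 0 4 χ * wdiff a 1 2 χ = 0)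
    (hs32 : ∑ χ, wdiff a 0 4 χ * wdiff a 3 2 χ = 0) (hsD : ∑ χ, wdiff a 0 4 χ * D χ = 0)
    {W : ι → ℂ} (hW : Ortho a D W) (hW0 : ∀ χ, W χ ≠ 0) :
    ∃ p ∈ Z, wdiff a 0 4 p ^ 2 = 1 ∧
      (∀ W', Ortho a D W' → ∑ χ, W χ * W' χ = 0 → ∀ χ, W' χ = 0) ∧
      ∀ r : ℂ, ∑ χ, (D χ : ℂ) ^ 2 * ((wdiff a 0 4 χ : ℂ) + r * (wdiff a 1 3 χ : ℂ)) / W χ =
        32 / 3 * (wdiff a 0 4 p : ℂ) / W p := by
  obtain ⟨h4, h' | ⟨-, hout, h12⟩⟩ := counts H
  · omega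
  obtain ⟨p, hpZ, hp, hone⟩ := exists_three H h12 h4
  obtain ⟨e, hset⟩ : ∃ e, Zᶜ = {e} := Finset.card_eq_one.1 (by rw [Finset.card_compl, h4, hk])
  have heZ : e ∉ Z := Finset.mem_compl.1 (by rw [hset]; exact Finset.mem_singleton_self _)
  have honly : ∀ χ, χ ∉ Z → χ = e := fun χ hχ =>
    Finset.mem_singleton.1 (hset ▸ Finset.mem_compl.2 hχ)
  have hq : ∀ r u, 0 < r → r < 4 → 0 < u → u < 4 → Odd r → Even u → ∃ q ∈ Z.erase p,
      ∀ χ, wdiff a r u χ = if χ = p ∨ χ = q then (if 0 < D χ then -1 else 1) else 0 := by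
    intro r u hr0 hr hu0 hu hro hue
    refine (mixed_cases H hout hp hone hr0 hr hu0 hu hro hue).resolve_left fun hno => ?_
    have hne : r ≠ u := fun e => (Nat.not_even_iff_odd.2 hro) (e ▸ hue)
    obtain ⟨x, y, hxy, hx, hy, -⟩ := support_pair (norm_two H hr0 hr hu0 hu hne)
    exact hxy ((honly x (hno x fun h0 => by rw [h0] at hx; exact absurd hx (by decide))).trans
      (honly y (hno y fun h0 => by rw [h0] at hy; exact absurd hy (by decide))).symm)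
  obtain ⟨q₁, hq₁, hw₁⟩ := hq 1 2 one_pos (by omega) two_pos (by omega) odd_one even_two
  obtain ⟨q₃, hq₃, hw₃⟩ := hq 3 2 (by omega) (by omega) two_pos (by omega) (by decide) even_two
  have h13 : q₁ ≠ q₃ := by
    intro he
    subst he
    have hg := H.gram 1 2 3 2 one_pos (by omega) two_pos (by omega) (by omega) (by omega) two_pos
      (by omega)
    have hn := norm_two H (r := 1) (u := 2) one_pos (by omega) two_pos (by omega) (by omega)
    rw [Finset.sum_congr rfl fun χ _ => by rw [hw₃ χ, ← hw₁ χ, ← sq], hn] at hg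
    simp at hg
  have hqp₁ := (Finset.mem_erase.1 hq₁).1
  have hqp₃ := (Finset.mem_erase.1 hq₃).1
  obtain ⟨q₂, hq₂, hq₂₁, hq₂₃⟩ : ∃ q ∈ Z.erase p, q ≠ q₁ ∧ q ≠ q₃ := by
    have hc : 0 < (((Z.erase p).erase q₁).erase q₃).card := by
      rw [Finset.card_erase_of_mem (Finset.mem_erase.2 ⟨h13.symm, hq₃⟩),
        Finset.card_erase_of_mem hq₁, Finset.card_erase_of_mem hpZ, h4]
      omega
    obtain ⟨q, hq⟩ := Finset.card_pos.1 hc
    simp only [Finset.mem_erase] at hq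
    exact ⟨q, Finset.mem_erase.2 hq.2.2, hq.2.1, hq.1⟩
  have hqp₂ := (Finset.mem_erase.1 hq₂).1
  have hne : ∀ q ∈ Z, q ≠ e := fun q hq he => heZ (he ▸ hq)
  have hsum : ∀ {α : Type} [AddCommMonoid α] (F : ι → α),
      ∑ χ, F χ = F p + (F q₁ + (F q₃ + (F q₂ + F e))) := by
    intro α _ F
    have hnot : ∀ q ∈ Z, e ≠ q := fun q hq => (hne q hq).symm
    have h5 : ({p, q₁, q₃, q₂, e} : Finset ι) = Finset.univ := by
      refine Finset.eq_univ_of_card _ ?_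
      rw [hk]
      simp [hqp₁.symm, hqp₂.symm, hqp₃.symm, h13, hq₂₁.symm, hq₂₃.symm, hne p hpZ,
        hne q₁ (Finset.mem_of_mem_erase hq₁), hne q₂ (Finset.mem_of_mem_erase hq₂),
        hne q₃ (Finset.mem_of_mem_erase hq₃)]
    rw [← h5]
    simp [hqp₁.symm, hqp₂.symm, hqp₃.symm, h13, hq₂₁.symm, hq₂₃.symm, hne p hpZ,
      hne q₁ (Finset.mem_of_mem_erase hq₁), hne q₂ (Finset.mem_of_mem_erase hq₂),
      hne q₃ (Finset.mem_of_mem_erase hq₃)]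
  -- signs
  set ε : ι → ℤ := fun χ => if 0 < D χ then 1 else -1 with hε
  have hε1 : ∀ χ, ε χ * ε χ = 1 := fun χ => by simp only [hε]; split_ifs <;> rfl
  have habs : ∀ χ, D χ = ε χ * |D χ| := fun χ => by
    simp only [hε]
    split_ifs with h
    · rw [one_mul, abs_of_pos h]
    · rw [neg_one_mul, abs_of_nonpos (not_lt.1 h), neg_neg]
  have hsq : ∀ χ, ∀ c : ℤ, 0 ≤ c → D χ ^ 2 = c ^ 2 → D χ = ε χ * c := fun χ c hc h => by
    conv_lhs => rw [habs χ]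
    rw [show |D χ| = c by
      rw [← abs_of_nonneg hc]
      exact (sq_eq_sq_iff_abs_eq_abs _ _).1 h]
  have dp : D p = ε p * 3 := hsq p 3 (by norm_num) (by rw [hp]; norm_num)
  have d₁ : D q₁ = ε q₁ * 1 := hsq q₁ 1 zero_le_one
    (by rw [hone q₁ (Finset.mem_of_mem_erase hq₁) hqp₁]; norm_num)
  have d₂ : D q₂ = ε q₂ * 1 := hsq q₂ 1 zero_le_one
    (by rw [hone q₂ (Finset.mem_of_mem_erase hq₂) hqp₂]; norm_num)
  have d₃ : D q₃ = ε q₃ * 1 := hsq q₃ 1 zero_le_one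
    (by rw [hone q₃ (Finset.mem_of_mem_erase hq₃) hqp₃]; norm_num)
  have de : D e = ε e * 2 := hsq e 2 (by norm_num) (by rw [hout e heZ]; norm_num)
  have hw₁' : ∀ χ, wdiff a 1 2 χ = if χ = p ∨ χ = q₁ then -ε χ else 0 := fun χ => by
    rw [hw₁ χ]; simp only [hε]; split_ifs <;> rfl
  have hw₃' : ∀ χ, wdiff a 3 2 χ = if χ = p ∨ χ = q₃ then -ε χ else 0 := fun χ => by
    rw [hw₃ χ]; simp only [hε]; split_ifs <;> rfl
  have a1 : wdiff a 1 2 p = -ε p := by rw [hw₁']; simp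
  have a2 : wdiff a 1 2 q₁ = -ε q₁ := by rw [hw₁']; simp
  have a3 : wdiff a 1 2 q₃ = 0 := by rw [hw₁']; simp [hqp₃, h13.symm]
  have a4 : wdiff a 1 2 q₂ = 0 := by rw [hw₁']; simp [hqp₂, hq₂₁]
  have a5 : wdiff a 1 2 e = 0 := by
    rw [hw₁']; simp [(hne p hpZ).symm, (hne q₁ (Finset.mem_of_mem_erase hq₁)).symm]
  have b1 : wdiff a 3 2 p = -ε p := by rw [hw₃']; simp
  have b2 : wdiff a 3 2 q₁ = 0 := by rw [hw₃']; simp [hqp₁, h13]
  have b3 : wdiff a 3 2 q₃ = -ε q₃ := by rw [hw₃']; simp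
  have b4 : wdiff a 3 2 q₂ = 0 := by rw [hw₃']; simp [hqp₂, hq₂₃]
  have b5 : wdiff a 3 2 e = 0 := by
    rw [hw₃']; simp [(hne p hpZ).symm, (hne q₃ (Finset.mem_of_mem_erase hq₃)).symm]
  -- the difference `0, h`
  have hs := H.sum_s
  have hge : ∀ q ∈ Z, 1 ≤ wdiff a 0 4 q ^ 2 := fun q hq => one_le_sq fun h0 => by
    have := (H.odd_s q).2 ((H.odd_D q).2 hq)
    rw [h0] at this
    exact absurd this (by decide)
  rw [hsum] at hs
  have g1 := hge p hpZ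
  have g2 := hge q₁ (Finset.mem_of_mem_erase hq₁)
  have g3 := hge q₃ (Finset.mem_of_mem_erase hq₃)
  have g4 := hge q₂ (Finset.mem_of_mem_erase hq₂)
  have g5 := sq_nonneg (wdiff a 0 4 e)
  have hsp : wdiff a 0 4 p ^ 2 = 1 := by omega
  have se : wdiff a 0 4 e = 0 := (pow_eq_zero_iff two_ne_zero).1 (by omega)
  rw [hsum, a1, a2, a3, a4, a5] at hs12
  rw [hsum, b1, b2, b3, b4, b5] at hs32
  rw [hsum, dp, d₁, d₂, d₃, de, se] at hsD
  have s1 : ε q₁ * wdiff a 0 4 q₁ = -(ε p * wdiff a 0 4 p) := by linear_combination -hs12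
  have s3 : ε q₃ * wdiff a 0 4 q₃ = -(ε p * wdiff a 0 4 p) := by linear_combination -hs32
  have s2 : ε q₂ * wdiff a 0 4 q₂ = -(ε p * wdiff a 0 4 p) := by
    linear_combination hsD - s1 - s3
  have sc : ∀ χ, wdiff a 0 4 χ = ε χ * (ε χ * wdiff a 0 4 χ) := fun χ => by
    rw [← mul_assoc, hε1, one_mul]
  have t1 : wdiff a 0 4 q₁ = -(ε q₁ * (ε p * wdiff a 0 4 p)) := by rw [sc q₁, s1]; ring
  have t2 : wdiff a 0 4 q₂ = -(ε q₂ * (ε p * wdiff a 0 4 p)) := by rw [sc q₂, s2]; ring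
  have t3 : wdiff a 0 4 q₃ = -(ε q₃ * (ε p * wdiff a 0 4 p)) := by rw [sc q₃, s3]; ring
  set y : ℂ := ((ε p * wdiff a 0 4 p : ℤ) : ℂ) with hy
  have hy0 : y ≠ 0 := by
    rw [hy]
    exact_mod_cast mul_ne_zero (fun h0 => by have := hε1 p; rw [h0] at this; simp at this)
      (fun h0 => by rw [h0] at hsp; simp at hsp)
  have key : ∀ V, Ortho a D V → (ε q₁ : ℂ) * V q₁ = -((ε p : ℂ) * V p) ∧
      (ε q₃ : ℂ) * V q₃ = -((ε p : ℂ) * V p) ∧ (ε q₂ : ℂ) * V q₂ = 3 * ((ε p : ℂ) * V p) ∧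
      (ε e : ℂ) * V e = -2 * ((ε p : ℂ) * V p) := by
    rintro V ⟨e0, e1, e3, e4⟩
    rw [hsum, a1, a2, a3, a4, a5] at e1
    rw [hsum, b1, b2, b3, b4, b5] at e3
    rw [hsum, dp, d₁, d₂, d₃, de] at e4
    rw [hsum, t1, t2, t3, se] at e0
    push_cast at e0 e1 e3 e4
    have k1 : (ε q₁ : ℂ) * V q₁ = -((ε p : ℂ) * V p) := by linear_combination -e1
    have k3 : (ε q₃ : ℂ) * V q₃ = -((ε p : ℂ) * V p) := by linear_combination -e3
    have hεp : (ε p : ℂ) * (ε p : ℂ) = 1 := by exact_mod_cast hε1 p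
    have k2 : (ε q₂ : ℂ) * V q₂ = 3 * ((ε p : ℂ) * V p) := by
      refine mul_left_cancel₀ hy0 ?_
      rw [hy]
      push_cast
      linear_combination -e0 - ((ε p : ℂ) * (wdiff a 0 4 p : ℂ)) * k1 -
        ((ε p : ℂ) * (wdiff a 0 4 p : ℂ)) * k3 - (wdiff a 0 4 p : ℂ) * V p * hεp
    exact ⟨k1, k3, k2, by linear_combination (1 / 2 : ℂ) * (e4 - k1 - k3 - k2)⟩
  have hexp : ∀ V, Ortho a D V → V q₁ = -((ε q₁ : ℂ) * ((ε p : ℂ) * V p)) ∧
      V q₃ = -((ε q₃ : ℂ) * ((ε p : ℂ) * V p)) ∧ V q₂ = 3 * ((ε q₂ : ℂ) * ((ε p : ℂ) * V p)) ∧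
      V e = -2 * ((ε e : ℂ) * ((ε p : ℂ) * V p)) := by
    intro V hV
    obtain ⟨k1, k3, k2, k4⟩ := key V hV
    have hh : ∀ χ, (ε χ : ℂ) * ((ε χ : ℂ) * V χ) = V χ := fun χ => by
      rw [← mul_assoc, show (ε χ : ℂ) * (ε χ : ℂ) = 1 by exact_mod_cast hε1 χ, one_mul]
    exact ⟨by rw [← hh q₁, k1]; ring, by rw [← hh q₃, k3]; ring, by rw [← hh q₂, k2]; ring,
      by rw [← hh e, k4]; ring⟩
  obtain ⟨w1, w3, w2, we⟩ := hexp W hW
  refine ⟨p, hpZ, hsp, fun W' hW' h0 => ?_, fun r => ?_⟩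
  · obtain ⟨v1, v3, v2, ve⟩ := hexp W' hW'
    have hc : ∀ χ, (ε χ : ℂ) * (ε χ : ℂ) = 1 := fun χ => by exact_mod_cast hε1 χ
    rw [hsum, w1, w3, w2, we, v1, v3, v2, ve] at h0
    have hp' : W' p = 0 := by
      have h16 : 16 * (W p * W' p) = 0 := by
        linear_combination h0 - W p * W' p * (ε p : ℂ) * (ε p : ℂ) * (hc q₁ + hc q₃ + 9 * hc q₂ +
          4 * hc e) - 15 * W p * W' p * hc p
      simpa [hW0 p] using h16
    have hcases : ∀ χ, χ = p ∨ χ = q₁ ∨ χ = q₃ ∨ χ = q₂ ∨ χ = e := fun χ => by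
      by_contra hno
      push Not at hno
      have := hsum (α := ℕ) fun x => if x = χ then 1 else 0
      simp [hno.1.symm, hno.2.1.symm, hno.2.2.1.symm, hno.2.2.2.1.symm, hno.2.2.2.2.symm] at this
    intro χ
    rcases hcases χ with rfl | rfl | rfl | rfl | rfl <;> simp [v1, v3, v2, ve, hp']
  · have hd : ∀ χ, wdiff a 1 3 χ = wdiff a 1 2 χ - wdiff a 3 2 χ := fun χ => by
      simp only [wdiff]; ring
    rw [hsum, hd p, hd q₁, hd q₂, hd q₃, hd e, a1, a2, a3, a4, a5, b1, b2, b3, b4, b5, t1, t2, t3,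
      se, dp, d₁, d₂, d₃, de, w1, w3, w2, we]
    have hεne : ∀ χ, (ε χ : ℂ) ≠ 0 := fun χ h0 => by
      have h1 : (ε χ : ℂ) * (ε χ : ℂ) = 1 := by exact_mod_cast hε1 χ
      rw [h0, zero_mul] at h1
      exact zero_ne_one h1
    have hc : ∀ χ, (ε χ : ℂ) ^ 2 = 1 := fun χ => by rw [sq]; exact_mod_cast hε1 χ
    push_cast
    have := hεne p
    have := hεne q₁
    have := hεne q₂
    have := hεne q₃
    have := hεne e
    have := hW0 p
    simp only [mul_pow, hc, one_mul, one_pow, sub_self, sub_zero, mul_zero, zero_div,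
      add_zero]
    field_simp
    ring

end Cfsg.Agent.H22.Dihedral
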