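import Cfsg.Agent.H40.SecondMain
import Cfsg.Agent.H40.CoeffSums
import Cfsg.Agent.H41.PrincipalSection
import Cfsg.Agent.H22.StarDef
import Cfsg.Agent.H19.Cores
import Mathlib.GroupTheory.SchurZassenhaus

/-!
# Principal blocks for two primes with one common member

If the principal blocks for `p` and `q` share only the trivial character, the conjugacy classes of
`p`-elements have size prime to `q`. Hence, if this holds for all `q` other than `p`, the group is
the product of its Sylow `p`-subgroup and a group of order prime to `p`.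
-/

set_option autoImplicit false
set_option linter.unusedSectionVars false
set_option linter.style.haveILetI false

namespace Cfsg.Agent.H22.BlocksMeet

open Cfsg (IrrCharacter)
open Cfsg.Agent.H41 (localRing res)
open scoped ComplexConjugate Classical

universe u

section Class

variable {G : Type u} [Group G] [Fintype G] {p q : ℕ} [hp : Fact p.Prime] [hq : Fact q.Prime]
  {Mp Mq : Ideal Cfsg.AlgInt}

theorem isPPart_self {x : G} (hx : ∃ k : ℕ, orderOf x = p ^ k) : Cfsg.IsPPart p x x :=
  ⟨1, mul_one x, Commute.one_right x, hx, by rw [orderOf_one]; exact hp.out.not_dvd_one⟩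

/-- A class function carried by the section of `x` sums to a multiple of the class size of `x`. -/
theorem sum_eq_index_mul {F : G → ℂ} (hF : ∀ g c : G, F (c * g * c⁻¹) = F g) {x : G}
    (hsupp : ∀ g, ¬ IsConj x (H22.pp p g) → F g = 0) :
    ∑ g : G, F g = ((Subgroup.centralizer ({x} : Set G)).index : ℂ) *
      ∑ g ∈ Finset.univ.filter (fun g : G => H22.pp p g = x), F g := by
  set C := Subgroup.centralizer ({x} : Set G) with hC
  have hshift : ∀ c : G, ∑ g ∈ Finset.univ.filter (fun g : G => H22.pp p g = c * x * c⁻¹), F g =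
      ∑ g ∈ Finset.univ.filter (fun g : G => H22.pp p g = x), F g := by
    intro c
    refine Finset.sum_equiv (MulAut.conj c⁻¹).toEquiv (fun g => ?_) fun g _ => ?_
    · simp only [Finset.mem_filter, Finset.mem_univ, true_and, MulEquiv.toEquiv_eq_coe,
        MulEquiv.coe_toEquiv, MulAut.conj_apply, inv_inv]
      rw [show c⁻¹ * g * c = c⁻¹ * g * c⁻¹⁻¹ by rw [inv_inv], H22.pp_conj, inv_inv]
      constructor
      · intro h; rw [h]; group
      · intro h; rw [← h]; group
    · simp only [MulEquiv.toEquiv_eq_coe, MulEquiv.coe_toEquiv, MulAut.conj_apply]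
      exact (hF g c⁻¹).symm
  have hcount : ∀ g : G, IsConj x (H22.pp p g) →
      (Finset.univ.filter fun c : G => H22.pp p g = c * x * c⁻¹).card = Nat.card C := by
    intro g hg
    obtain ⟨c₀, hc₀⟩ := isConj_iff.1 hg
    rw [Nat.card_eq_fintype_card, ← Fintype.card_coe]
    refine Fintype.card_congr
      { toFun := fun c => ⟨c₀⁻¹ * c.1, ?_⟩
        invFun := fun d => ⟨c₀ * d.1, ?_⟩
        left_inv := fun c => by simp
        right_inv := fun d => by simp }
    · have h : c₀ * x * c₀⁻¹ = c.1 * x * c.1⁻¹ := hc₀.trans (Finset.mem_filter.1 c.2).2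
      rw [Subgroup.mem_centralizer_singleton_iff]
      calc c₀⁻¹ * c.1 * x = c₀⁻¹ * (c.1 * x * c.1⁻¹) * c.1 := by group
        _ = x * (c₀⁻¹ * c.1) := by rw [← h]; group
    · have h := Subgroup.mem_centralizer_singleton_iff.1 d.2
      refine Finset.mem_filter.2 ⟨Finset.mem_univ _, ?_⟩
      rw [← hc₀]
      calc c₀ * x * c₀⁻¹ = c₀ * (x * d.1) * (c₀ * d.1)⁻¹ := by group
        _ = c₀ * d.1 * x * (c₀ * d.1)⁻¹ := by rw [← h]; group
  have hdouble : (Nat.card G : ℂ) * ∑ g ∈ Finset.univ.filter (fun g : G => H22.pp p g = x), F g =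
      (Nat.card C : ℂ) * ∑ g : G, F g := by
    calc (Nat.card G : ℂ) * ∑ g ∈ Finset.univ.filter (fun g : G => H22.pp p g = x), F g
        = ∑ c : G, ∑ g : G, if H22.pp p g = c * x * c⁻¹ then F g else 0 := by
          rw [Finset.sum_congr rfl fun c _ => (Finset.sum_filter _ _).symm.trans (hshift c),
            Finset.sum_const, Finset.card_univ, nsmul_eq_mul, Nat.card_eq_fintype_card]
      _ = ∑ g : G, ((Finset.univ.filter fun c : G => H22.pp p g = c * x * c⁻¹).card : ℂ) * F g := by
          rw [Finset.sum_comm]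
          refine Finset.sum_congr rfl fun g _ => ?_
          rw [← Finset.sum_filter, Finset.sum_const, nsmul_eq_mul]
      _ = _ := by
          rw [Finset.mul_sum]
          refine Finset.sum_congr rfl fun g _ => ?_
          by_cases hg : IsConj x (H22.pp p g)
          · rw [hcount g hg]
          · rw [hsupp g hg, mul_zero, mul_zero]
  rw [← C.card_mul_index, Nat.cast_mul, mul_assoc] at hdouble
  exact (mul_left_cancel₀ (Nat.cast_ne_zero.2 Nat.card_pos.ne') hdouble).symm

/-- When two principal blocks share only the trivial character, the class sizes of `p`-elements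
are prime to `q`. -/
theorem not_dvd_index_centralizer (hMp : Cfsg.IsPModular p Mp) (hMq : Cfsg.IsPModular q Mq)
    (h : ∀ χ : IrrCharacter G, χ ∈ Cfsg.principalBlock Mp G → χ ∈ Cfsg.principalBlock Mq G →
      (χ : G → ℂ) = fun _ => 1) {x : G} (hx : ∃ k : ℕ, orderOf x = p ^ k) :
    ¬ q ∣ (Subgroup.centralizer ({x} : Set G)).index := by
  rintro ⟨t, ht⟩
  haveI := hMp.2.1
  haveI := hMq.2.1
  have hBp := H41.isPBlock_principalBlock (M := Mp) (G := G)
  have hBq := H41.isPBlock_principalBlock (M := Mq) (G := G)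
  set Bp := Cfsg.principalBlock Mp G with hBpdef
  set Bq := Cfsg.principalBlock Mq G with hBqdef
  set f : G → ℂ := fun g =>
    conj (∑ χ ∈ Finset.univ.filter (· ∈ Bp), (χ : G → ℂ) x * conj ((χ : G → ℂ) g)) with hf
  set F : G → ℂ := fun g => Cfsg.blockCoeff Bq g * f g with hFdef
  have hcl : ∀ g c : G, F (c * g * c⁻¹) = F g := fun g c => by
    simp only [hFdef, hf, H26.irr_conj, H40.blockCoeff_conj]
  have hsupp : ∀ g, ¬ IsConj x (H22.pp p g) → F g = 0 := by
    intro g hg
    simp only [hFdef, hf]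
    rw [H40.sum_block_mul_conj_eq_zero_of_section hMp hBp (isPPart_self hx) (H22.isPPart_pp p g) hg,
      map_zero, mul_zero]
  have hsum : ∑ g : G, F g = 1 := by
    have h1 : ∀ g, F g = ∑ χ ∈ Finset.univ.filter (· ∈ Bp),
        conj ((χ : G → ℂ) x) * (Cfsg.blockCoeff Bq g * (χ : G → ℂ) (g * 1)) := fun g => by
      simp only [hFdef, hf, map_sum, map_mul, Complex.conj_conj, Finset.mul_sum, mul_one]
      exact Finset.sum_congr rfl fun χ _ => by ring
    rw [Finset.sum_congr rfl fun g _ => h1 g, Finset.sum_comm]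
    simp only [← Finset.mul_sum, H40.sum_blockCoeff_mul_irr]
    rw [Finset.sum_eq_single (H26.oneIrr G)]
    · have h2 : H26.oneIrr G ∈ Bq := by
        rw [hBqdef, H41.principalBlock_eq]; exact H41.mem_blockOf_self _
      rw [if_pos h2, H26.oneIrr_val, H26.oneIrr_val, map_one, one_mul]
    · intro χ hχ hne
      rw [if_neg fun h3 => hne (Subtype.ext ?_), mul_zero]
      exact h χ (Finset.mem_filter.1 hχ).2 h3
    · intro hn
      refine absurd (Finset.mem_filter.2 ⟨Finset.mem_univ _, ?_⟩) hn
      rw [hBpdef, H41.principalBlock_eq]; exact H41.mem_blockOf_self _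
  rw [sum_eq_index_mul hcl hsupp, ht] at hsum
  have hmem : ∀ g, F g ∈ localRing Mq := by
    intro g
    simp only [hFdef, hf, map_sum, map_mul, Complex.conj_conj, ← H26.irr_inv]
    exact mul_mem (H41.blockCoeff_mem hBq g) (sum_mem fun χ _ =>
      mul_mem (H40.irr_mem_localRing χ _) (H40.irr_mem_localRing χ _))
  set z : localRing Mq := (t : localRing Mq) *
    ∑ g ∈ Finset.univ.filter (fun g : G => H22.pp p g = x), (⟨F g, hmem g⟩ : localRing Mq) with hz
  have h1 : (q : localRing Mq) * z = 1 := by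
    apply Subtype.ext
    rw [hz]
    push_cast
    rw [← mul_assoc, ← hsum]
    push_cast
    rfl
  have h2 := congrArg (res Mq) h1
  rw [map_mul, map_natCast, H41.IsPModular.natCast_resField hMq, zero_mul, map_one] at h2
  exact zero_ne_one h2

end Class

section Group

variable {p : ℕ} [hp : Fact p.Prime]

/-- If all classes of `p`-elements have size a power of `p`, then `p`-elements and elements of
order prime to `p` commute. -/
theorem commute_of_index (n : ℕ) : ∀ {G : Type u} [Group G] [Finite G], Nat.card G = n →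
    (∀ x : G, (∃ k : ℕ, orderOf x = p ^ k) → ∀ q : ℕ, q.Prime → q ≠ p →
      ¬ q ∣ (Subgroup.centralizer ({x} : Set G)).index) →
    ∀ x h : G, (∃ k : ℕ, orderOf x = p ^ k) → ¬ p ∣ orderOf h → Commute x h := by
  induction n using Nat.strong_induction_on with
  | _ n ih =>
  intro G _ _ hn hyp x h hx hh
  haveI := Fintype.ofFinite G
  by_cases hpG : p ∣ Nat.card G
  swap
  · obtain ⟨k, hk⟩ := hx
    cases k with
    | zero => rw [pow_zero, orderOf_eq_one_iff] at hk; rw [hk]; exact Commute.one_left h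
    | succ k => exact absurd ((dvd_pow_self p k.succ_ne_zero).trans (hk ▸ orderOf_dvd_natCard x)) hpG
  -- a central `p`-element
  obtain ⟨S⟩ : Nonempty (Sylow p G) := inferInstance
  haveI : Nontrivial (S : Subgroup G) := by
    rw [Subgroup.nontrivial_iff_ne_bot]
    exact Sylow.ne_bot_of_dvd_card S hpG
  haveI := S.2.center_nontrivial
  obtain ⟨z₀, hz₀⟩ := exists_ne (1 : Subgroup.center (S : Subgroup G))
  set z : G := ((z₀ : (S : Subgroup G)) : G) with hz
  have hz1 : z ≠ 1 := fun e => hz₀ (Subtype.ext (Subtype.ext e))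
  obtain ⟨kz, hkz⟩ := IsPGroup.iff_orderOf.1 S.2 (z₀ : (S : Subgroup G))
  rw [← Subgroup.orderOf_coe, ← hz] at hkz
  have hSC : (S : Subgroup G) ≤ Subgroup.centralizer ({z} : Set G) := fun a ha =>
    Subgroup.mem_centralizer_singleton_iff.2
      (congrArg Subtype.val (Subgroup.mem_center_iff.1 z₀.2 ⟨a, ha⟩))
  have hcen : Subgroup.centralizer ({z} : Set G) = ⊤ := by
    rw [← Subgroup.index_eq_one, Nat.eq_one_iff_not_exists_prime_dvd]
    intro q hq hqd
    by_cases hqp : q = p
    · subst hqp
      exact S.not_dvd_index (hqd.trans (Subgroup.index_dvd_of_le hSC))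
    · exact hyp z ⟨kz, hkz⟩ q hq hqp hqd
  have hzc : ∀ g : G, g * z = z * g := fun g =>
    Subgroup.mem_centralizer_singleton_iff.1 (hcen ▸ Subgroup.mem_top g)
  set N := Subgroup.zpowers z with hN
  haveI : N.Normal := ⟨by
    rintro _ ⟨i, rfl⟩ g
    refine ⟨i, ?_⟩
    show z ^ i = g * z ^ i * g⁻¹
    rw [((show Commute g z from hzc g).zpow_right i).eq, mul_inv_cancel_right]⟩
  set π := QuotientGroup.mk' N with hπ
  have hlt : Nat.card (G ⧸ N) < n := by
    rw [← hn, ← Nat.card_congr (Subgroup.groupEquivQuotientProdSubgroup (s := N)).symm,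
      Nat.card_prod]
    refine lt_mul_of_one_lt_right Nat.card_pos ?_
    rw [hN, Nat.card_zpowers]
    exact (orderOf_pos z).trans_le le_rfl |> fun h0 =>
      lt_of_le_of_ne h0 fun e => hz1 (orderOf_eq_one_iff.1 e.symm)
  have hyp' : ∀ y : G ⧸ N, (∃ k : ℕ, orderOf y = p ^ k) → ∀ q : ℕ, q.Prime → q ≠ p →
      ¬ q ∣ (Subgroup.centralizer ({y} : Set (G ⧸ N))).index := by
    intro y hy q hq hqp hqd
    obtain ⟨g, rfl⟩ := QuotientGroup.mk'_surjective N y
    obtain ⟨r, hr1, hr2, hr3, hr4⟩ := H22.isPPart_pp p g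
    have himg : π (H22.pp p g) = π g := by
      have h1 : Cfsg.IsPPart p (π g) (π (H22.pp p g)) := by
        refine ⟨π r, by rw [← map_mul, hr1], hr2.map π, ?_, fun h' =>
          hr4 (h'.trans (orderOf_map_dvd π r))⟩
        obtain ⟨j, hj⟩ := hr3
        obtain ⟨i, -, hi⟩ := (Nat.dvd_prime_pow hp.out).1 (hj ▸ orderOf_map_dvd π (H22.pp p g))
        exact ⟨i, hi⟩
      rw [← H22.pp_eq h1, H22.pp_eq (isPPart_self hy)]
    refine hyp _ hr3 q hq hqp (hqd.trans ?_)
    refine dvd_trans (Subgroup.index_dvd_of_le (H := (Subgroup.centralizer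
      ({H22.pp p g} : Set G)).map π) ?_)
      (Subgroup.index_map_dvd _ (QuotientGroup.mk'_surjective N))
    rintro _ ⟨a, ha, rfl⟩
    rw [Subgroup.mem_centralizer_singleton_iff, ← himg, ← map_mul, ← map_mul,
      Subgroup.mem_centralizer_singleton_iff.1 ha]
  have hc : Commute (π x) (π h) := by
    refine ih _ hlt rfl hyp' _ _ ?_ fun h' => hh (h'.trans (orderOf_map_dvd π h))
    obtain ⟨k, hk⟩ := hx
    obtain ⟨i, -, hi⟩ := (Nat.dvd_prime_pow hp.out).1 (hk ▸ orderOf_map_dvd π x)
    exact ⟨i, hi⟩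
  have hmem : x⁻¹ * (h * x * h⁻¹) ∈ N := by
    rw [← QuotientGroup.ker_mk' N, MonoidHom.mem_ker, map_mul, map_mul, map_mul, map_inv, map_inv,
      ← hc.eq, mul_inv_cancel_right, inv_mul_cancel]
  set w := x⁻¹ * (h * x * h⁻¹) with hw
  have hwc : ∀ g : G, g * w = w * g := by
    obtain ⟨i, hi⟩ := Subgroup.mem_zpowers_iff.1 hmem
    intro g
    rw [← hi]
    exact ((show Commute g z from hzc g).zpow_right i).eq
  have hpow : ∀ m : ℕ, h ^ m * x * (h ^ m)⁻¹ = x * w ^ m := by
    intro m
    induction m with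
    | zero => simp
    | succ m im =>
      calc h ^ (m + 1) * x * (h ^ (m + 1))⁻¹ = h * (h ^ m * x * (h ^ m)⁻¹) * h⁻¹ := by
            rw [pow_succ']; group
        _ = h * (x * w ^ m) * h⁻¹ := by rw [im]
        _ = h * x * (h⁻¹ * w ^ m) := by
            rw [show h⁻¹ * w ^ m = w ^ m * h⁻¹ from ((show Commute h⁻¹ w from hwc _).pow_right m).eq]
            group
        _ = x * w ^ (m + 1) := by
            rw [pow_succ', ← mul_assoc x w, show x * w = h * x * h⁻¹ by rw [hw]; group]
            group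
  have hw1 : w = 1 := by
    have h1 := hpow (orderOf h)
    rw [pow_orderOf_eq_one, one_mul, _root_.inv_one, mul_one, left_eq_mul, ← orderOf_dvd_iff_pow_eq_one]
      at h1
    have h2 : orderOf w ∣ p ^ kz := by
      have h3 := Subgroup.orderOf_dvd_natCard _ hmem
      rwa [hN, Nat.card_zpowers, hkz] at h3
    obtain ⟨i, -, hi⟩ := (Nat.dvd_prime_pow hp.out).1 h2
    cases i with
    | zero => rwa [pow_zero, orderOf_eq_one_iff] at hi
    | succ i => exact absurd (((dvd_pow_self p i.succ_ne_zero).trans hi.symm.dvd).trans h1) hh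
  rw [hw1] at hw
  show x * h = h * x
  calc x * h = x * (x⁻¹ * (h * x * h⁻¹)) * h := by rw [← hw, mul_one]
    _ = h * x := by group

/-- If all classes of `p`-elements have size a power of `p`, the group is the product of a normal
Sylow subgroup and its largest normal subgroup of order prime to `p`. -/
theorem product_of_index {G : Type u} [Group G] [Finite G] (P : Sylow p G)
    (hyp : ∀ x : G, (∃ k : ℕ, orderOf x = p ^ k) → ∀ q : ℕ, q.Prime → q ≠ p →
      ¬ q ∣ (Subgroup.centralizer ({x} : Set G)).index) :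
    (P : Subgroup G).Normal ∧ (P : Subgroup G) ⊔ Cfsg.pPrimeCore p G = ⊤ := by
  haveI := Fintype.ofFinite G
  have hC : ∀ h : G, ¬ p ∣ orderOf h → h ∈ Subgroup.centralizer ((P : Subgroup G) : Set G) := by
    intro h hh
    refine Subgroup.mem_centralizer_iff.2 fun y hy => ?_
    obtain ⟨k, hk⟩ := IsPGroup.iff_orderOf.1 P.2 ⟨y, hy⟩
    rw [← Subgroup.orderOf_coe] at hk
    exact (commute_of_index (Nat.card G) rfl hyp y h ⟨k, hk⟩ hh).eq
  have hP : (P : Subgroup G).Normal := by
    rw [← Subgroup.normalizer_eq_top_iff, ← Subgroup.index_eq_one,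
      Nat.eq_one_iff_not_exists_prime_dvd]
    intro q hq hqd
    by_cases hqp : q = p
    · subst hqp
      exact P.not_dvd_index (hqd.trans (Subgroup.index_dvd_of_le Subgroup.le_normalizer))
    haveI := Fact.mk hq
    obtain ⟨Q⟩ : Nonempty (Sylow q G) := inferInstance
    refine Q.not_dvd_index (hqd.trans (Subgroup.index_dvd_of_le fun y hy =>
      Subgroup.centralizer_le_normalizer _ (hC y ?_)))
    obtain ⟨k, hk⟩ := IsPGroup.iff_orderOf.1 Q.2 ⟨y, hy⟩
    rw [← Subgroup.orderOf_coe] at hk
    rw [hk]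
    exact fun hd => hqp ((Nat.prime_dvd_prime_iff_eq hp.out hq).1 (hp.out.dvd_of_dvd_pow hd)).symm
  refine ⟨hP, ?_⟩
  obtain ⟨H, hH⟩ := Subgroup.exists_right_complement'_of_coprime P.card_coprime_index
  have hHcard : Nat.card H = (P : Subgroup G).index := hH.symm.index_eq_card.symm
  have hHC : H ≤ Subgroup.centralizer ((P : Subgroup G) : Set G) := fun y hy => hC y fun hd =>
    P.not_dvd_index (hHcard ▸ hd.trans (Subgroup.orderOf_dvd_natCard H hy))
  have hHn : H.Normal := by
    rw [← Subgroup.normalizer_eq_top_iff, eq_top_iff, ← hH.sup_eq_top, sup_le_iff]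
    refine ⟨fun y hy => Subgroup.mem_normalizer_iff.2 fun a => ?_, Subgroup.le_normalizer⟩
    constructor
    · intro ha
      rw [Subgroup.mem_centralizer_iff.1 (hHC ha) y hy, mul_inv_cancel_right]
      exact ha
    · intro ha
      have h1 : y⁻¹ * (y * a * y⁻¹) = (y * a * y⁻¹) * y⁻¹ :=
        Subgroup.mem_centralizer_iff.1 (hHC ha) y⁻¹ (inv_mem hy)
      have : a = y * a * y⁻¹ := by
        calc a = y⁻¹ * (y * a * y⁻¹) * y := by group
          _ = _ := by rw [h1, inv_mul_cancel_right]
      rwa [this]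
  rw [eq_top_iff, ← hH.sup_eq_top]
  refine sup_le_sup_left (H19.le_pPrimeCore hHn ?_) _
  rw [hHcard]
  exact ((Nat.Prime.coprime_iff_not_dvd hp.out).2 P.not_dvd_index).symm

end Group

end Cfsg.Agent.H22.BlocksMeet
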