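import Cfsg.Agent.H22.TICore
import Cfsg.Prelude.Def_CaseTheorems

/-!
# Semidihedral subgroups
-/

set_option autoImplicit false
set_option linter.unusedSectionVars false

namespace Cfsg.Agent.H22.SemiDihedral

open Cfsg

variable {G : Type*} [Group G] [Finite G]

/-- A semidihedral subgroup of order `4 * h`. -/
structure SDData (D : Subgroup G) (σ τ : G) (h : ℕ) : Prop where
  four_le : 4 ≤ h
  four_dvd : 4 ∣ h
  σ_mem : σ ∈ D
  τ_mem : τ ∈ D
  order : orderOf σ = 2 * h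
  τ_two : orderOf τ = 2
  τ_out : τ ∉ Subgroup.zpowers σ
  card : Nat.card D = 4 * h
  conj : τ * σ * τ⁻¹ = σ ^ (h - 1)

theorem exists_sdData {D : Subgroup G} {n : ℕ} (hn : 4 ≤ n) (hcard : Nat.card D = 2 ^ n)
    (hsd : IsQuasiDihedral D) : ∃ σ τ : G, SDData D σ τ (2 ^ (n - 2)) := by
  obtain ⟨m, hm, hc, x, y, hx, hy, hrel⟩ := hsd
  obtain rfl : n = m + 1 := Nat.pow_right_injective (le_refl 2) (hcard.symm.trans hc)
  rw [show m + 1 - 2 = m - 1 by omega]
  obtain ⟨k, rfl⟩ : ∃ k, m = k + 3 := ⟨m - 3, by omega⟩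
  rw [show k + 3 - 1 = k + 2 by omega] at hrel ⊢
  have hne : (y : G) ∉ Subgroup.zpowers (x : G) := by
    rintro ⟨i, hi⟩
    have hyx : x ^ i = y := Subtype.ext (by simpa using hi)
    have hcom : y * x * y⁻¹ = x := by rw [← hyx]; group
    rw [hcom] at hrel
    have h1 : x ^ 1 = x ^ (2 ^ (k + 2) - 1) := by rw [pow_one]; exact hrel
    have h2 : 2 ^ (k + 2) - 1 < orderOf x := by
      rw [hx, pow_succ 2 (k + 2)]
      have : 0 < 2 ^ (k + 2) := by positivity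
      omega
    have h3 := pow_injOn_Iio_orderOf (x := x) (by simp [hx]) (by simpa using h2) h1
    have : 4 ≤ 2 ^ (k + 2) := by
      calc 4 = 2 ^ 2 := rfl
        _ ≤ _ := Nat.pow_le_pow_right two_pos (by omega)
    omega
  refine ⟨(x : G), (y : G), ?_, ?_, x.2, y.2, ?_, ?_, hne, ?_, ?_⟩
  · calc 4 = 2 ^ 2 := rfl
      _ ≤ _ := Nat.pow_le_pow_right two_pos (by omega)
  · exact ⟨2 ^ k, by ring⟩
  · rw [Subgroup.orderOf_coe, hx]; ring
  · rw [Subgroup.orderOf_coe, hy]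
  · rw [hc]; ring
  · simpa using congrArg Subtype.val hrel

variable {D : Subgroup G} {σ τ : G} {h : ℕ} (hd : SDData D σ τ h)

include hd

theorem zpowers_le : Subgroup.zpowers σ ≤ D := Subgroup.zpowers_le.2 hd.σ_mem

theorem exists_pow {a : G} (ha : a ∈ Subgroup.zpowers σ) : ∃ i < 2 * h, a = σ ^ i := by
  classical
  rw [(isOfFinOrder_of_finite σ).mem_zpowers_iff_mem_range_orderOf, Finset.mem_image] at ha
  obtain ⟨j, hj, e⟩ := ha
  exact ⟨j, hd.order ▸ Finset.mem_range.1 hj, e.symm⟩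

theorem pow_eq_iff {i j : ℕ} : σ ^ i = σ ^ j ↔ i ≡ j [MOD 2 * h] := by
  rw [pow_eq_pow_iff_modEq, hd.order]

theorem eq_mul_of_notMem {u : G} (hu : u ∈ D) (hout : u ∉ Subgroup.zpowers σ) :
    ∃ a ∈ Subgroup.zpowers σ, u = τ * a := by
  set A := (Subgroup.zpowers σ).subgroupOf D
  have hA : Nat.card A = 2 * h := by
    rw [Nat.card_congr (Subgroup.subgroupOfEquivOfLe (zpowers_le hd)).toEquiv, Nat.card_zpowers,
      hd.order]
  have hidx : A.index = 2 := by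
    have := A.card_mul_index
    rw [hA, hd.card] at this
    have := hd.four_le
    nlinarith
  have h1 : (⟨τ, hd.τ_mem⟩ : D)⁻¹ * ⟨u, hu⟩ ∈ A :=
    (Subgroup.mul_mem_iff_of_index_two hidx).2 (by
      simp [A, Subgroup.mem_subgroupOf, hd.τ_out, hout])
  exact ⟨τ⁻¹ * u, by simpa [A, Subgroup.mem_subgroupOf] using h1, by rw [mul_inv_cancel_left]⟩

theorem conj_pow (i : ℕ) : τ * σ ^ i * τ⁻¹ = σ ^ ((h - 1) * i) := by
  rw [← _root_.conj_pow, hd.conj, ← pow_mul]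

theorem conj_of_notMem {u : G} (hu : u ∈ D) (hout : u ∉ Subgroup.zpowers σ) (i : ℕ) :
    u * σ ^ i * u⁻¹ = σ ^ ((h - 1) * i) := by
  obtain ⟨a, ha, rfl⟩ := eq_mul_of_notMem hd hu hout
  obtain ⟨j, -, rfl⟩ := exists_pow hd ha
  calc τ * σ ^ j * σ ^ i * (τ * σ ^ j)⁻¹ = τ * σ ^ i * τ⁻¹ := by group
    _ = _ := conj_pow hd i

theorem orderOf_z : orderOf (σ ^ h) = 2 := by
  have := hd.four_le
  rw [orderOf_pow' σ (by omega), hd.order, Nat.gcd_eq_right (dvd_mul_left h 2)]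
  exact Nat.mul_div_left 2 (by omega)

theorem fix_pow {i : ℕ} (hi : σ ^ ((h - 1) * i) = σ ^ i) : σ ^ i = 1 ∨ σ ^ i = σ ^ h := by
  have : Fintype G := Fintype.ofFinite G
  obtain ⟨m, hm⟩ := hd.four_dvd
  have h4 := hd.four_le
  have h1 := (pow_eq_iff hd).1 hi
  rw [Nat.modEq_iff_dvd] at h1
  push_cast [show 1 ≤ h by omega] at h1
  have h2 : ((2 * h : ℕ) : ℤ) ∣ ((h : ℤ) - 2) * i := by
    have := (dvd_neg).2 h1
    push_cast
    rwa [show ((h : ℤ) - 2) * i = -((i : ℤ) - ((h : ℤ) - 1) * i) by ring]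
  obtain ⟨t, ht⟩ := h2
  have h5 : σ ^ ((((h : ℤ) - 2)) * i) = 1 := by
    rw [ht, zpow_mul, zpow_natCast σ (2 * h), ← hd.order, pow_orderOf_eq_one, one_zpow]
  -- hence `σ ^ (2 i) = σ ^ (h i)` and so `σ ^ (2 i)` is its own power by `h / 2`
  have h6 : σ ^ (2 * i) = σ ^ (h * i) := by
    rw [← zpow_natCast, ← zpow_natCast σ (h * i)]
    rw [show ((h * i : ℕ) : ℤ) = ((h : ℤ) - 2) * i + ((2 * i : ℕ) : ℤ) by push_cast; ring,
      zpow_add, h5, one_mul]
  have h7 : (σ ^ (2 * i)) ^ (2 : ℕ) = 1 := by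
    rw [h6, ← pow_mul, show h * i * 2 = (2 * h) * i by ring, pow_mul, ← hd.order,
      pow_orderOf_eq_one, one_pow]
  have h8 : (σ ^ i) ^ 4 = 1 := by rw [← pow_mul, show i * 4 = 2 * i * 2 by ring, pow_mul, h7]
  have h9 : (σ ^ i) ^ 2 = 1 := by
    rw [← pow_mul, mul_comm, h6, hm, show 4 * m * i = i * 4 * m by ring, pow_mul, pow_mul, h8,
      one_pow]
  by_cases h1' : σ ^ i = 1
  · exact Or.inl h1'
  · exact Or.inr (TICore.eq_of_mem_zpowers (g := σ) (orderOf_z hd) (orderOf_eq_prime h9 h1')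
      (Subgroup.pow_mem _ (Subgroup.mem_zpowers σ) h) (Subgroup.pow_mem _ (Subgroup.mem_zpowers σ) i))

theorem fix_z : σ ^ ((h - 1) * h) = σ ^ h := by
  obtain ⟨m, hm⟩ := hd.four_dvd
  have h4 := hd.four_le
  rw [pow_eq_iff hd, Nat.modEq_iff_dvd]
  refine ⟨1 - 2 * m, ?_⟩
  subst hm
  push_cast [show 1 ≤ 4 * m by omega]
  ring

theorem z_comm {u : G} (hu : u ∈ D) : u * σ ^ h = σ ^ h * u := by
  by_cases hA : u ∈ Subgroup.zpowers σ
  · obtain ⟨i, rfl⟩ := hA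
    exact (((Commute.refl σ).zpow_left i).pow_right h).eq
  · have h1 := conj_of_notMem hd hu hA h
    rwa [fix_z hd, mul_inv_eq_iff_eq_mul] at h1

theorem centralizer_le {v : G} (hv : v ∈ Subgroup.zpowers σ) (h1 : v ≠ 1) (hz : v ≠ σ ^ h)
    {w : G} (hw : w ∈ D) (hc : w * v = v * w) : w ∈ Subgroup.zpowers σ := by
  by_contra hout
  obtain ⟨i, -, rfl⟩ := exists_pow hd hv
  have h2 := conj_of_notMem hd hw hout i
  rw [hc, mul_inv_cancel_right] at h2
  rcases fix_pow hd h2.symm with e | e <;> contradiction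

theorem sq_of_notMem {u : G} (hu : u ∈ D) (hout : u ∉ Subgroup.zpowers σ) : u ^ 4 = 1 := by
  obtain ⟨a, ha, hua⟩ := eq_mul_of_notMem hd hu hout
  have h2 : u * u ∈ Subgroup.zpowers σ := by
    subst hua
    obtain ⟨j, -, rfl⟩ := exists_pow hd ha
    have e : τ * σ ^ j * (τ * σ ^ j) = τ * σ ^ j * τ⁻¹ * (τ * τ) * σ ^ j := by group
    rw [e, conj_pow hd, show τ * τ = 1 by rw [← pow_two, ← hd.τ_two, pow_orderOf_eq_one], mul_one,
      ← pow_add]
    exact Subgroup.pow_mem _ (Subgroup.mem_zpowers σ) _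
  have h4 : u ^ 4 = u * u * (u * u) := by rw [pow_succ, pow_succ, pow_succ, pow_one]; group
  by_cases h1 : u * u = 1
  · rw [h4, h1, one_mul]
  by_cases hz : u * u = σ ^ h
  · rw [h4, hz, ← pow_two, ← orderOf_z hd, pow_orderOf_eq_one]
  · exact absurd (centralizer_le hd h2 h1 hz hu (by group)) hout

theorem mem_of_order {u : G} (hu : u ∈ D) (ho : orderOf u = 2 * h) : u ∈ Subgroup.zpowers σ := by
  by_contra hout
  have h1 := Nat.le_of_dvd (by norm_num) (orderOf_dvd_of_pow_eq_one (sq_of_notMem hd hu hout))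
  have := hd.four_le
  omega

theorem eq_z_of_central {w : G} (hw : w ∈ D) (hc : ∀ d ∈ D, d * w = w * d) (h2 : orderOf w = 2) :
    w = σ ^ h := by
  have : Fintype G := Fintype.ofFinite G
  by_cases hA : w ∈ Subgroup.zpowers σ
  · exact TICore.eq_of_mem_zpowers (g := σ) (orderOf_z hd) h2
      (Subgroup.pow_mem _ (Subgroup.mem_zpowers σ) h) hA
  · exfalso
    have h1 := conj_of_notMem hd hw hA 1
    rw [pow_one, ← hc σ hd.σ_mem, mul_inv_cancel_right, mul_one] at h1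
    have h3 := (pow_eq_iff hd).1 (show σ ^ 1 = σ ^ (h - 1) by rw [pow_one]; exact h1)
    have := hd.four_le
    rw [Nat.ModEq, Nat.mod_eq_of_lt (by omega), Nat.mod_eq_of_lt (by omega)] at h3
    omega

theorem not_commute : τ * (σ * τ * σ⁻¹) ≠ σ * τ * σ⁻¹ * τ := by
  intro hc
  set b := σ ^ 1 * (σ ^ (h - 1))⁻¹ with hb
  have e : σ * τ * σ⁻¹ = b * τ := by
    rw [hb, ← hd.conj, pow_one]; group
  have hA : b ∈ Subgroup.zpowers σ := by
    rw [hb]
    exact (Subgroup.zpowers σ).mul_mem (Subgroup.pow_mem _ (Subgroup.mem_zpowers σ) _)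
      ((Subgroup.zpowers σ).inv_mem (Subgroup.pow_mem _ (Subgroup.mem_zpowers σ) _))
  rw [e] at hc
  have hcom : τ * b = b * τ := mul_right_cancel (b := τ) (by rw [mul_assoc, hc, mul_assoc])
  obtain ⟨m, hm⟩ := hd.four_dvd
  have h4 := hd.four_le
  have key : ∀ w : G, b = w → (w = 1 ∨ w = σ ^ h) → False := by
    intro w hw hcase
    rw [← hw] at hcase
    rw [hb, mul_inv_eq_one, mul_inv_eq_iff_eq_mul, ← pow_add, pow_eq_iff hd, pow_eq_iff hd] at hcase
    rcases hcase with h1 | h1 <;> rw [Nat.modEq_iff_dvd] at h1 <;> obtain ⟨t, ht⟩ := h1 <;>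
      push_cast [show 1 ≤ h by omega] at ht <;>
      rcases lt_trichotomy t 0 with ht' | rfl | ht'
    all_goals nlinarith
  by_cases h1 : b = 1
  · exact key 1 h1 (Or.inl rfl)
  by_cases hz : b = σ ^ h
  · exact key _ hz (Or.inr rfl)
  exact hd.τ_out (centralizer_le hd hA h1 hz hd.τ_mem hcom)

end Cfsg.Agent.H22.SemiDihedral
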