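import Cfsg.Agent.H22.TICore
import Cfsg.Agent.H41.SectionSum

/-!
# The contribution of the involution
-/

set_option autoImplicit false
set_option linter.unusedSectionVars false

open scoped ComplexConjugate Classical

namespace Cfsg.Agent.H22.TICore

open Cfsg
open Cfsg.Agent.H41 (ResField)

variable {G : Type*} [Group G] [Fintype G] [Fact (Nat.Prime 2)] {M : Ideal AlgInt} [M.IsMaximal]
  [CharP (ResField M) 2] {z : G} {B : Set (IrrCharacter G)} {c : Set (IrrCharacter (CZ z))}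
  {P : Subgroup (CZ z)} {e : MonoidAlgebra (ResField M) (CZ z)} {ξ₀ : IrrCharacter (CZ z)}
  (S : Setup M B z c P e ξ₀)

include S

theorem orderOf_zC : orderOf (zC z) = 2 := by
  rw [← Subgroup.orderOf_coe]
  exact S.order

theorem pp_zC_mul {x : CZ z} (hx : ¬ 2 ∣ orderOf x) : pp 2 (zC z * x) = zC z :=
  pp_eq ⟨x, rfl, (zC_central x).symm, ⟨1, by rw [orderOf_zC S, pow_one]⟩, hx⟩

/-- The part in `c` on the section of `z`. -/
theorem bpart_eq (hP : zC z ∈ P) (χ : IrrCharacter G) {x : CZ z} (hx : ¬ 2 ∣ orderOf x) :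
    H56.Subsec.bpart 2 z c χ x =
      Phi M P e ξ₀ (χ : G → ℂ) ⟨zC z, hP⟩ * (ξ₀ : CZ z → ℂ) (zC z * x) := by
  have hres : IsClassFunction (CZ z) (fun k : CZ z => (χ : G → ℂ) (k : G)) :=
    H26.isClassFunction_of_isCharacter
      (H26.isCharacter_comp (H26.irr_isCharacter χ) (CZ z).subtype)
  have htheta : IsClassFunction (CZ z) (H56.Subsec.theta z χ) :=
    H41.SectionSum.theta_isClassFunction z χ
  rw [H56.Subsec.bpart, ← H32.pRegularPart_blockPart, pRegularPart, if_pos (show IsPRegular 2 x from hx)]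
  have h : blockPart c (H56.Subsec.theta z χ) x =
      blockPart c (fun k : CZ z => (χ : G → ℂ) (k : G)) (zC z * x) := by
    rw [H40.blockPart_eq_sum c htheta x, H40.blockPart_eq_sum c hres (zC z * x)]
    refine Finset.sum_congr rfl fun k _ => ?_
    congr 1
    show (χ : G → ℂ) (((zC z) * (k * x) : CZ z) : G) = (χ : G → ℂ) ((k * (zC z * x) : CZ z) : G)
    congr 2
    rw [← mul_assoc k, zC_central k, mul_assoc]
  rw [h, blockPart_res S, Phi, Finset.sum_apply, Finset.sum_apply, Finset.sum_mul]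
  refine Finset.sum_congr rfl fun θ _ => ?_
  rw [Pi.smul_apply, Pi.smul_apply, gfun_at_z S hP (pp_zC_mul S hx), smul_eq_mul, smul_eq_mul,
    mul_assoc]

/-- The norm of the height zero member on the section of `z`. -/
theorem norm_section (hP : zC z ∈ P) :
    (Nat.card (CZ z) : ℂ)⁻¹ * ∑ x ∈ Finset.univ.filter (fun x : CZ z => ¬ 2 ∣ orderOf x),
      (ξ₀ : CZ z → ℂ) (zC z * x) * conj ((ξ₀ : CZ z → ℂ) (zC z * x)) = (Nat.card P : ℂ)⁻¹ := by
  set f : P → ℂ := fun u => if u = ⟨zC z, hP⟩ then 1 else 0 with hfdef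
  have hf : IsClassFunction P f := by
    intro u v
    have : v * u * v⁻¹ = ⟨zC z, hP⟩ ↔ u = ⟨zC z, hP⟩ := by
      have hc : v * ⟨zC z, hP⟩ * v⁻¹ = ⟨zC z, hP⟩ := Subtype.ext (by
        show (v : CZ z) * zC z * (v : CZ z)⁻¹ = zC z
        rw [zC_central, mul_inv_cancel_right])
      exact ⟨fun h => mul_left_cancel (mul_right_cancel (h.trans hc.symm)), fun h => h ▸ hc⟩
    simp only [f, this]
  have h := classInner_gfun S hf hf
  have hr : classInner f f = (Nat.card P : ℂ)⁻¹ := by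
    rw [classInner, Finset.sum_eq_single ⟨zC z, hP⟩ (fun u _ hu => by simp [f, hu])
      (fun h => absurd (Finset.mem_univ _) h)]
    simp [f]
  rw [← hr, ← h, classInner]
  congr 1
  have hzero : ∀ k : CZ z, pp 2 k ≠ zC z → gfun M P e ξ₀ f k = 0 := by
    intro k hk
    refine gfun_eq_zero fun u x hx => if_neg fun hu => hk ?_
    subst hu
    calc pp 2 k = x⁻¹ * (x * pp 2 k * x⁻¹) * x := by group
      _ = zC z := by rw [hx, mul_assoc, ← zC_central, inv_mul_cancel_left]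
  symm
  rw [← Finset.sum_filter_add_sum_filter_not Finset.univ (fun k : CZ z => pp 2 k = zC z),
    Finset.sum_eq_zero (s := Finset.univ.filter fun k : CZ z => ¬ pp 2 k = zC z) fun k hk => by
      rw [hzero k (Finset.mem_filter.1 hk).2, zero_mul], add_zero]
  symm
  refine Finset.sum_bij (fun x _ => zC z * x) (fun x hx => ?_) (fun a _ b _ h => mul_left_cancel h)
    (fun k hk => ?_) fun x hx => ?_
  · exact Finset.mem_filter.2 ⟨Finset.mem_univ _, pp_zC_mul S (Finset.mem_filter.1 hx).2⟩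
  · obtain ⟨y, hy, -, -, hy2⟩ := isPPart_pp 2 k
    rw [(Finset.mem_filter.1 hk).2] at hy
    exact ⟨y, Finset.mem_filter.2 ⟨Finset.mem_univ _, hy2⟩, hy⟩
  · rw [gfun_at_z S hP (pp_zC_mul S (Finset.mem_filter.1 hx).2)]
    simp [f]

/-- The scaled contribution of the subsection of `z`. -/
theorem cont_eq (hP : zC z ∈ P) (χ ψ : IrrCharacter G) :
    H56.Subsec.cont 2 z c χ ψ 1 = Phi M P e ξ₀ (χ : G → ℂ) ⟨zC z, hP⟩ *
      conj (Phi M P e ξ₀ (ψ : G → ℂ) ⟨zC z, hP⟩) := by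
  rw [H56.Subsec.cont_one_eq S.ind.1]
  have hcard : (Nat.card P : ℂ) = ((2 : ℕ) : ℂ) ^ blockDefect 2 c := by
    rw [H40.card_defectGroup S.hM S.ind.1 S.defect, Nat.cast_pow]
  have hterm : ∑ x : CZ z, H56.Subsec.bpart 2 z c χ x * conj (H56.Subsec.bpart 2 z c ψ x) =
      Phi M P e ξ₀ (χ : G → ℂ) ⟨zC z, hP⟩ * conj (Phi M P e ξ₀ (ψ : G → ℂ) ⟨zC z, hP⟩) *
        ∑ x ∈ Finset.univ.filter (fun x : CZ z => ¬ 2 ∣ orderOf x),
          (ξ₀ : CZ z → ℂ) (zC z * x) * conj ((ξ₀ : CZ z → ℂ) (zC z * x)) := by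
    rw [Finset.sum_filter, Finset.mul_sum]
    refine Finset.sum_congr rfl fun x _ => ?_
    by_cases hx : ¬ 2 ∣ orderOf x
    · rw [if_pos hx, bpart_eq S hP χ hx, bpart_eq S hP ψ hx, map_mul]
      ring
    · rw [if_neg hx, mul_zero, H56.Subsec.bpart, ← H32.pRegularPart_blockPart, pRegularPart,
        if_neg (show ¬ IsPRegular 2 x from hx), zero_mul]
  rw [hterm, mul_left_comm (Nat.card (CZ z) : ℂ)⁻¹, norm_section S hP, hcard]
  have h2 : ((2 : ℕ) : ℂ) ^ blockDefect 2 c ≠ 0 := pow_ne_zero _ (by norm_num)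
  field_simp

end Cfsg.Agent.H22.TICore
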