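import Cfsg.Agent.H40.Tame.FrameDef
import Mathlib.Algebra.Order.BigOperators.Ring.Finset
import Mathlib.Data.Fintype.EquivFin
import Mathlib.Tactic.Linarith
import Mathlib.Tactic.IntervalCases
import Mathlib.Tactic.Ring

/-!
# The frame from the inner products of the relations
-/

set_option autoImplicit false
set_option linter.unusedSectionVars false

namespace Cfsg.Agent.H22.TameFrame

open Cfsg.Agent.H40.Tame

variable {ι : Type*} [Fintype ι] [DecidableEq ι]

theorem unit_or_zero_of_sum {w : ι → ℤ} (hw : ∑ χ, w χ * w χ = 3) (χ : ι) :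
    w χ = 0 ∨ w χ = 1 ∨ w χ = -1 := by
  have h := Finset.single_le_sum (f := fun χ => w χ * w χ) (fun x _ => mul_self_nonneg (w x))
    (Finset.mem_univ χ)
  rw [hw] at h
  have h2 : -2 < w χ ∧ w χ < 2 := by constructor <;> nlinarith
  rcases h2 with ⟨h2, h3⟩
  interval_cases hv : w χ <;> simp

theorem mul_self_eq_ite {x : ℤ} (h : x = 0 ∨ x = 1 ∨ x = -1) :
    x * x = if x ≠ 0 then 1 else 0 := by
  rcases h with e | e | e <;> subst e <;> simp

/-- A vector of norm three meets the relation on the four in two places. -/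
theorem exists_pattern {Z : Finset ι} {s w : ι → ℤ} (hs : ∀ χ ∈ Z, s χ = 1 ∨ s χ = -1)
    (hs0 : ∀ χ ∉ Z, s χ = 0) (hw : ∑ χ, w χ * w χ = 3) (hsw : ∑ χ, s χ * w χ = 2) :
    ∃ P ⊆ Z, P.card = 2 ∧ ∃ X ∉ Z, (w X = 1 ∨ w X = -1) ∧
      (∀ χ ∈ P, w χ = s χ) ∧ ∀ χ, χ ∉ P → χ ≠ X → w χ = 0 := by
  have hval := unit_or_zero_of_sum hw
  set A := (Finset.univ : Finset ι).filter fun χ => w χ ≠ 0 with hA
  have hAcard : A.card = 3 := by
    have h := hw
    rw [Finset.sum_congr rfl fun χ _ => mul_self_eq_ite (hval χ), Finset.sum_boole] at h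
    exact_mod_cast h
  have hsum : ∑ χ ∈ A ∩ Z, s χ * w χ = 2 := by
    rw [← hsw]
    refine Finset.sum_subset (Finset.subset_univ _) fun χ _ hχ => ?_
    by_cases hZ : χ ∈ Z
    · have : w χ = 0 := by
        by_contra h
        exact hχ (Finset.mem_inter.2 ⟨Finset.mem_filter.2 ⟨Finset.mem_univ _, h⟩, hZ⟩)
      rw [this, mul_zero]
    · rw [hs0 χ hZ, zero_mul]
  set N := (A ∩ Z).filter fun χ => s χ * w χ = -1 with hN
  have hterm : ∀ χ ∈ A ∩ Z, s χ * w χ = 1 - 2 * (if s χ * w χ = -1 then 1 else 0) := by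
    intro χ hχ
    obtain ⟨hχA, hχZ⟩ := Finset.mem_inter.1 hχ
    have hne := (Finset.mem_filter.1 hχA).2
    rcases hs χ hχZ with e | e <;> rcases hval χ with e' | e' | e' <;> simp_all
  rw [Finset.sum_congr rfl hterm, Finset.sum_sub_distrib, ← Finset.mul_sum, Finset.sum_boole,
    Finset.sum_const, nsmul_eq_mul, mul_one, ← hN] at hsum
  have hle : (A ∩ Z).card ≤ A.card := Finset.card_le_card Finset.inter_subset_left
  have hle' : N.card ≤ (A ∩ Z).card := Finset.card_le_card (Finset.filter_subset _ _)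
  have hc : (A ∩ Z).card = 2 ∧ N.card = 0 := by omega
  obtain ⟨X, hX⟩ : ∃ X, A \ Z = {X} := by
    refine Finset.card_eq_one.1 ?_
    have := Finset.card_sdiff_add_card_inter A Z
    omega
  have hXA : X ∈ A \ Z := hX ▸ Finset.mem_singleton_self X
  obtain ⟨hXA, hXZ⟩ := Finset.mem_sdiff.1 hXA
  refine ⟨A ∩ Z, Finset.inter_subset_right, hc.1, X, hXZ,
    (hval X).resolve_left (Finset.mem_filter.1 hXA).2, fun χ hχ => ?_, fun χ hP hne => ?_⟩
  · have h1 := hterm χ hχ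
    have h2 : ¬ s χ * w χ = -1 := fun e => by
      have := Finset.card_eq_zero.1 hc.2
      exact Finset.notMem_empty χ (this ▸ Finset.mem_filter.2 ⟨hχ, e⟩)
    rw [if_neg h2] at h1
    rcases hs χ (Finset.mem_inter.1 hχ).2 with e | e <;> rw [e] at h1 ⊢ <;> linarith
  · by_contra h
    have hχA : χ ∈ A := Finset.mem_filter.2 ⟨Finset.mem_univ _, h⟩
    by_cases hZ : χ ∈ Z
    · exact hP (Finset.mem_inter.2 ⟨hχA, hZ⟩)
    · exact hne (Finset.mem_singleton.1 (hX ▸ Finset.mem_sdiff.2 ⟨hχA, hZ⟩))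

/-- The indices of a frame. -/
theorem exists_frame {m : ℕ} (hm : 0 < m) {Z : Finset ι} {s : ι → ℤ} {W : Fin m → ι → ℤ}
    (hZ : Z.card = 4) (hcard : Fintype.card ι = m + 4) (hs : ∀ χ ∈ Z, s χ = 1 ∨ s χ = -1)
    (hs0 : ∀ χ ∉ Z, s χ = 0)
    (hWW : ∀ x y, ∑ χ, W x χ * W y χ = if x = y then 3 else 2)
    (hsW : ∀ x, ∑ χ, s χ * W x χ = 2) (hne : ∀ χ ∉ Z, ∃ x, W x χ ≠ 0) :
    ∃ (f : Ix m ≃ ι) (ε : Ix m → ℤ), (∀ i, ε i = 1 ∨ ε i = -1) ∧
      (∀ i, f i ∈ Z ↔ ∃ j, i = Sum.inl j) ∧ (∀ i, vecE m i * ε i = s (f i)) ∧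
      ∀ x i, vecW x i * ε i = W x (f i) := by
  choose P hPZ hP2 X hXZ hX hWP hW0 using fun x =>
    exists_pattern hs hs0 (w := W x) (by rw [hWW, if_pos rfl]) (hsW x)
  have hsurj : ∀ χ ∉ Z, ∃ x, X x = χ := fun χ hχ => by
    obtain ⟨x, hx⟩ := hne χ hχ
    exact ⟨x, by
      by_contra h
      exact hx (hW0 x χ (fun hP => hχ (hPZ x hP)) (Ne.symm h))⟩
  have hXinj : Function.Injective X := by
    let X' : Fin m → {χ // χ ∉ Z} := fun x => ⟨X x, hXZ x⟩
    have hs' : Function.Surjective X' := fun ⟨χ, hχ⟩ => by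
      obtain ⟨x, hx⟩ := hsurj χ hχ
      exact ⟨x, Subtype.ext hx⟩
    have hb := (Fintype.bijective_iff_surjective_and_card X').2 ⟨hs', by
      rw [Fintype.card_fin, Fintype.card_subtype_compl, Fintype.card_coe, hZ, hcard]; omega⟩
    exact fun x y h => hb.1 (Subtype.ext h)
  have hPeq : ∀ x y, P x = P y := by
    intro x y
    by_cases hxy : x = y
    · rw [hxy]
    have h := hWW x y
    rw [if_neg hxy, ← Finset.sum_subset (Finset.subset_univ (P x ∩ P y)) fun χ _ hχ => ?_] at h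
    · rw [Finset.sum_congr rfl (g := fun _ => (1 : ℤ)) fun χ hχ => ?_, Finset.sum_const,
        nsmul_eq_mul, mul_one] at h
      · have h2 : (P x ∩ P y).card = 2 := by exact_mod_cast h
        rw [← Finset.eq_of_subset_of_card_le (Finset.inter_subset_left : P x ∩ P y ⊆ P x)
          (by rw [h2, hP2])]
        exact Finset.eq_of_subset_of_card_le Finset.inter_subset_right (by rw [h2, hP2])
      · rw [Finset.mem_inter] at hχ
        rw [hWP x χ hχ.1, hWP y χ hχ.2]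
        rcases hs χ (hPZ x hχ.1) with e | e <;> rw [e] <;> rfl
    · by_cases h1 : χ ∈ P x
      · have h2 : χ ∉ P y := fun h2 => hχ (Finset.mem_inter.2 ⟨h1, h2⟩)
        rw [hW0 y χ h2 (fun e => hXZ y (e ▸ hPZ x h1)), mul_zero]
      · by_cases h3 : χ = X x
        · rw [hW0 y χ (fun h2 => hXZ x (h3 ▸ hPZ y h2)) (fun e => hxy (hXinj (h3.symm.trans e))),
            mul_zero]
        · rw [hW0 x χ h1 h3, zero_mul]
  let x₀ : Fin m := ⟨0, hm⟩
  obtain ⟨a, b, hab, hPab⟩ := Finset.card_eq_two.1 (hP2 x₀)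
  obtain ⟨c, d, hcd, hQcd⟩ := Finset.card_eq_two.1
    (show (Z \ P x₀).card = 2 by rw [Finset.card_sdiff_of_subset (hPZ x₀), hZ, hP2])
  have hP : ∀ x χ, χ ∈ P x ↔ χ = a ∨ χ = b := fun x χ => by
    rw [hPeq x x₀, hPab]; simp
  have hQ : ∀ χ, (χ ∈ Z ∧ χ ≠ a ∧ χ ≠ b) ↔ χ = c ∨ χ = d := fun χ => by
    have h := Finset.ext_iff.1 hQcd χ
    rw [Finset.mem_sdiff, hPab] at h
    simp only [Finset.mem_insert, Finset.mem_singleton, not_or] at h
    exact h
  have haZ : a ∈ Z := hPZ x₀ ((hP x₀ a).2 (Or.inl rfl))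
  have hbZ : b ∈ Z := hPZ x₀ ((hP x₀ b).2 (Or.inr rfl))
  obtain ⟨hcZ, hca, hcb⟩ := (hQ c).2 (Or.inl rfl)
  obtain ⟨hdZ, hda, hdb⟩ := (hQ d).2 (Or.inr rfl)
  let g : Ix m → ι := Sum.elim ![a, b, c, d] X
  have hgZ : ∀ j, g (Sum.inl j) ∈ Z := fun j => by fin_cases j <;> simpa [g]
  have hginj : Function.Injective g := by
    refine Function.Injective.sumElim ?_ hXinj fun j x e => hXZ x (e ▸ hgZ j)
    intro i j hij
    fin_cases i <;> fin_cases j <;> simp_all
  have hgbij := (Fintype.bijective_iff_injective_and_card g).2 ⟨hginj, by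
    rw [hcard, Fintype.card_sum, Fintype.card_fin, Fintype.card_fin]; omega⟩
  refine ⟨Equiv.ofBijective g hgbij, Sum.elim (fun j => s (g (Sum.inl j))) fun x => W x (X x),
    ?_, ?_, ?_, ?_⟩
  · rintro (j | x)
    · exact hs _ (hgZ j)
    · exact hX x
  · rintro (j | x)
    · exact ⟨fun _ => ⟨j, rfl⟩, fun _ => hgZ j⟩
    · exact ⟨fun h => absurd h (hXZ x), fun ⟨j, hj⟩ => nomatch hj⟩
  · rintro (j | x)
    · simp [vecE, g, Equiv.ofBijective]
    · simp [vecE, g, Equiv.ofBijective, hs0 _ (hXZ x)]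
  · rintro x (j | y)
    · show vecW x (Sum.inl j) * s (g (Sum.inl j)) = W x (g (Sum.inl j))
      by_cases hj : g (Sum.inl j) ∈ P x
      · rw [hWP x _ hj]
        have : j = 0 ∨ j = 1 := by
          rcases (hP x _).1 hj with e | e
          · exact Or.inl (Sum.inl_injective (hginj (e.trans rfl)))
          · exact Or.inr (Sum.inl_injective (hginj (e.trans rfl)))
        rcases this with rfl | rfl <;> simp [vecW]
      · rw [hW0 x _ hj fun e => hXZ x (e ▸ hgZ j)]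
        rw [hP] at hj
        fin_cases j <;> simp_all [vecW, g]
    · show vecW x (Sum.inr y) * W y (X y) = W x (X y)
      by_cases hxy : y = x
      · subst hxy; simp [vecW]
      · rw [hW0 x _ (fun h => hXZ y (hPZ x h)) (fun e => hxy (hXinj e))]
        simp [vecW, hxy]

end Cfsg.Agent.H22.TameFrame
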