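import Cfsg.Agent.H22.TameRowsComb
import Cfsg.Agent.H20.BrauerFeit.Local
import Cfsg.Agent.H42.BlockSpan

/-!
# The rows of a frame
-/

set_option autoImplicit false
set_option linter.unusedSectionVars false
set_option linter.style.haveILetI false

open scoped ComplexConjugate Classical

namespace Cfsg.Agent.H22.TameRows

open Cfsg Cfsg.Agent.H40.Tame
open Cfsg.Agent.H32 (scaledReg minVal)
open Cfsg.Agent.H42 (regInt regRes blockFinset mem_blockFinset)

variable {G : Type*} [Group G] [Fintype G] [Fact (Nat.Prime 2)] {M : Ideal AlgInt}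
  {B : Set (IrrCharacter G)}

theorem minVal_add_defect (hM : IsPModular 2 M) (hB : IsPBlock M B) :
    minVal 2 B + blockDefect 2 B = (Nat.card G).factorization 2 := by
  have := hM.2.1
  obtain ⟨ξ, hξ, hξ0⟩ := H41.exists_height_zero (p := 2) (H41.IsPBlock.nonempty hB)
  have := (H42.blockHeight_eq_zero_iff (p := 2) hB hξ).1 hξ0
  rwa [H41.factorization_eq_of_height_zero hξ hξ0] at this

/-- The scaled entries give `2 ^ d` times a projection. -/
theorem sum_scaledReg_mul (hM : IsPModular 2 M) (hB : IsPBlock M B) {χ : IrrCharacter G}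
    (hχ : χ ∈ B) (ψ : IrrCharacter G) :
    ∑ ξ ∈ blockFinset B, scaledReg 2 B χ ξ * scaledReg 2 B ξ ψ =
      2 ^ blockDefect 2 B * scaledReg 2 B χ ψ := by
  have := hM.2.1
  have h : ∑ ξ ∈ blockFinset B, regInt 2 χ ξ * regInt 2 ξ ψ =
      (2 : ℤ) ^ (Nat.card G).factorization 2 * regInt 2 χ ψ := by
    rw [show (2 : ℤ) = ((2 : ℕ) : ℤ) from rfl, ← H42.sum_regInt_mul 2 χ ψ]
    exact Finset.sum_subset (Finset.subset_univ _) fun ξ _ hξ => by
      rw [H42.regInt_eq_zero_of_notMem hM hB hχ fun h => hξ (mem_blockFinset.2 h), zero_mul]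
  rw [← minVal_add_defect hM hB, Finset.sum_congr rfl fun ξ hξ => by
    rw [← H32.scaledReg_mul hχ ξ, ← H32.scaledReg_mul (mem_blockFinset.1 hξ) ψ],
    ← H32.scaledReg_mul hχ ψ] at h
  refine mul_left_cancel₀ (pow_ne_zero (minVal 2 B + minVal 2 B) (two_ne_zero : (2 : ℤ) ≠ 0)) ?_
  rw [Finset.mul_sum]
  push_cast at h
  calc _ = ∑ ξ ∈ blockFinset B, scaledReg 2 B χ ξ * 2 ^ minVal 2 B *
        (scaledReg 2 B ξ ψ * 2 ^ minVal 2 B) := Finset.sum_congr rfl fun ξ _ => by ring
    _ = _ := by rw [h]; ring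

/-- The scaled diagonal gives the rank. -/
theorem sum_scaledReg_self (hM : IsPModular 2 M) (hB : IsPBlock M B) :
    ∑ χ ∈ blockFinset B, scaledReg 2 B χ χ = 2 ^ blockDefect 2 B * (blockRank 2 B : ℤ) := by
  apply Int.cast_injective (α := ℂ)
  push_cast
  rw [H42.blockRank_eq_sum hM hB, Finset.mul_sum]
  refine Finset.sum_congr rfl fun χ hχ => ?_
  rw [← H32.cast_scaledReg (F := ℂ) (mem_blockFinset.1 hχ) χ, Nat.cast_pow,
    ← minVal_add_defect hM hB, pow_add]
  push_cast
  field_simp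

variable {m : ℕ} {S : G → Prop} {ch : Ix m → IrrCharacter G} {ε : Ix m → ℤ}

/-- The signed matrix of scaled entries. -/
noncomputable def mat (B : Set (IrrCharacter G)) (ch : Ix m → IrrCharacter G) (ε : Ix m → ℤ) :
    Ix m → Ix m → ℤ :=
  fun i j => ε i * ε j * scaledReg 2 B (ch i) (ch j)

theorem mem_of_frame (hF : IsFrame B S ch ε) (i : Ix m) : ch i ∈ B := hF.range ▸ Set.mem_range_self i

theorem sum_frame (hF : IsFrame B S ch ε) {α : Type*} [AddCommMonoid α] (F : IrrCharacter G → α) :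
    ∑ χ ∈ blockFinset B, F χ = ∑ i, F (ch i) := by
  rw [← Finset.sum_image (s := (Finset.univ : Finset (Ix m))) (g := ch)
    (fun x _ y _ h => hF.inj h)]
  refine Finset.sum_congr ?_ fun _ _ => rfl
  ext χ
  rw [mem_blockFinset, ← hF.range]
  simp

theorem sign_sq (hF : IsFrame B S ch ε) (i : Ix m) : ε i * ε i = 1 := by
  rcases hF.sign i with e | e <;> rw [e] <;> rfl

/-- A relation on the regular elements kills the matrix. -/
theorem app_mat_eq_zero (hM : IsPModular 2 M) (hB : IsPBlock M B) (hF : IsFrame B S ch ε)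
    {v : Ix m → ℤ} (hv : ∀ g : G, ¬ 2 ∣ orderOf g → comb ch ε v g = 0) (i : Ix m) :
    app (mat B ch ε) v i = 0 := by
  have key : ∑ j, v j * ε j * scaledReg 2 B (ch j) (ch i) = 0 := by
    apply Int.cast_injective (α := ℂ)
    push_cast
    rw [Finset.sum_congr rfl fun j _ => by
      rw [H20.BrauerFeit.cast_scaledReg_eq hM hB (mem_of_frame hF j)],
      Finset.sum_congr rfl fun j _ => show ((v j : ℂ) * (ε j : ℂ)) * ((2 : ℕ) ^ blockDefect 2 B *
        classInner (regRes 2 (ch j : G → ℂ)) (regRes 2 (ch i : G → ℂ))) =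
        (2 : ℕ) ^ blockDefect 2 B * classInner (((v j * ε j : ℤ) : ℂ) • regRes 2 (ch j : G → ℂ))
          (regRes 2 (ch i : G → ℂ)) by rw [H26.classInner_smul_left]; push_cast; ring,
      ← Finset.mul_sum, ← H26.classInner_sum_left]
    refine mul_eq_zero_of_right _ ?_
    rw [classInner, Finset.sum_eq_zero, mul_zero]
    intro g _
    by_cases hg : 2 ∣ orderOf g
    · rw [H42.regRes_of_singular hg]
      simp
    · have : (∑ j, ((v j * ε j : ℤ) : ℂ) • regRes 2 (ch j : G → ℂ)) g = 0 := by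
        rw [← hv g hg, Finset.sum_apply, comb]
        exact Finset.sum_congr rfl fun j _ => by
          rw [Pi.smul_apply, H42.regRes_of_regular hg, smul_eq_mul]
      rw [this, zero_mul]
  rw [← mul_zero (ε i), ← key, app, Finset.mul_sum]
  refine Finset.sum_congr rfl fun j _ => ?_
  rw [mat, H32.scaledReg_comm (ch i)]
  ring

theorem data (hM : IsPModular 2 M) (hB : IsPBlock M B) (hF : IsFrame B S ch ε)
    (hdef : 2 ^ blockDefect 2 B = 4 * (m + 1)) : Data (mat B ch ε) := by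
  have := hM.2.1
  have hd : (2 : ℤ) ^ blockDefect 2 B = 4 * ((m : ℤ) + 1) := by exact_mod_cast hdef
  refine ⟨fun i j => ?_, fun i j => ?_, fun i => app_mat_eq_zero hM hB hF hF.regE i,
    fun x i => app_mat_eq_zero hM hB hF (hF.regW x) i, fun i => ?_, fun a => ?_⟩
  · rw [mat, mat, H32.scaledReg_comm (ch i)]; ring
  · rw [← hd, mat, mul_left_comm, ← sum_scaledReg_mul hM hB (mem_of_frame hF i) (ch j),
      sum_frame hF (fun ξ => scaledReg 2 B (ch i) ξ * scaledReg 2 B ξ (ch j)), Finset.mul_sum]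
    refine Finset.sum_congr rfl fun k _ => ?_
    simp only [mat]
    linear_combination (ε i * ε j * scaledReg 2 B (ch i) (ch k) *
      scaledReg 2 B (ch k) (ch j)) * sign_sq hF k
  · rw [mat, sign_sq hF, one_mul]
    intro h0
    have h := (H42.regInt_self_bounds hM hB (mem_of_frame hF i)).1
    rw [← H32.scaledReg_mul (mem_of_frame hF i), h0, zero_mul] at h
    exact lt_irrefl _ h
  · rw [mat, sign_sq hF, one_mul, ← Int.not_even_iff_odd, even_iff_two_dvd]
    exact H32.not_dvd_scaledReg_self hM hB (mem_of_frame hF _) ((hF.height _).2 ⟨a, rfl⟩)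

theorem sum_mat (hM : IsPModular 2 M) (hB : IsPBlock M B) (hF : IsFrame B S ch ε)
    (hdef : 2 ^ blockDefect 2 B = 4 * (m + 1)) :
    ∑ i, mat B ch ε i i = 4 * ((m : ℤ) + 1) * (blockRank 2 B : ℤ) := by
  have hd : (2 : ℤ) ^ blockDefect 2 B = 4 * ((m : ℤ) + 1) := by exact_mod_cast hdef
  rw [← hd, ← sum_scaledReg_self hM hB, sum_frame hF (fun χ => scaledReg 2 B χ χ)]
  exact Finset.sum_congr rfl fun i _ => by rw [mat, sign_sq hF, one_mul]

omit [Fact (Nat.Prime 2)] in
/-- Renaming the first four keeps a frame. -/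
theorem isFrame_comp (hF : IsFrame B S ch ε) (π : Equiv.Perm (Fin 4))
    (hπ : ∀ x : Fin m, ∀ i, vecW x (ext m π i) = vecW x i) :
    IsFrame B S (fun i => ch (ext m π i)) (fun i => ε (ext m π i)) := by
  have hE : ∀ i, vecE m (ext m π i) = vecE m i := by rintro (a | x) <;> rfl
  have key : ∀ v : Ix m → ℤ, (∀ i, v (ext m π i) = v i) →
      comb (fun i => ch (ext m π i)) (fun i => ε (ext m π i)) v = comb ch ε v := fun v hv => by
    funext g
    rw [comb, comb, ← Equiv.sum_comp (ext m π) (fun i => ((v i * ε i : ℤ) : ℂ) * (ch i : G → ℂ) g)]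
    exact Finset.sum_congr rfl fun i _ => by rw [hv]
  refine ⟨hF.inj.comp (ext m π).injective, ?_, fun i => hF.sign _, fun i => ?_,
    fun g hg => ?_, fun x g hg => ?_, fun g hg => ?_, fun x g hg => ?_⟩
  · rw [← hF.range]
    exact (ext m π).surjective.range_comp ch
  · rw [hF.height]
    rcases i with a | x <;> simp [ext]
  · rw [key _ hE]; exact hF.regE g hg
  · rw [key _ (hπ x)]; exact hF.regW x g hg
  · rw [key _ hE]; exact hF.suppE g hg
  · rw [key _ (hπ x)]; exact hF.suppW x g hg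

theorem sum_shape {π : Equiv.Perm (Fin 4)} {N : Ix m → Ix m → ℤ} {e : ℕ} {q : Fin e → Fin 4 → ℤ}
    {w : ℤ} (hp : IsPatterns (m + 1) q w) (hsh : Shape N π q w) :
    ∑ i, N i i = 4 * ((m : ℤ) + 1) * ((e : ℤ) + 1) := by
  have hw : ∀ t, w * ∑ i, vecQ m (q t) i * vecQ m (q t) i = 4 * ((m : ℤ) + 1) := by
    intro t
    rw [show ∑ i, vecQ m (q t) i * vecQ m (q t) i = q t 0 * q t 0 + q t 1 * q t 1 + q t 2 * q t 2 +
      q t 3 * q t 3 from dot_q (q t) (vecQ m (q t))]
    rcases hp with ⟨rfl, h⟩ | ⟨rfl, rfl, h⟩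
    · rcases h with rfl | ⟨rfl, h⟩ | ⟨rfl, h⟩
      · exact t.elim0
      · rw [h]; simp [Matrix.cons_val_two, Matrix.cons_val_three, Matrix.vecHead, Matrix.vecTail]; ring
      · rw [h]; push_cast; split_ifs <;> simp <;> ring
    · rcases h with h | h <;> rw [h] <;>
        simp [Matrix.cons_val_two, Matrix.cons_val_three, Matrix.vecHead, Matrix.vecTail] <;> ring
  rw [← Equiv.sum_comp (ext m π) (fun i => N i i), Finset.sum_congr rfl fun i _ => hsh i i,
    Finset.sum_add_distrib, show ∑ i, vecT m i * vecT m i = 4 * ((m : ℤ) + 1) from dot_TT,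
    ← Finset.mul_sum, Finset.sum_comm, Finset.mul_sum, Finset.sum_congr rfl fun t _ => hw t,
    Finset.sum_const, Finset.card_univ, Fintype.card_fin, nsmul_eq_mul]
  ring

/-- The rows of a frame, after renaming. -/
theorem exists_rows (hM : IsPModular 2 M) (hB : IsPBlock M B) (hF : IsFrame B S ch ε)
    (hdef : 2 ^ blockDefect 2 B = 4 * (m + 1))
    (hm : m = 0 → blockRank 2 B = 1 ∨ blockRank 2 B = 3) :
    ∃ (ch' : Ix m → IrrCharacter G) (ε' : Ix m → ℤ) (e : ℕ) (q : Fin e → Fin 4 → ℤ) (w : ℤ),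
      IsFrame B S ch' ε' ∧ HasRows B ch' ε' q w := by
  have hN := data hM hB hF hdef
  have htr := sum_mat hM hB hF hdef
  obtain ⟨J, -, hJ⟩ : ∃ J, J ≤ blockDefect 2 B ∧ m + 1 = 2 ^ J :=
    (Nat.dvd_prime_pow Nat.prime_two).1 ⟨4, by rw [hdef]; ring⟩
  obtain ⟨π, hπ, e, q, w, hp, hsh⟩ := exists_shape hN hJ fun h0 h8 => by
    subst h0
    rw [htr] at h8
    rcases hm rfl with e | e <;> rw [e] at h8 <;> norm_num at h8
  refine ⟨_, _, e, q, w, isFrame_comp hF π hπ, ?_, hp, fun i j => hsh i j⟩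
  rw [sum_shape hp hsh] at htr
  have h := mul_left_cancel₀ (show 4 * ((m : ℤ) + 1) ≠ 0 by positivity) htr
  omega

end Cfsg.Agent.H22.TameRows
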