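import Cfsg.Agent.H40.Tame.FrameDef
import Mathlib.Algebra.GCDMonoid.Finset
import Mathlib.RingTheory.Coprime.Lemmas
import Mathlib.Tactic.Linarith
import Mathlib.Tactic.LinearCombination
import Mathlib.Tactic.FinCases
import Mathlib.Tactic.Ring

/-!
# The matrix on the regular elements below a frame

An integer matrix `N` on the index set of a frame, killed by the relations and with
`N * N = 4 (m + 1) N`, is given by the columns `T` and `Q`.
-/

set_option autoImplicit false
set_option linter.unusedSectionVars false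

namespace Cfsg.Agent.H22.TameRows

open Cfsg.Agent.H40.Tame

variable {m : ℕ}

/-- The inner product of two integer vectors. -/
def dot (u v : Ix m → ℤ) : ℤ := ∑ i, u i * v i

/-- A matrix applied to a vector. -/
def app (N : Ix m → Ix m → ℤ) (v : Ix m → ℤ) : Ix m → ℤ := fun i => ∑ j, N i j * v j

/-- The first pattern. -/
def q1 (m : ℕ) : Ix m → ℤ := vecQ m ![1, -1, 1, -1]

/-- The second pattern. -/
def q2 (m : ℕ) : Ix m → ℤ := vecQ m ![1, -1, -1, 1]

/-- Orthogonal to the relations. -/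
def Perp (u : Ix m → ℤ) : Prop := dot u (vecE m) = 0 ∧ ∀ x, dot u (vecW x) = 0

theorem dot_comm (u v : Ix m → ℤ) : dot u v = dot v u :=
  Finset.sum_congr rfl fun _ _ => mul_comm _ _

theorem dot_split (u v : Ix m → ℤ) :
    dot u v = u (.inl 0) * v (.inl 0) + u (.inl 1) * v (.inl 1) + u (.inl 2) * v (.inl 2) +
      u (.inl 3) * v (.inl 3) + ∑ x, u (.inr x) * v (.inr x) := by
  rw [dot, Fintype.sum_sum_type, Fin.sum_univ_four]

theorem Perp.sum_zero {u : Ix m → ℤ} (h : Perp u) :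
    u (.inl 0) + u (.inl 1) + u (.inl 2) + u (.inl 3) = 0 := by
  have := h.1
  rw [dot_split] at this
  simpa [vecE] using this

theorem Perp.inr_eq {u : Ix m → ℤ} (h : Perp u) (x : Fin m) :
    u (.inr x) = -(u (.inl 0) + u (.inl 1)) := by
  have := h.2 x
  rw [dot_split] at this
  simp [vecW] at this
  linarith

theorem Perp.dot_T {u : Ix m → ℤ} (h : Perp u) :
    dot u (vecT m) = 2 * ((m : ℤ) + 1) * (u (.inl 0) + u (.inl 1)) := by
  rw [dot_split, Finset.sum_congr rfl fun x _ => by rw [h.inr_eq x]]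
  simp [vecT]
  linarith [h.sum_zero]

theorem dot_q (q : Fin 4 → ℤ) (u : Ix m → ℤ) : dot u (vecQ m q) =
    u (.inl 0) * q 0 + u (.inl 1) * q 1 + u (.inl 2) * q 2 + u (.inl 3) * q 3 := by
  rw [dot_split]
  simp [vecQ]

theorem expand {u : Ix m → ℤ} (h : Perp u) (i : Ix m) :
    4 * ((m : ℤ) + 1) * u i = dot u (vecT m) * vecT m i +
      ((m : ℤ) + 1) * dot u (q1 m) * q1 m i + ((m : ℤ) + 1) * dot u (q2 m) * q2 m i := by
  rw [h.dot_T, q1, q2, dot_q, dot_q]
  have hs := h.sum_zero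
  rcases i with a | x
  · fin_cases a <;> simp [vecT, vecQ]
    · linear_combination 0 * hs
    · linear_combination 0 * hs
    · linear_combination (2 * ((m : ℤ) + 1)) * hs
    · linear_combination (2 * ((m : ℤ) + 1)) * hs
  · simp [vecT, vecQ]
    rw [h.inr_eq x]
    ring

theorem dot_TT : dot (vecT m) (vecT m) = 4 * ((m : ℤ) + 1) := by
  rw [dot_split]
  simp [vecT]
  ring

theorem dot_self_nonneg (v : Ix m → ℤ) : 0 ≤ dot v v :=
  Finset.sum_nonneg fun i _ => mul_self_nonneg (v i)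

theorem dot_self_eq_zero {v : Ix m → ℤ} (h : dot v v = 0) : v = 0 :=
  funext fun i => mul_self_eq_zero.1
    ((Finset.sum_eq_zero_iff_of_nonneg fun j _ => mul_self_nonneg (v j)).1 h i (Finset.mem_univ i))

/-- A vector is a multiple of one with coprime entries. -/
theorem exists_prim {v : Ix m → ℤ} (hv : v ≠ 0) : ∃ g : ℤ, g ≠ 0 ∧ ∃ v' : Ix m → ℤ,
    (∀ i, v i = g * v' i) ∧ ∀ S K : ℤ, (∀ i j, S ∣ K * v' i * v' j) → S ∣ K := by
  classical
  obtain ⟨v', hv', hg⟩ := Finset.extract_gcd v (s := (Finset.univ : Finset (Ix m)))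
    ⟨.inl 0, Finset.mem_univ _⟩
  have hgcd : ∀ S K : ℤ, (∀ i, S ∣ K * v' i) → S ∣ K := by
    intro S K h
    have h1 : S ∣ (Finset.univ : Finset (Ix m)).gcd fun i => K * v' i :=
      Finset.dvd_gcd fun i _ => h i
    rwa [Finset.gcd_mul_left, hg, mul_one, dvd_normalize_iff] at h1
  refine ⟨_, fun h0 => hv (funext fun i => ?_), v', fun i => hv' i (Finset.mem_univ i),
    fun S K h => hgcd S K fun i => hgcd S (K * v' i) fun j => h i j⟩
  rw [hv' i (Finset.mem_univ i), h0, zero_mul]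
  rfl

theorem eq_one_of_odd {S : ℤ} {k : ℕ} (h0 : 0 ≤ S) (hodd : Odd S) (hd : S ∣ 2 ^ k) : S = 1 := by
  have hc : IsCoprime S ((2 : ℤ) ^ k) := by
    refine IsCoprime.pow_right ?_
    obtain ⟨t, rfl⟩ := hodd
    exact ⟨1, -t, by ring⟩
  rcases Int.isUnit_iff.1 (hc.isUnit_of_dvd' dvd_rfl hd) with e | e <;> omega

theorem one_le_sq_of_odd {x : ℤ} (hx : Odd x) : 1 ≤ x * x := by
  have : x ≠ 0 := fun e => by simp [e] at hx
  have := mul_self_pos.2 this
  omega

theorem eq_pm_one_of_sq {x : ℤ} (h : x * x = 1) : x = 1 ∨ x = -1 :=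
  mul_self_eq_one_iff.1 h

/-- The properties of the matrix. -/
structure Data (N : Ix m → Ix m → ℤ) : Prop where
  symm : ∀ i j, N i j = N j i
  mul : ∀ i j, ∑ k, N i k * N k j = 4 * ((m : ℤ) + 1) * N i j
  kerE : ∀ i, app N (vecE m) i = 0
  kerW : ∀ x i, app N (vecW x) i = 0
  diag : ∀ i, N i i ≠ 0
  odd : ∀ a, Odd (N (.inl a) (.inl a))

variable {N : Ix m → Ix m → ℤ}

theorem dot_app (hN : Data N) (u v : Ix m → ℤ) : dot (app N u) v = dot u (app N v) := by
  simp only [dot, app, Finset.sum_mul, Finset.mul_sum]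
  rw [Finset.sum_comm]
  exact Finset.sum_congr rfl fun i _ => Finset.sum_congr rfl fun j _ => by
    rw [hN.symm j i]; ring

theorem perp_app (hN : Data N) (v : Ix m → ℤ) : Perp (app N v) := by
  refine ⟨?_, fun x => ?_⟩
  · rw [dot_app hN, show app N (vecE m) = 0 from funext hN.kerE]
    simp [dot]
  · rw [dot_app hN, show app N (vecW x) = 0 from funext (hN.kerW x)]
    simp [dot]

theorem perp_col (hN : Data N) (j : Ix m) : Perp fun i => N i j := by
  have e : ∀ v, dot (fun i => N i j) v = app N v j := fun v =>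
    Finset.sum_congr rfl fun i _ => by show N i j * v i = _; rw [hN.symm i j]
  exact ⟨by rw [e, hN.kerE], fun x => by rw [e, hN.kerW]⟩

theorem dot_col (hN : Data N) (j : Ix m) (v : Ix m → ℤ) : dot (fun i => N i j) v = app N v j :=
  Finset.sum_congr rfl fun i _ => by show N i j * v i = _; rw [hN.symm i j]

theorem app_app (hN : Data N) (v : Ix m → ℤ) (i : Ix m) :
    app N (app N v) i = 4 * ((m : ℤ) + 1) * app N v i := by
  simp only [app, Finset.mul_sum]
  rw [Finset.sum_comm]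
  refine Finset.sum_congr rfl fun j _ => ?_
  rw [← mul_assoc, ← hN.mul, Finset.sum_mul]
  exact Finset.sum_congr rfl fun k _ => by ring

theorem col_eq (hN : Data N) (i j : Ix m) : 4 * ((m : ℤ) + 1) * N i j =
    app N (vecT m) j * vecT m i + ((m : ℤ) + 1) * app N (q1 m) j * q1 m i +
      ((m : ℤ) + 1) * app N (q2 m) j * q2 m i := by
  rw [← dot_col hN, ← dot_col hN, ← dot_col hN]
  exact expand (perp_col hN j) i

theorem perp_T : Perp (vecT m) := by
  refine ⟨?_, fun x => ?_⟩ <;> rw [dot_split] <;> simp [vecT, vecE, vecW]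

theorem perp_q {q : Fin 4 → ℤ} (hq : q 0 + q 1 = 0) (hq' : q 2 + q 3 = 0) : Perp (vecQ m q) := by
  refine ⟨?_, fun x => ?_⟩
  · rw [dot_split]; simp [vecQ, vecE]; linarith
  · rw [dot_split]; simp [vecQ, vecW]; linarith

theorem perp_q1 : Perp (q1 m) := perp_q rfl rfl

theorem perp_q2 : Perp (q2 m) := perp_q rfl rfl

theorem perp_sub (hN : Data N) {w : Ix m → ℤ} (hw : Perp w) :
    Perp fun i => 4 * ((m : ℤ) + 1) * w i - app N w i := by
  have e : ∀ v, dot (fun i => 4 * ((m : ℤ) + 1) * w i - app N w i) v =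
      4 * ((m : ℤ) + 1) * dot w v - dot (app N w) v := fun v => by
    simp only [dot, Finset.mul_sum, ← Finset.sum_sub_distrib]
    exact Finset.sum_congr rfl fun i _ => by ring
  exact ⟨by rw [e, hw.1, (perp_app hN w).1]; ring,
    fun x => by rw [e, hw.2, (perp_app hN w).2]; ring⟩

theorem app_sub (hN : Data N) (w : Ix m → ℤ) :
    app N (fun i => 4 * ((m : ℤ) + 1) * w i - app N w i) = 0 := by
  funext i
  show ∑ j, N i j * (4 * ((m : ℤ) + 1) * w j - app N w j) = 0
  rw [Finset.sum_congr rfl fun j _ => show N i j * (4 * ((m : ℤ) + 1) * w j - app N w j) =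
      4 * ((m : ℤ) + 1) * (N i j * w j) - N i j * app N w j by ring,
    Finset.sum_sub_distrib, ← Finset.mul_sum]
  exact sub_eq_zero.2 (app_app hN w i).symm

/-- Nothing orthogonal to the relations is killed. -/
theorem eq_of_free (hN : Data N) (hfree : ∀ v, Perp v → app N v = 0 → v = 0) (i j : Ix m) :
    N i j = vecT m i * vecT m j + ((m : ℤ) + 1) * (q1 m i * q1 m j + q2 m i * q2 m j) := by
  have hfix : ∀ w, Perp w → app N w j = 4 * ((m : ℤ) + 1) * w j := fun w hw => by
    have := congrFun (hfree _ (perp_sub hN hw) (app_sub hN w)) j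
    simp only [Pi.zero_apply] at this
    linarith
  have h := col_eq hN i j
  rw [hfix _ perp_T, hfix _ perp_q1, hfix _ perp_q2] at h
  refine mul_left_cancel₀ (show 4 * ((m : ℤ) + 1) ≠ 0 by positivity) ?_
  linear_combination h

/-- The vectors killed lie on one line. -/
theorem eq_of_line (hN : Data N) {v0 : Ix m → ℤ} (hv : Perp v0) (hv0 : app N v0 = 0)
    (hline : ∀ v, Perp v → app N v = 0 → ∀ i k, v i * v0 k = v k * v0 i) (i j : Ix m) :
    dot v0 v0 * N i j = dot v0 v0 * (vecT m i * vecT m j +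
      ((m : ℤ) + 1) * (q1 m i * q1 m j + q2 m i * q2 m j)) -
      4 * ((m : ℤ) + 1) * (v0 i * v0 j) := by
  have hz : ∀ w, Perp w → dot v0 v0 * app N w j =
      4 * ((m : ℤ) + 1) * (dot v0 v0 * w j - dot w v0 * v0 j) := by
    intro w hw
    have hl := hline _ (perp_sub hN hw) (app_sub hN w)
    have h1 : dot v0 v0 * (4 * ((m : ℤ) + 1) * w j - app N w j) =
        dot (fun i => 4 * ((m : ℤ) + 1) * w i - app N w i) v0 * v0 j := by
      simp only [dot, Finset.sum_mul]
      exact Finset.sum_congr rfl fun k _ => by linear_combination v0 k * hl j k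
    have h2 : dot (fun i => 4 * ((m : ℤ) + 1) * w i - app N w i) v0 =
        4 * ((m : ℤ) + 1) * dot w v0 := by
      have h3 : dot (app N w) v0 = 0 := by rw [dot_app hN, hv0]; simp [dot]
      rw [dot] at h3
      simp only [dot, sub_mul, Finset.sum_sub_distrib, h3, sub_zero, Finset.mul_sum, mul_assoc]
    rw [h2] at h1
    linear_combination -h1
  have h := col_eq hN i j
  have hT := hz _ perp_T
  have h1 := hz _ perp_q1
  have h2 := hz _ perp_q2
  have he := expand hv i
  rw [dot_comm v0 (vecT m), dot_comm v0 (q1 m), dot_comm v0 (q2 m)] at he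
  refine mul_left_cancel₀ (show 4 * ((m : ℤ) + 1) ≠ 0 by positivity) ?_
  linear_combination dot v0 v0 * h + vecT m i * hT + ((m : ℤ) + 1) * q1 m i * h1 +
    ((m : ℤ) + 1) * q2 m i * h2 + 4 * ((m : ℤ) + 1) * v0 j * he

/-- Two independent vectors are killed. -/
theorem eq_of_plane (hN : Data N) {v0 v1 : Ix m → ℤ} (hp0 : Perp v0) (hk0 : app N v0 = 0)
    (hp1 : Perp v1) (hk1 : app N v1 = 0) (hne : ∃ i k, v1 i * v0 k ≠ v1 k * v0 i) :
    ∃ d : Ix m → ℤ, Perp d ∧ d ≠ 0 ∧
      ∀ i j, dot d d * N i j = 4 * ((m : ℤ) + 1) * (d i * d j) := by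
  obtain ⟨i₀, k₀, hne⟩ := hne
  set x0 := dot v0 (vecT m) with hx0
  set y0 := dot v0 (q1 m) with hy0
  set z0 := dot v0 (q2 m) with hz0
  set x1 := dot v1 (vecT m) with hx1
  set y1 := dot v1 (q1 m) with hy1
  set z1 := dot v1 (q2 m) with hz1
  set al := y0 * z1 - z0 * y1 with hal
  set be := z0 * x1 - x0 * z1 with hbe
  set ga := x0 * y1 - y0 * x1 with hga
  set d : Ix m → ℤ := fun i => al * vecT m i + be * q1 m i + ga * q2 m i with hd
  have hdot : ∀ u, dot u d = al * dot u (vecT m) + be * dot u (q1 m) + ga * dot u (q2 m) := by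
    intro u
    simp only [dot, Finset.mul_sum, ← Finset.sum_add_distrib]
    exact Finset.sum_congr rfl fun i _ => by show u i * d i = _; simp only [hd]; ring
  have hpd : Perp d := by
    refine ⟨?_, fun x => ?_⟩ <;> rw [dot_comm, hdot]
    · rw [dot_comm, perp_T.1, dot_comm, perp_q1.1, dot_comm, perp_q2.1]; ring
    · rw [dot_comm, perp_T.2 x, dot_comm, perp_q1.2 x, dot_comm, perp_q2.2 x]; ring
  have hM : (4 * ((m : ℤ) + 1)) ≠ 0 := by positivity
  have hd0 : d ≠ 0 := by
    intro h0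
    have e1 : dot d (vecT m) = 0 := by rw [h0]; simp [dot]
    have e2 : dot d (q1 m) = 0 := by rw [h0]; simp [dot]
    have e3 : dot d (q2 m) = 0 := by rw [h0]; simp [dot]
    have a1 : dot (q1 m) (q1 m) = 4 := by rw [q1, dot_q]; simp [vecQ]
    have a2 : dot (q2 m) (q2 m) = 4 := by rw [q2, dot_q]; simp [vecQ]
    have a3 : dot (q1 m) (q2 m) = 0 := by rw [q1, q2, dot_q]; simp [vecQ]
    have a4 : dot (vecT m) (q1 m) = 0 := by rw [q1, dot_q]; simp [vecT]
    have a5 : dot (vecT m) (q2 m) = 0 := by rw [q2, dot_q]; simp [vecT]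
    rw [dot_comm, hdot, dot_TT, a4, a5] at e1
    rw [dot_comm, hdot, dot_comm (q1 m) (vecT m), a4, a1, a3] at e2
    rw [dot_comm, hdot, dot_comm (q2 m) (vecT m), a5, dot_comm (q2 m) (q1 m), a3, a2] at e3
    have hal0 : al = 0 := by
      have : 4 * ((m : ℤ) + 1) * al = 0 := by linarith
      exact (mul_eq_zero.1 this).resolve_left hM
    have hbe0 : be = 0 := by linarith
    have hga0 : ga = 0 := by linarith
    refine hne (mul_left_cancel₀ (mul_ne_zero hM hM) ?_)
    have a := expand hp1 i₀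
    have b := expand hp1 k₀
    have c := expand hp0 i₀
    have f := expand hp0 k₀
    rw [← hx1, ← hy1, ← hz1] at a b
    rw [← hx0, ← hy0, ← hz0] at c f
    rw [show 4 * ((m : ℤ) + 1) * (4 * ((m : ℤ) + 1)) * (v1 i₀ * v0 k₀) =
        (4 * ((m : ℤ) + 1) * v1 i₀) * (4 * ((m : ℤ) + 1) * v0 k₀) by ring,
      show 4 * ((m : ℤ) + 1) * (4 * ((m : ℤ) + 1)) * (v1 k₀ * v0 i₀) =
        (4 * ((m : ℤ) + 1) * v1 k₀) * (4 * ((m : ℤ) + 1) * v0 i₀) by ring, a, b, c, f]
    rw [hal] at hal0
    rw [hbe] at hbe0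
    rw [hga] at hga0
    linear_combination
      (-((m : ℤ) + 1) * (vecT m i₀ * q1 m k₀ - vecT m k₀ * q1 m i₀)) * hga0 +
      (((m : ℤ) + 1) * (vecT m i₀ * q2 m k₀ - vecT m k₀ * q2 m i₀)) * hbe0 +
      (-((m : ℤ) + 1) ^ 2 * (q1 m i₀ * q2 m k₀ - q1 m k₀ * q2 m i₀)) * hal0
  have hprop : ∀ u, Perp u → dot u v0 = 0 → dot u v1 = 0 → ∀ i k, u i * d k = u k * d i := by
    intro u hu h0 h1 i k
    set x := dot u (vecT m) with hx
    set y := dot u (q1 m) with hy
    set z := dot u (q2 m) with hz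
    have key : ∀ v, Perp v → dot u v = 0 →
        x * dot v (vecT m) + ((m : ℤ) + 1) * y * dot v (q1 m) +
          ((m : ℤ) + 1) * z * dot v (q2 m) = 0 := by
      intro v hv huv
      have h2 : ∑ i, u i * (4 * ((m : ℤ) + 1) * v i) = 0 := by
        rw [Finset.sum_congr rfl fun i _ => show u i * (4 * ((m : ℤ) + 1) * v i) =
          4 * ((m : ℤ) + 1) * (u i * v i) by ring, ← Finset.mul_sum]
        exact mul_eq_zero_of_right _ huv
      rw [← h2, Finset.sum_congr rfl fun i _ => show u i * (4 * ((m : ℤ) + 1) * v i) =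
          dot v (vecT m) * (u i * vecT m i) +
            ((m : ℤ) + 1) * dot v (q1 m) * (u i * q1 m i) +
            ((m : ℤ) + 1) * dot v (q2 m) * (u i * q2 m i) by rw [expand hv i]; ring,
        Finset.sum_add_distrib, Finset.sum_add_distrib, ← Finset.mul_sum, ← Finset.mul_sum,
        ← Finset.mul_sum]
      rw [show (∑ i, u i * vecT m i) = x from rfl, show (∑ i, u i * q1 m i) = y from rfl,
        show (∑ i, u i * q2 m i) = z from rfl]
      ring
    have ka := key v0 hp0 h0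
    have kb := key v1 hp1 h1
    rw [← hx0, ← hy0, ← hz0] at ka
    rw [← hx1, ← hy1, ← hz1] at kb
    refine mul_left_cancel₀ hM ?_
    rw [← mul_assoc, ← mul_assoc, expand hu i, expand hu k, ← hx, ← hy, ← hz]
    simp only [hd, hal, hbe, hga]
    linear_combination
      (z0 * (vecT m i * q1 m k - vecT m k * q1 m i) - y0 * (vecT m i * q2 m k - vecT m k * q2 m i) +
        x0 * (q1 m i * q2 m k - q1 m k * q2 m i)) * kb -
      (z1 * (vecT m i * q1 m k - vecT m k * q1 m i) - y1 * (vecT m i * q2 m k - vecT m k * q2 m i) +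
        x1 * (q1 m i * q2 m k - q1 m k * q2 m i)) * ka
  have hcol : ∀ j, ∀ i k, N i j * d k = N k j * d i := fun j =>
    hprop _ (perp_col hN j) (by rw [dot_col hN, hk0]; rfl) (by rw [dot_col hN, hk1]; rfl)
  obtain ⟨k, hk⟩ : ∃ k, d k ≠ 0 := Function.ne_iff.1 hd0
  have hukne : N k (.inl 0) ≠ 0 := fun h0 => hN.diag (.inl 0) (by
    have := hcol (.inl 0) (.inl 0) k
    rw [h0, zero_mul] at this
    exact (mul_eq_zero.1 this).resolve_right hk)
  have hfix : ∀ j, app N d j = 4 * ((m : ℤ) + 1) * d j := by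
    intro j
    refine mul_left_cancel₀ hukne ?_
    have h2 : N k (.inl 0) * app N d j = d k * ∑ l, N j l * N l (.inl 0) := by
      simp only [app, Finset.mul_sum]
      exact Finset.sum_congr rfl fun l _ => by linear_combination -(N j l) * hcol (.inl 0) l k
    rw [h2, hN.mul]
    linear_combination 4 * ((m : ℤ) + 1) * hcol (.inl 0) j k
  refine ⟨d, hpd, hd0, fun i j => ?_⟩
  rw [show 4 * ((m : ℤ) + 1) * (d i * d j) = d i * app N d j by rw [hfix]; ring, ← dot_col hN j d,
    dot, dot, Finset.sum_mul, Finset.mul_sum]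
  exact Finset.sum_congr rfl fun l _ => by linear_combination d l * hcol j i l

/-- The permutation of the index set of a permutation of the first four. -/
def ext (m : ℕ) (π : Equiv.Perm (Fin 4)) : Equiv.Perm (Ix m) :=
  Equiv.sumCongr π (Equiv.refl (Fin m))

/-- The matrix in the columns `Q` and `T`. -/
def Shape (N : Ix m → Ix m → ℤ) (π : Equiv.Perm (Fin 4)) {e : ℕ} (q : Fin e → Fin 4 → ℤ)
    (w : ℤ) : Prop :=
  ∀ i j, N (ext m π i) (ext m π j) =
    w * ∑ t, vecQ m (q t) i * vecQ m (q t) j + vecT m i * vecT m j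

theorem vecQ_comp (π : Equiv.Perm (Fin 4)) (q : Fin 4 → ℤ) (i : Ix m) :
    vecQ m q (ext m π i) = vecQ m (fun a => q (π a)) i := by
  rcases i with a | x <;> rfl

theorem vecT_swap (i : Ix m) : vecT m (ext m (Equiv.swap 2 3) i) = vecT m i := by
  rcases i with a | x
  · fin_cases a <;> rfl
  · rfl

theorem first_pair_cases {a b c f k S : ℤ} {J : ℕ} (hk : 1 ≤ k) (h2 : (2 : ℤ) ∣ k + 1)
    (hsum : a + b + c + f = 0)
    (hS : S = a * a + b * b + c * c + f * f + k * ((a + b) * (a + b)))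
    (h4 : 4 * (k + 1) = 2 ^ J) (hd : S ∣ 2 ^ J) :
    a + b = 0 ∨ (S = 4 * (k + 1) ∧ (a + b) * (a + b) = 4) := by
  have hcf : (c + f) * (c + f) = (a + b) * (a + b) := by
    rw [show c + f = -(a + b) by linarith]; ring
  have h2S : 2 * S =
      (a - b) * (a - b) + (c - f) * (c - f) + 2 * ((k + 1) * ((a + b) * (a + b))) := by
    rw [hS]; linear_combination hcf
  have n1 := mul_self_nonneg (a - b)
  have n2 := mul_self_nonneg (c - f)
  by_cases hab : a + b = 0
  · exact Or.inl hab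
  right
  rcases Int.even_or_odd (a + b) with ⟨t, ht⟩ | ⟨t, ht⟩
  · have h3 : (0 : ℤ) < t * t := mul_self_pos.2 fun e => hab (by rw [ht, e]; rfl)
    have h4' : (a + b) * (a + b) = 4 * (t * t) := by rw [ht]; ring
    have hle := Int.le_of_dvd (by positivity) hd
    rw [← h4] at hle
    have h5 : (k + 1) * (t * t) ≤ k + 1 := by
      rw [h4'] at h2S
      linarith
    have h6 : t * t = 1 := by
      by_contra hne
      have h7 : (2 : ℤ) ≤ t * t := by omega
      have := mul_le_mul_of_nonneg_left h7 (by omega : (0 : ℤ) ≤ k + 1)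
      omega
    rw [h4', h6] at h2S ⊢
    exact ⟨by linarith, rfl⟩
  · exfalso
    have h3 : 1 ≤ (a + b) * (a + b) := one_le_sq_of_odd ⟨t, ht⟩
    have h4' := mul_le_mul_of_nonneg_left h3 (by omega : (0 : ℤ) ≤ k + 1)
    have hodd : Odd S := by
      obtain ⟨r, hr⟩ := h2
      refine ⟨a * a - a * (2 * t + 1) + c * c + c * (2 * t + 1) +
        r * (2 * t + 1) * (2 * t + 1) + 2 * t * t + 2 * t, ?_⟩
      rw [hS, show f = -(a + b) - c by linarith, show b = 2 * t + 1 - a by linarith]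
      linear_combination (2 * t + 1) * (2 * t + 1) * hr
    have h1 := eq_one_of_odd (by linarith) hodd hd
    linarith

theorem q1_eq (i : Ix m) : q1 m i = vecQ m ![1, -1, 0, 0] i + vecQ m ![0, 0, 1, -1] i := by
  rcases i with t | x
  · fin_cases t <;> rfl
  · rfl

theorem q2_eq (i : Ix m) : q2 m i = vecQ m ![1, -1, 0, 0] i - vecQ m ![0, 0, 1, -1] i := by
  rcases i with t | x
  · fin_cases t <;> rfl
  · rfl

/-- The shapes when the killed vector lives on the first four. -/
theorem shape_pattern {v : Ix m → ℤ} {a c : ℤ}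
    (hveq : ∀ i, v i = a * vecQ m ![1, -1, 0, 0] i + c * vecQ m ![0, 0, 1, -1] i)
    (hval' : dot v v = 2 * (a * a + c * c)) (hSne : dot v v ≠ 0)
    (heq : ∀ i j, dot v v * N i j = dot v v * (vecT m i * vecT m j +
      ((m : ℤ) + 1) * (q1 m i * q1 m j + q2 m i * q2 m j)) - 4 * ((m : ℤ) + 1) * (v i * v j))
    (hcases : (a * a = 1 ∧ c = 0) ∨ (a = 0 ∧ c * c = 1) ∨ (a * a = 1 ∧ c * c = 1)) :
    ∃ π : Equiv.Perm (Fin 4), (∀ x : Fin m, ∀ i, vecW x (ext m π i) = vecW x i) ∧
      ∃ (e : ℕ) (q : Fin e → Fin 4 → ℤ) (w : ℤ), IsPatterns (m + 1) q w ∧ Shape N π q w := by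
  have hq1 := q1_eq (m := m)
  have hq2 := q2_eq (m := m)
  rcases hcases with ⟨hA, hC⟩ | ⟨hA, hC⟩ | ⟨hA, hC⟩
  · refine ⟨Equiv.refl _, fun x i => by rcases i with t | y <;> rfl, 1,
      fun _ => ![0, 0, 1, -1], 2 * ((m + 1 : ℕ) : ℤ),
      Or.inr ⟨rfl, rfl, Or.inr fun _ => rfl⟩, fun i j => ?_⟩
    rw [show ext m (Equiv.refl _) i = i by rcases i with t | y <;> rfl,
      show ext m (Equiv.refl _) j = j by rcases j with t | y <;> rfl, Fin.sum_univ_one]
    refine mul_left_cancel₀ hSne ?_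
    rw [heq i j, hveq i, hveq j, hval', hC, hq1, hq1, hq2, hq2]
    push_cast
    linear_combination (0 : ℤ) * hA
  · refine ⟨Equiv.refl _, fun x i => by rcases i with t | y <;> rfl, 1,
      fun _ => ![1, -1, 0, 0], 2 * ((m + 1 : ℕ) : ℤ),
      Or.inr ⟨rfl, rfl, Or.inl fun _ => rfl⟩, fun i j => ?_⟩
    rw [show ext m (Equiv.refl _) i = i by rcases i with t | y <;> rfl,
      show ext m (Equiv.refl _) j = j by rcases j with t | y <;> rfl, Fin.sum_univ_one]
    refine mul_left_cancel₀ hSne ?_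
    rw [heq i j, hveq i, hveq j, hval', hA, hq1, hq1, hq2, hq2]
    push_cast
    linear_combination (0 : ℤ) * hC
  · rcases eq_pm_one_of_sq hA with ea | ea <;> rcases eq_pm_one_of_sq hC with ec | ec
    case inl.inl | inr.inr =>
      refine ⟨Equiv.swap 2 3, fun x i => ?_, 1, fun _ => ![1, -1, 1, -1], ((m + 1 : ℕ) : ℤ),
        Or.inl ⟨rfl, Or.inr (Or.inl ⟨rfl, fun _ => rfl⟩)⟩, fun i j => ?_⟩
      · rcases i with t | y
        · fin_cases t <;> rfl
        · rfl
      · have e1 : ∀ i, q1 m (ext m (Equiv.swap 2 3) i) = q2 m i := fun i => by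
          rcases i with t | y
          · fin_cases t <;> rfl
          · rfl
        have e2 : ∀ i, q2 m (ext m (Equiv.swap 2 3) i) = q1 m i := fun i => by
          rcases i with t | y
          · fin_cases t <;> rfl
          · rfl
        rw [Fin.sum_univ_one]
        refine mul_left_cancel₀ hSne ?_
        rw [heq, vecT_swap, vecT_swap, hveq, hveq, hval', ea, ec, vecQ_comp, vecQ_comp,
          vecQ_comp, vecQ_comp, e1, e1, e2, e2, hq2 i, hq2 j]
        have r1 : ∀ i, vecQ m (fun a => (![1, -1, 0, 0] : Fin 4 → ℤ) (Equiv.swap 2 3 a)) i =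
            vecQ m ![1, -1, 0, 0] i := fun i => by
          rcases i with t | y
          · fin_cases t <;> rfl
          · rfl
        have r2 : ∀ i, vecQ m (fun a => (![0, 0, 1, -1] : Fin 4 → ℤ) (Equiv.swap 2 3 a)) i =
            -vecQ m ![0, 0, 1, -1] i := fun i => by
          rcases i with t | y
          · fin_cases t <;> rfl
          · rfl
        have r3 : vecQ m ![1, -1, 1, -1] i = q1 m i := rfl
        have r4 : vecQ m ![1, -1, 1, -1] j = q1 m j := rfl
        rw [r1, r1, r2, r2, r3, r4]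
        push_cast
        ring
    case inl.inr | inr.inl =>
      refine ⟨Equiv.refl _, fun x i => by rcases i with t | y <;> rfl, 1,
        fun _ => ![1, -1, 1, -1], ((m + 1 : ℕ) : ℤ),
        Or.inl ⟨rfl, Or.inr (Or.inl ⟨rfl, fun _ => rfl⟩)⟩, fun i j => ?_⟩
      rw [show ext m (Equiv.refl _) i = i by rcases i with t | y <;> rfl,
        show ext m (Equiv.refl _) j = j by rcases j with t | y <;> rfl, Fin.sum_univ_one]
      refine mul_left_cancel₀ hSne ?_
      rw [heq i j, hveq i, hveq j, hval', ea, ec, hq2 i, hq2 j,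
        show vecQ m ![1, -1, 1, -1] i = q1 m i from rfl,
        show vecQ m ![1, -1, 1, -1] j = q1 m j from rfl]
      push_cast
      ring

/-- The shape when the vectors killed lie on one line. -/
theorem shape_of_line (hN : Data N) {J : ℕ} (hJ : m + 1 = 2 ^ J)
    (hm : m = 0 → ∑ i, N i i ≠ 8) {v : Ix m → ℤ} (hv : Perp v) (hkv : app N v = 0) (hv0 : v ≠ 0)
    (hprim : ∀ S K : ℤ, (∀ i j, S ∣ K * v i * v j) → S ∣ K)
    (hline : ∀ w, Perp w → app N w = 0 → ∀ i k, w i * v k = w k * v i) :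
    ∃ π : Equiv.Perm (Fin 4), (∀ x : Fin m, ∀ i, vecW x (ext m π i) = vecW x i) ∧
      ∃ (e : ℕ) (q : Fin e → Fin 4 → ℤ) (w : ℤ), IsPatterns (m + 1) q w ∧ Shape N π q w := by
  have hMJ : (m : ℤ) + 1 = 2 ^ J := by exact_mod_cast hJ
  have h4M : 4 * ((m : ℤ) + 1) = 2 ^ (J + 2) := by rw [hMJ, pow_add]; ring
  have heq := eq_of_line hN hv hkv hline
  have hSne : dot v v ≠ 0 := fun h0 => hv0 (dot_self_eq_zero h0)
  have hS : dot v v ∣ 2 ^ (J + 2) := by
    rw [← h4M]
    refine hprim _ _ fun i j => ⟨vecT m i * vecT m j +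
      ((m : ℤ) + 1) * (q1 m i * q1 m j + q2 m i * q2 m j) - N i j, ?_⟩
    linear_combination heq i j
  have hS0 := dot_self_nonneg v
  by_cases hm0 : m = 0
  · exfalso
    refine hm hm0 ?_
    subst hm0
    have htr := Finset.sum_congr rfl fun i (_ : i ∈ Finset.univ) => heq i i
    rw [← Finset.mul_sum, Finset.sum_sub_distrib, ← Finset.mul_sum, ← Finset.mul_sum,
      show ∑ i, v i * v i = dot v v from rfl] at htr
    have hF : ∑ i, (vecT 0 i * vecT 0 i + (((0 : ℕ) : ℤ) + 1) * (q1 0 i * q1 0 i + q2 0 i * q2 0 i))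
        = 12 := by
      rw [Fintype.sum_sum_type, Fin.sum_univ_four]
      simp [vecT, q1, q2, vecQ]
    rw [hF] at htr
    refine mul_left_cancel₀ hSne ?_
    rw [htr]
    push_cast
    ring
  have hM2 : (2 : ℤ) ∣ (m : ℤ) + 1 := by
    obtain ⟨j, rfl⟩ : ∃ j, J = j + 1 := ⟨J - 1, by
      rcases J with - | j
      · simp at hJ; omega
      · omega⟩
    exact ⟨2 ^ j, by rw [hMJ, pow_succ']⟩
  have hsx := hv.inr_eq
  have hsum := hv.sum_zero
  set a := v (.inl 0) with ha
  set b := v (.inl 1) with hb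
  set c := v (.inl 2) with hc
  set f := v (.inl 3) with hf
  have hval : dot v v = a * a + b * b + c * c + f * f + (m : ℤ) * ((a + b) * (a + b)) := by
    rw [dot_split, Finset.sum_congr rfl fun x _ => by rw [hsx x]]
    simp only [Finset.sum_const, Finset.card_univ, Fintype.card_fin, nsmul_eq_mul, ← ha, ← hb,
      ← hc, ← hf]
    ring
  have hm1 : 1 ≤ (m : ℤ) := by omega
  have hab : a + b = 0 := by
    refine (first_pair_cases hm1 hM2 hsum hval h4M hS).resolve_right fun h => ?_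
    obtain ⟨hfull, e4⟩ := h
    have x0 : Fin m := ⟨0, by omega⟩
    have := heq (.inr x0) (.inr x0)
    rw [hfull, hsx x0, neg_mul_neg, e4] at this
    simp only [vecT, q1, q2, vecQ, Sum.elim_inr] at this
    refine hN.diag (.inr x0) (mul_left_cancel₀ (show 4 * ((m : ℤ) + 1) ≠ 0 by positivity) ?_)
    rw [this]
    ring
  have hb' : b = -a := by linarith
  have hf' : f = -c := by linarith
  have hveq : ∀ i, v i = a * vecQ m ![1, -1, 0, 0] i + c * vecQ m ![0, 0, 1, -1] i := by
    rintro (i | x)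
    · fin_cases i <;> simp [vecQ, ← ha, ← hb, ← hc, ← hf, hb', hf']
    · simp [vecQ, hsx x, hab]
  have hval' : dot v v = 2 * (a * a + c * c) := by rw [hval, hb', hf']; ring
  have hd2 : a * a + c * c ∣ 2 ^ (J + 2) := (dvd_mul_left _ 2).trans (hval' ▸ hS)
  have hcases : (a * a = 1 ∧ c = 0) ∨ (a = 0 ∧ c * c = 1) ∨ (a * a = 1 ∧ c * c = 1) := by
    rcases Int.even_or_odd a with ⟨r, hr⟩ | ⟨r, hr⟩ <;> rcases Int.even_or_odd c with ⟨s, hs⟩ | ⟨s, hs⟩
    · exfalso
      have : (2 : ℤ) ∣ 1 := hprim 2 1 fun i j => by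
        refine (Dvd.intro (r * vecQ m ![1, -1, 0, 0] i + s * vecQ m ![0, 0, 1, -1] i)
          ?_).trans (dvd_mul_right (1 * v i) (v j))
        rw [one_mul, hveq, hr, hs]; ring
      norm_num at this
    · have := eq_one_of_odd (add_nonneg (mul_self_nonneg _) (mul_self_nonneg _)) ⟨2 * r * r + 2 * s * s + 2 * s, by rw [hr, hs]; ring⟩ hd2
      have hc1 := one_le_sq_of_odd (x := c) ⟨s, hs⟩
      exact Or.inr (Or.inl ⟨mul_self_eq_zero.1 (by linarith [mul_self_nonneg a]),
        by linarith [mul_self_nonneg a]⟩)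
    · have := eq_one_of_odd (add_nonneg (mul_self_nonneg _) (mul_self_nonneg _)) ⟨2 * r * r + 2 * s * s + 2 * r, by rw [hr, hs]; ring⟩ hd2
      have ha1 := one_le_sq_of_odd (x := a) ⟨r, hr⟩
      exact Or.inl ⟨by linarith [mul_self_nonneg c],
        mul_self_eq_zero.1 (by linarith [mul_self_nonneg c])⟩
    · have hh : a * a + c * c = 2 * (2 * r * r + 2 * r + 2 * s * s + 2 * s + 1) := by
        rw [hr, hs]; ring
      rw [hh] at hd2
      have h1 := eq_one_of_odd (by nlinarith [mul_self_nonneg a, mul_self_nonneg c])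
        ⟨r * r + r + s * s + s, by ring⟩ ((dvd_mul_left _ 2).trans hd2)
      rw [h1] at hh
      have ha1 := one_le_sq_of_odd (x := a) ⟨r, hr⟩
      have hc1 := one_le_sq_of_odd (x := c) ⟨s, hs⟩
      exact Or.inr (Or.inr ⟨by linarith, by linarith⟩)
  exact shape_pattern hveq hval' hSne heq hcases

/-- The shape when a plane is killed. -/
theorem shape_of_plane (hN : Data N) {J : ℕ} (hJ : m + 1 = 2 ^ J) {v : Ix m → ℤ} (hv : Perp v)
    (hkv : app N v = 0)
    (hline : ¬ ∀ w, Perp w → app N w = 0 → ∀ i k, w i * v k = w k * v i) :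
    ∃ π : Equiv.Perm (Fin 4), (∀ x : Fin m, ∀ i, vecW x (ext m π i) = vecW x i) ∧
      ∃ (e : ℕ) (q : Fin e → Fin 4 → ℤ) (w : ℤ), IsPatterns (m + 1) q w ∧ Shape N π q w := by
  have hMJ : (m : ℤ) + 1 = 2 ^ J := by exact_mod_cast hJ
  have h4M : 4 * ((m : ℤ) + 1) = 2 ^ (J + 2) := by rw [hMJ, pow_add]; ring
  push Not at hline
  obtain ⟨w, hw, hkw, i₀, k₀, hne⟩ := hline
  obtain ⟨d', hd', hd'0, heq'⟩ := eq_of_plane hN hv hkv hw hkw ⟨i₀, k₀, hne⟩
  obtain ⟨g', hg', d, hgd, hprimd⟩ := exists_prim hd'0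
  have hd : Perp d := by
    have e : ∀ w, dot d' w = g' * dot d w := fun w => by
      simp only [dot, Finset.mul_sum]
      exact Finset.sum_congr rfl fun i _ => by rw [hgd]; ring
    exact ⟨(mul_eq_zero.1 ((e _).symm.trans hd'.1)).resolve_left hg',
      fun x => (mul_eq_zero.1 ((e _).symm.trans (hd'.2 x))).resolve_left hg'⟩
  have heq : ∀ i j, dot d d * N i j = 4 * ((m : ℤ) + 1) * (d i * d j) := fun i j => by
    have e : dot d' d' = g' * g' * dot d d := by
      simp only [dot, Finset.mul_sum]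
      exact Finset.sum_congr rfl fun i _ => by rw [hgd]; ring
    refine mul_left_cancel₀ (mul_ne_zero hg' hg') ?_
    have h := heq' i j
    rw [e, hgd i, hgd j] at h
    linear_combination h
  obtain ⟨r, hr⟩ : dot d d ∣ 4 * ((m : ℤ) + 1) :=
    hprimd _ _ fun i j => ⟨N i j, by linear_combination -heq i j⟩
  have hdd : dot d d ≠ 0 := fun h0 => hd'0 (funext fun i => by
    rw [hgd, dot_self_eq_zero h0]; simp)
  have hN' : ∀ i j, N i j = r * (d i * d j) := fun i j =>
    mul_left_cancel₀ hdd (by rw [heq, hr]; ring)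
  have hpos : 0 < dot d d := lt_of_le_of_ne (dot_self_nonneg d) hdd.symm
  have hr0 : 0 ≤ r := (pos_of_mul_pos_right (hr ▸ (by positivity : (0 : ℤ) < 4 * ((m : ℤ) + 1)))
    hpos.le).le
  have hodd : ∀ a, Odd r ∧ Odd (d (.inl a)) := fun a => by
    have := hN.odd a
    rw [hN', Int.odd_mul, Int.odd_mul] at this
    exact ⟨this.1, this.2.1⟩
  have hr1 : r = 1 := eq_one_of_odd hr0 (hodd 0).1 (h4M ▸ hr ▸ dvd_mul_left r (dot d d))
  subst hr1
  have hfull : dot d d = 4 * ((m : ℤ) + 1) := by rw [hr, mul_one]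
  rw [dot_split, Finset.sum_congr rfl fun x _ => by rw [hd.inr_eq x]] at hfull
  simp only [Finset.sum_const, Finset.card_univ, Fintype.card_fin, nsmul_eq_mul] at hfull
  have s0 := one_le_sq_of_odd (hodd 0).2
  have s1 := one_le_sq_of_odd (hodd 1).2
  have s2 := one_le_sq_of_odd (hodd 2).2
  have s3 := one_le_sq_of_odd (hodd 3).2
  have hsum := hd.sum_zero
  have hrest : 4 * (m : ℤ) ≤ (m : ℤ) * (-(d (.inl 0) + d (.inl 1)) * -(d (.inl 0) + d (.inl 1))) := by
    by_cases hm0 : m = 0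
    · subst hm0; simp
    have hne0 := hN.diag (.inr ⟨0, by omega⟩)
    rw [hN', hd.inr_eq] at hne0
    obtain ⟨r0, hr0'⟩ := (hodd 0).2
    obtain ⟨r1, hr1'⟩ := (hodd 1).2
    have hne1 : r0 + r1 + 1 ≠ 0 := fun e => hne0 (by
      rw [hr0', hr1', show 2 * r0 + 1 + (2 * r1 + 1) = 2 * (r0 + r1 + 1) by ring, e]; ring)
    have := mul_self_pos.2 hne1
    rw [hr0', hr1']
    nlinarith
  have e0 : d (.inl 0) * d (.inl 0) = 1 := by linarith
  have e1 : d (.inl 1) * d (.inl 1) = 1 := by linarith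
  have e2 : d (.inl 2) * d (.inl 2) = 1 := by linarith
  have e3 : d (.inl 3) * d (.inl 3) = 1 := by linarith
  have emid : m = 0 ∨ (d (.inl 0) + d (.inl 1)) ≠ 0 := by
    by_cases hm0 : m = 0
    · exact Or.inl hm0
    refine Or.inr fun e => hN.diag (.inr ⟨0, by omega⟩) ?_
    rw [hN', hd.inr_eq, e]; ring
  have fin : ∀ π : Equiv.Perm (Fin 4), (∀ x : Fin m, ∀ i, vecW x (ext m π i) = vecW x i) →
      ∀ s : ℤ, s * s = 1 → (∀ i, d (ext m π i) = s * vecT m i) →
      ∃ π : Equiv.Perm (Fin 4), (∀ x : Fin m, ∀ i, vecW x (ext m π i) = vecW x i) ∧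
        ∃ (e : ℕ) (q : Fin e → Fin 4 → ℤ) (w : ℤ), IsPatterns (m + 1) q w ∧ Shape N π q w := by
    intro π hπ s hs hsd
    refine ⟨π, hπ, 0, Fin.elim0, ((m + 1 : ℕ) : ℤ), Or.inl ⟨rfl, Or.inl rfl⟩, fun i j => ?_⟩
    rw [hN', hsd, hsd, Finset.univ_eq_empty, Finset.sum_empty]
    linear_combination (vecT m i * vecT m j) * hs
  rcases eq_pm_one_of_sq e0 with a0 | a0 <;> rcases eq_pm_one_of_sq e1 with a1 | a1 <;>
    rcases eq_pm_one_of_sq e2 with a2 | a2 <;> rcases eq_pm_one_of_sq e3 with a3 | a3 <;>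
    first
    | (exfalso; linarith)
    | (refine fin (Equiv.refl _) (fun x i => by rcases i with t | y <;> rfl) (d (.inl 0)) e0 ?_
       rintro (t | y)
       · fin_cases t <;> simp [ext, vecT, a0, a1, a2, a3]
       · simp [ext, vecT, hd.inr_eq, a0, a1]
       done)
    | (have hm0 : m = 0 := emid.resolve_right fun e => e (by linarith)
       subst hm0
       refine fin (Equiv.swap 1 2) (fun x => x.elim0) (d (.inl 0)) e0 ?_
       rintro (t | y)
       · fin_cases t <;> simp [ext, vecT, a0, a1, a2, a3, Equiv.swap_apply_def]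
       · exact y.elim0
       done)
    | (have hm0 : m = 0 := emid.resolve_right fun e => e (by linarith)
       subst hm0
       refine fin (Equiv.swap 1 3) (fun x => x.elim0) (d (.inl 0)) e0 ?_
       rintro (t | y)
       · fin_cases t <;> simp [ext, vecT, a0, a1, a2, a3, Equiv.swap_apply_def]
       · exact y.elim0
       done)

/-- The shape of the matrix. -/
theorem exists_shape (hN : Data N) {J : ℕ} (hJ : m + 1 = 2 ^ J)
    (hm : m = 0 → ∑ i, N i i ≠ 8) :
    ∃ π : Equiv.Perm (Fin 4), (∀ x : Fin m, ∀ i, vecW x (ext m π i) = vecW x i) ∧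
      ∃ (e : ℕ) (q : Fin e → Fin 4 → ℤ) (w : ℤ), IsPatterns (m + 1) q w ∧ Shape N π q w := by
  by_cases hfree : ∀ v, Perp v → app N v = 0 → v = 0
  · refine ⟨Equiv.refl _, fun x i => by rcases i with a | y <;> rfl, 2,
      ![![1, -1, 1, -1], ![1, -1, -1, 1]], ((m + 1 : ℕ) : ℤ), Or.inl ⟨rfl, Or.inr (Or.inr
        ⟨rfl, fun i => by fin_cases i <;> rfl⟩)⟩, fun i j => ?_⟩
    rw [show ext m (Equiv.refl _) i = i by rcases i with a | y <;> rfl,
      show ext m (Equiv.refl _) j = j by rcases j with a | y <;> rfl, eq_of_free hN hfree,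
      Fin.sum_univ_two]
    simp only [Matrix.cons_val_zero, Matrix.cons_val_one, q1, q2]
    push_cast
    ring
  push Not at hfree
  obtain ⟨u, hu, hku, hu0⟩ := hfree
  obtain ⟨g, hg, v, hgv, hprim⟩ := exists_prim hu0
  have hv : Perp v := by
    have e : ∀ w, dot u w = g * dot v w := fun w => by
      simp only [dot, Finset.mul_sum]
      exact Finset.sum_congr rfl fun i _ => by rw [hgv]; ring
    exact ⟨(mul_eq_zero.1 ((e _).symm.trans hu.1)).resolve_left hg,
      fun x => (mul_eq_zero.1 ((e _).symm.trans (hu.2 x))).resolve_left hg⟩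
  have hkv : app N v = 0 := funext fun i => by
    have e : app N u i = g * app N v i := by
      simp only [app, Finset.mul_sum]
      exact Finset.sum_congr rfl fun j _ => by rw [hgv]; ring
    exact (mul_eq_zero.1 (e.symm.trans (congrFun hku i))).resolve_left hg
  have hv0 : v ≠ 0 := fun h0 => hu0 (funext fun i => by rw [hgv, h0]; simp)
  by_cases hline : ∀ w, Perp w → app N w = 0 → ∀ i k, w i * v k = w k * v i
  · exact shape_of_line hN hJ hm hv hkv hv0 hprim hline
  · exact shape_of_plane hN hJ hv hkv hline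

end Cfsg.Agent.H22.TameRows
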