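import Cfsg.Agent.H40.Tame.Group
import Cfsg.Agent.H26.CharLinear
import Cfsg.Agent.H42.Heights

/-!
# Class functions of semidihedral and quaternion groups living at the rotations
-/

set_option autoImplicit false
set_option linter.unusedSectionVars false
set_option linter.style.haveILetI false

open scoped ComplexConjugate Classical

namespace Cfsg.Agent.H22.TameU

open Cfsg
open Cfsg.Agent.H40.Tame (TData)

variable {G : Type*} [Group G] [Fintype G] {P : Subgroup G} {σ : G} {c : ℤ} {q : ℕ}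

/-- An odd power of `σ`. -/
def IsOddPow (σ : G) (v : P) : Prop := ∃ i : ℤ, Odd i ∧ (v : G) = σ ^ i

/-- Four at the odd powers. -/
noncomputable def f0 (σ : G) (P : Subgroup G) : P → ℂ := fun v => if IsOddPow σ v then 4 else 0

/-- The class of `σ ^ i`. -/
def InCl (σ : G) (c : ℤ) (i : ℤ) (v : P) : Prop := (v : G) = σ ^ i ∨ (v : G) = σ ^ (c * i)

/-- The indicator of a class minus that of its translate by the central involution. -/
noncomputable def fj (σ : G) (P : Subgroup G) (c : ℤ) (q : ℕ) (i : ℤ) : P → ℂ := fun v =>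
  (if InCl σ c i v then 1 else 0) - (if InCl σ c (i + 2 * q) v then 1 else 0)

variable (hd : TData P σ c q)

include hd

theorem zpow_eq_iff {i k : ℤ} : σ ^ i = σ ^ k ↔ (4 * (q : ℤ)) ∣ k - i := by
  rw [zpow_eq_zpow_iff_modEq, hd.order, Int.modEq_iff_dvd]
  push_cast
  rfl

theorem even_q_or : c = -1 ∨ (c = 2 * (q : ℤ) - 1 ∧ ∃ b : ℤ, (q : ℤ) = 2 * b) := by
  rcases hd.cform with h | ⟨h, hq⟩
  · exact Or.inl h
  · obtain ⟨a, ha⟩ := hd.pow
    refine Or.inr ⟨h, 2 ^ (a - 1), ?_⟩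
    rcases a with - | a
    · simp at ha; omega
    · rw [ha, Nat.add_sub_cancel, pow_succ']; push_cast; rfl

theorem odd_c : Odd c := by
  rcases even_q_or hd with rfl | ⟨rfl, b, hb⟩
  · exact ⟨-1, by norm_num⟩
  · exact ⟨(q : ℤ) - 1, by ring⟩

theorem dvd_c_add_one : 2 * (q : ℤ) ∣ c + 1 := by
  rcases even_q_or hd with rfl | ⟨rfl, b, hb⟩
  · simp
  · exact ⟨1, by ring⟩

theorem dvd_c_sq : 4 * (q : ℤ) ∣ c * c - 1 := by
  rcases even_q_or hd with rfl | ⟨rfl, b, hb⟩
  · simp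
  · refine ⟨(q : ℤ) - 1, ?_⟩
    ring

theorem conj_zpow_cases {w : G} (hw : w ∈ P) (i : ℤ) :
    w * σ ^ i * w⁻¹ = σ ^ i ∨ w * σ ^ i * w⁻¹ = σ ^ (c * i) := by
  by_cases hA : w ∈ Subgroup.zpowers σ
  · left
    obtain ⟨j, rfl⟩ := hA
    group
  · exact Or.inr (hd.pow_conj hw hA i)

theorem zpow_cc (i : ℤ) : σ ^ (c * (c * i)) = σ ^ i := by
  rw [zpow_eq_iff hd]
  have := (dvd_c_sq hd).mul_right i
  rw [← dvd_neg] at this
  rwa [show -((c * c - 1) * i) = i - c * (c * i) by ring] at this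

theorem isOddPow_conj {w v : P} (h : IsOddPow σ v) : IsOddPow σ (w * v * w⁻¹) := by
  obtain ⟨i, hi, hv⟩ := h
  rcases conj_zpow_cases hd w.2 i with e | e
  · exact ⟨i, hi, by push_cast; rw [hv, e]⟩
  · exact ⟨c * i, (odd_c hd).mul hi, by push_cast; rw [hv, e]⟩

theorem f0_class : IsClassFunction P (f0 σ P) := fun v w => by
  refine if_congr ⟨fun h => ?_, isOddPow_conj hd⟩ rfl rfl
  have h' := isOddPow_conj hd (w := w⁻¹) h
  rwa [show w⁻¹ * (w * v * w⁻¹) * w⁻¹⁻¹ = v by group] at h'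

theorem inCl_conj {w v : P} {i : ℤ} (h : InCl σ c i v) : InCl σ c i (w * v * w⁻¹) := by
  rcases h with hv | hv
  · rcases conj_zpow_cases hd w.2 i with e | e
    · exact Or.inl (by push_cast; rw [hv, e])
    · exact Or.inr (by push_cast; rw [hv, e])
  · rcases conj_zpow_cases hd w.2 (c * i) with e | e
    · exact Or.inr (by push_cast; rw [hv, e])
    · exact Or.inl (by push_cast; rw [hv, e, zpow_cc hd])

theorem fj_class (i : ℤ) : IsClassFunction P (fj σ P c q i) := fun v w => by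
  have key : ∀ k : ℤ, InCl σ c k (w * v * w⁻¹) ↔ InCl σ c k v := fun k =>
    ⟨fun h => by
      have h' := inCl_conj hd (w := w⁻¹) h
      rwa [show w⁻¹ * (w * v * w⁻¹) * w⁻¹⁻¹ = v by group] at h', inCl_conj hd⟩
  simp only [fj, key]

/-- A power not divisible by `q` has `σ ^ q` as a power. -/
theorem u_mem_zpowers {i : ℤ} (hi : ¬ 2 * (q : ℤ) ∣ i) : σ ^ q ∈ Subgroup.zpowers (σ ^ i) := by
  obtain ⟨a, ha⟩ := hd.pow
  have hdv : ((Int.gcd i (4 * (q : ℤ))) : ℤ) ∣ (q : ℤ) := by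
    have h1 : Int.gcd i (4 * (q : ℤ)) ∣ 2 ^ (a + 2) := by
      have := Int.gcd_dvd_right i (4 * (q : ℤ))
      rw [show (4 * (q : ℤ)) = ((2 ^ (a + 2) : ℕ) : ℤ) by rw [ha]; push_cast; ring] at this ⊢
      exact_mod_cast this
    obtain ⟨b, -, hb⟩ := (Nat.dvd_prime_pow Nat.prime_two).1 h1
    rcases le_or_gt b a with hle | hlt
    · rw [hb, ha]
      exact_mod_cast pow_dvd_pow 2 hle
    · exfalso
      refine hi (dvd_trans ?_ (Int.gcd_dvd_left i (4 * (q : ℤ))))
      rw [hb, ha]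
      have : 2 * 2 ^ a ∣ 2 ^ b := by rw [← pow_succ']; exact pow_dvd_pow 2 hlt
      exact_mod_cast this
  obtain ⟨k, hk⟩ := hdv
  refine ⟨Int.gcdA i (4 * (q : ℤ)) * k, ?_⟩
  show (σ ^ i) ^ (Int.gcdA i (4 * (q : ℤ)) * k) = σ ^ q
  rw [← zpow_mul, ← zpow_natCast σ q, zpow_eq_iff hd]
  refine ⟨Int.gcdB i (4 * (q : ℤ)) * k, ?_⟩
  linear_combination hk + k * Int.gcd_eq_gcd_ab i (4 * (q : ℤ))

theorem f0_supp {v : P} (h : σ ^ q ∉ Subgroup.zpowers (v : G)) : f0 σ P v = 0 :=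
  if_neg fun ⟨i, hi, hv⟩ => h (by
    rw [hv]
    refine u_mem_zpowers hd fun hdvd => ?_
    exact Int.not_even_iff_odd.2 hi (even_iff_two_dvd.2 ((dvd_mul_right 2 _).trans hdvd)))

theorem fj_supp {i : ℤ} (h0 : 0 < i) (h1 : i < q) {v : P}
    (h : σ ^ q ∉ Subgroup.zpowers (v : G)) : fj σ P c q i v = 0 := by
  have hq2 : ¬ 2 * (q : ℤ) ∣ i := fun hdvd => by
    have := Int.le_of_dvd h0 hdvd
    omega
  have hno : ∀ k : ℤ, ¬ 2 * (q : ℤ) ∣ k → ¬ InCl σ c k v := by
    rintro k hk (hv | hv) <;> rw [hv] at h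
    · exact h (u_mem_zpowers hd hk)
    · refine h (u_mem_zpowers hd fun hdvd => hk ?_)
      have := dvd_sub ((dvd_c_add_one hd).mul_right k) hdvd
      rwa [show (c + 1) * k - c * k = k by ring] at this
  rw [fj, if_neg (hno i hq2), if_neg (hno _ fun hdvd => hq2 ?_), sub_zero]
  exact (dvd_add_left (dvd_refl (2 * (q : ℤ)))).1 hdvd

theorem f0_mul_z {z v : P} (hz : (z : G) = σ ^ (2 * q)) : f0 σ P (v * z) = f0 σ P v := by
  refine if_congr ⟨fun ⟨i, hi, hv⟩ => ⟨i - 2 * q, hi.sub_even (even_two_mul _), ?_⟩,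
    fun ⟨i, hi, hv⟩ => ⟨i + 2 * q, hi.add_even (even_two_mul _), ?_⟩⟩ rfl rfl
  · push_cast at hv
    rw [hz] at hv
    rw [eq_mul_inv_of_mul_eq hv, ← zpow_natCast, ← zpow_neg, ← zpow_add]
    push_cast
    rw [sub_eq_add_neg]
  · push_cast
    rw [hv, hz, ← zpow_natCast σ (2 * q), ← zpow_add]
    push_cast
    rfl

theorem fj_mul_z {z v : P} (hz : (z : G) = σ ^ (2 * q)) (i : ℤ) :
    fj σ P c q i (v * z) = -fj σ P c q i v := by
  obtain ⟨t, ht⟩ := odd_c hd
  have hval : ((v * z : P) : G) = (v : G) * σ ^ (2 * (q : ℤ)) := by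
    push_cast
    rw [hz, ← zpow_natCast]
    push_cast
    rfl
  have key : ∀ k l : ℤ, (4 * (q : ℤ)) ∣ l - (k - 2 * q) →
      ((v : G) * σ ^ (2 * (q : ℤ)) = σ ^ k ↔ (v : G) = σ ^ l) := fun k l h => by
    rw [← eq_mul_inv_iff_mul_eq, ← zpow_neg, ← zpow_add, ← sub_eq_add_neg,
      (zpow_eq_iff hd).2 h]
  have h1 : InCl σ c i (v * z) ↔ InCl σ c (i + 2 * q) v := by
    unfold InCl
    rw [hval]
    exact or_congr (key _ _ ⟨1, by ring⟩) (key _ _ ⟨t + 1, by rw [ht]; ring⟩)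
  have h2 : InCl σ c (i + 2 * q) (v * z) ↔ InCl σ c i v := by
    unfold InCl
    rw [hval]
    exact or_congr (key _ _ ⟨0, by ring⟩) (key _ _ ⟨-t, by rw [ht]; ring⟩)
  simp only [fj, h1, h2]
  ring

/-- The functions take the values of the identity matrix at `σ ^ k`. -/
theorem fj_apply {i k : ℤ} (hi0 : 0 < i) (hi : i < q) (hk0 : 0 < k) (hk : k < q) {v : P}
    (hv : (v : G) = σ ^ k) : fj σ P c q i v = if i = k then 1 else 0 := by
  have hmod : ∀ l : ℤ, σ ^ k = σ ^ l → 2 * (q : ℤ) ∣ l - k := fun l h =>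
    (Dvd.intro 2 (by ring) : 2 * (q : ℤ) ∣ 4 * q).trans ((zpow_eq_iff hd).1 h)
  have hsmall : ∀ d : ℤ, 2 * (q : ℤ) ∣ d → -(2 * (q : ℤ)) < d → d < 2 * q → d = 0 := fun d h h1 h2 =>
    Int.eq_zero_of_abs_lt_dvd h (by rw [abs_lt]; exact ⟨h1, h2⟩)
  have hc : ∀ l : ℤ, 2 * (q : ℤ) ∣ c * l - k → 2 * (q : ℤ) ∣ l + k := fun l h => by
    have := dvd_sub ((dvd_c_add_one hd).mul_right l) h
    rwa [show (c + 1) * l - (c * l - k) = l + k by ring] at this
  have hA : InCl σ c i v ↔ i = k := by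
    constructor
    · rintro (e | e) <;> rw [hv] at e
      · have := hsmall _ (hmod _ e) (by omega) (by omega); omega
      · have := hsmall _ (hc _ (hmod _ e)) (by omega) (by omega); omega
    · rintro rfl; exact Or.inl hv
  have hB : ¬ InCl σ c (i + 2 * q) v := by
    rintro (e | e) <;> rw [hv] at e
    · have h := hmod _ e
      have h' := (zpow_eq_iff hd).1 e
      have hz0 : i - k = 0 := hsmall _ (by
        have := dvd_sub h (dvd_refl (2 * (q : ℤ)))
        rwa [show i + 2 * (q : ℤ) - k - 2 * q = i - k by ring] at this) (by omega) (by omega)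
      rw [show i + 2 * (q : ℤ) - k = 2 * q by omega] at h'
      have := Int.le_of_dvd (by omega) h'
      omega
    · have h := hc _ (hmod _ e)
      have := hsmall (i + k) (by
        have := dvd_sub h (dvd_refl (2 * (q : ℤ)))
        rwa [show i + 2 * (q : ℤ) + k - 2 * q = i + k by ring] at this) (by omega) (by omega)
      omega
  rw [fj, if_neg hB, sub_zero]
  exact if_congr hA rfl rfl

/-- The odd powers. -/
noncomputable def oddFin : Finset P :=
  (Finset.range (2 * q)).image fun k => ⟨σ ^ (2 * k + 1), Subgroup.pow_mem P hd.σ_mem _⟩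

theorem mem_oddFin {v : P} : v ∈ oddFin hd ↔ IsOddPow σ v := by
  constructor
  · intro h
    obtain ⟨k, -, rfl⟩ := Finset.mem_image.1 h
    exact ⟨((2 * k + 1 : ℕ) : ℤ), by exact_mod_cast odd_two_mul_add_one k, (zpow_natCast σ _).symm⟩
  · rintro ⟨i, ⟨t, rfl⟩, hv⟩
    have hq := hd.q_pos
    refine Finset.mem_image.2 ⟨(t % (2 * q : ℕ)).toNat, Finset.mem_range.2 ?_, Subtype.ext ?_⟩
    · have := Int.emod_lt_of_pos t (b := ((2 * q : ℕ) : ℤ)) (by omega)
      omega
    · show σ ^ _ = (v : G)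
      rw [hv, ← zpow_natCast, zpow_eq_iff hd]
      have h0 := Int.emod_nonneg t (b := ((2 * q : ℕ) : ℤ)) (by omega)
      refine ⟨t / ((2 * q : ℕ) : ℤ), ?_⟩
      have := Int.ediv_mul_add_emod t ((2 * q : ℕ) : ℤ)
      push_cast at this h0 ⊢
      rw [Int.toNat_of_nonneg (by exact_mod_cast h0)]
      linear_combination (2 : ℤ) * (this).symm

theorem card_oddFin : (oddFin hd).card = 2 * q := by
  rw [oddFin, Finset.card_image_of_injOn, Finset.card_range]
  intro a ha b hb e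
  have e' : σ ^ ((2 * a + 1 : ℕ) : ℤ) = σ ^ ((2 * b + 1 : ℕ) : ℤ) := by
    rw [zpow_natCast, zpow_natCast]; exact congrArg Subtype.val e
  have h := Int.eq_zero_of_abs_lt_dvd ((zpow_eq_iff hd).1 e') (by
    rw [abs_lt]
    simp only [Finset.coe_range, Set.mem_Iio] at ha hb
    push_cast
    omega)
  omega

theorem classInner_f0 (F : P → ℂ) : classInner (f0 σ P) F =
    (Nat.card P : ℂ)⁻¹ * (4 * ∑ v ∈ oddFin hd, conj (F v)) := by
  rw [classInner, Finset.mul_sum (oddFin hd), ← Finset.sum_subset (Finset.subset_univ (oddFin hd))]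
  · congr 1
    exact Finset.sum_congr rfl fun v hv => by rw [f0, if_pos ((mem_oddFin hd).1 hv)]
  · intro v _ hv
    rw [f0, if_neg (fun h => hv ((mem_oddFin hd).2 h)), zero_mul]

theorem card_P : (Nat.card P : ℂ) = 8 * q := by rw [hd.card]; push_cast; rfl

theorem norm_f0 : classInner (f0 σ P) (f0 σ P) = 4 := by
  rw [classInner_f0 hd, card_P hd, Finset.sum_congr rfl (g := fun _ => (4 : ℂ)) fun v hv => by
    rw [f0, if_pos ((mem_oddFin hd).1 hv)]; exact Complex.conj_ofNat 4, Finset.sum_const, card_oddFin hd, nsmul_eq_mul]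
  have : (q : ℂ) ≠ 0 := Nat.cast_ne_zero.2 hd.q_pos.ne'
  push_cast
  field_simp
  ring

/-- A homomorphism to the units takes `σ` to a sign. -/
theorem hom_sq (f : P →* ℂˣ) : f ⟨σ, hd.σ_mem⟩ ^ 2 = 1 := by
  set s : P := ⟨σ, hd.σ_mem⟩
  obtain ⟨w, hw, hA⟩ := hd.exists_outside
  have h4 : f s ^ ((4 * q : ℕ) : ℤ) = 1 := by
    rw [zpow_natCast, ← map_pow, show s ^ (4 * q) = 1 from Subtype.ext (by
      push_cast; rw [← hd.order, pow_orderOf_eq_one]), map_one]
  have hconj : (⟨w, hw⟩ : P) * s * (⟨w, hw⟩ : P)⁻¹ = s ^ c := Subtype.ext (by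
    push_cast; exact hd.conj w hw hA)
  have hc : f s ^ c = f s := by
    rw [← map_zpow, ← hconj, map_mul, map_mul, map_inv, mul_comm (f _) (f s), mul_inv_cancel_right]
  have hc1 : f s ^ (c - 1) = 1 := by rw [zpow_sub, hc, zpow_one, mul_inv_cancel]
  rw [← zpow_natCast]
  rcases even_q_or hd with rfl | ⟨rfl, b, hb⟩
  · rw [show ((2 : ℕ) : ℤ) = (-1 - 1) * (-1) by norm_num, zpow_mul, hc1, one_zpow]
  · have h4' : f s ^ (4 : ℤ) = 1 := by
      rw [show (4 : ℤ) = (2 * (q : ℤ) - 1 - 1) * (-2) + ((4 * q : ℕ) : ℤ) by push_cast; ring,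
        zpow_add, zpow_mul, hc1, one_zpow, one_mul, h4]
    rw [show ((2 : ℕ) : ℤ) = (2 * (q : ℤ) - 1 - 1) * (-1) + 4 * b by push_cast; rw [hb]; ring,
      zpow_add, zpow_mul, hc1, one_zpow, one_mul, zpow_mul, h4', one_zpow]

theorem classInner_f0_linear (θ : IrrCharacter P) (h1 : (θ : P → ℂ) 1 = 1) :
    classInner (f0 σ P) (θ : P → ℂ) = 1 ∨ classInner (f0 σ P) (θ : P → ℂ) = -1 := by
  obtain ⟨f, hf⟩ := H26.exists_hom_of_isCharacter_one (H26.irr_isCharacter θ) h1
  set s : P := ⟨σ, hd.σ_mem⟩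
  have hsq := hom_sq hd f
  have hval : ∀ v ∈ oddFin hd, (θ : P → ℂ) v = (f s : ℂ) := by
    intro v hv
    obtain ⟨k, -, rfl⟩ := Finset.mem_image.1 hv
    rw [← hf, show (⟨σ ^ (2 * k + 1), Subgroup.pow_mem P hd.σ_mem _⟩ : P) = s ^ (2 * k + 1) from
      Subtype.ext (by push_cast; rfl), map_pow, pow_succ, pow_mul, hsq, one_pow, one_mul]
  have hsq' : (f s : ℂ) * (f s : ℂ) = 1 := by
    rw [← Units.val_mul, ← pow_two, hsq, Units.val_one]
  rw [classInner_f0 hd, Finset.sum_congr rfl fun v hv => by rw [hval v hv], Finset.sum_const,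
    card_oddFin hd, nsmul_eq_mul, card_P hd]
  have hq : (q : ℂ) ≠ 0 := Nat.cast_ne_zero.2 hd.q_pos.ne'
  rcases mul_self_eq_one_iff.1 hsq' with e | e
  · left; rw [e, map_one]; push_cast; field_simp; ring
  · right; rw [e, map_neg, map_one]; push_cast; field_simp; ring

theorem four_le_linear :
    4 ≤ (Finset.univ.filter fun θ : IrrCharacter P => (θ : P → ℂ) 1 = 1).card := by
  haveI : Fact (Nat.Prime 2) := ⟨Nat.prime_two⟩
  set s : P := ⟨σ, hd.σ_mem⟩
  have hn : (Subgroup.zpowers (s ^ 2)).Normal := ⟨fun x hx g => by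
    obtain ⟨i, rfl⟩ := hx
    rcases conj_zpow_cases hd g.2 (2 * i) with e | e
    · refine ⟨i, Subtype.ext ?_⟩
      push_cast
      rw [← zpow_natCast, ← zpow_mul]
      exact e.symm
    · refine ⟨c * i, Subtype.ext ?_⟩
      push_cast
      rw [← zpow_natCast, ← zpow_mul, ← zpow_mul]
      rw [show ((2 : ℕ) : ℤ) * (c * i) = c * (2 * i) by push_cast; ring]
      exact e.symm⟩
  have hidx : (Subgroup.zpowers (s ^ 2)).index = 4 := by
    have h := Subgroup.card_mul_index (Subgroup.zpowers (s ^ 2))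
    have ho : orderOf (s ^ 2) = 2 * q := by
      rw [orderOf_pow' s two_ne_zero, Subgroup.orderOf_mk, hd.order,
        Nat.gcd_eq_right ⟨2 * q, by ring⟩, show 4 * q = 2 * (2 * q) by ring,
        Nat.mul_div_cancel_left _ two_pos]
    rw [Nat.card_zpowers, ho, hd.card] at h
    exact Nat.eq_of_mul_eq_mul_left (by have := hd.q_pos; omega : 0 < 2 * q) (h.trans (by ring))
  have hcomm : commutator P ≤ Subgroup.zpowers (s ^ 2) := by
    rw [commutator_def, Subgroup.commutator_le]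
    intro a _ b _
    rw [← QuotientGroup.eq_one_iff, ← QuotientGroup.mk'_apply (Subgroup.zpowers (s ^ 2)),
      map_commutatorElement, commutatorElement_eq_one_iff_mul_comm]
    exact IsPGroup.commutative_of_card_eq_prime_sq (p := 2) (by
      rw [← Subgroup.index_eq_card, hidx]; norm_num) _ _
  have h := H26.card_linear_irr (G := P)
  rw [Nat.card_eq_fintype_card, Fintype.card_subtype] at h
  rw [h, ← hidx]
  exact Nat.le_of_dvd (Nat.pos_of_ne_zero Subgroup.index_ne_zero_of_finite)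
    (Subgroup.index_dvd_of_le hcomm)

/-- The coefficient of `f0` is an integer with the parity of the degree. -/
theorem exists_int_f0 (θ : IrrCharacter P) :
    ∃ n : ℤ, classInner (f0 σ P) (θ : P → ℂ) = n ∧ (Odd n ↔ Odd (charDegree (θ : P → ℂ))) := by
  by_cases h1 : (θ : P → ℂ) 1 = 1
  · have hdeg : charDegree (θ : P → ℂ) = 1 := by
      rw [H42.irr_one_eq] at h1; exact_mod_cast h1
    rcases classInner_f0_linear hd θ h1 with e | e
    · exact ⟨1, by rw [e]; simp, by simp [hdeg]⟩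
    · exact ⟨-1, by rw [e]; simp, by simp [hdeg]⟩
  refine ⟨0, ?_, iff_of_false (by simp) fun hodd => h1 ?_⟩
  · have hn := norm_f0 hd
    rw [H26.classInner_eq_sum _ _ (f0_class hd)] at hn
    simp only [Complex.mul_conj] at hn
    rw [← Complex.ofReal_sum] at hn
    have hn' : ∑ η : IrrCharacter P, Complex.normSq (classInner (f0 σ P) (η : P → ℂ)) = 4 := by
      exact_mod_cast hn
    have hlin : (4 : ℝ) ≤ ∑ η ∈ Finset.univ.filter (fun η : IrrCharacter P => (η : P → ℂ) 1 = 1),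
        Complex.normSq (classInner (f0 σ P) (η : P → ℂ)) := by
      rw [Finset.sum_congr rfl (g := fun _ => (1 : ℝ)) fun η hη => by
        rcases classInner_f0_linear hd η (Finset.mem_filter.1 hη).2 with e | e <;> rw [e] <;> simp,
        Finset.sum_const, nsmul_eq_mul, mul_one]
      exact_mod_cast four_le_linear hd
    rw [← Finset.sum_filter_add_sum_filter_not Finset.univ
      (fun η : IrrCharacter P => (η : P → ℂ) 1 = 1)] at hn'
    have hrest : ∑ η ∈ Finset.univ.filter (fun η : IrrCharacter P => ¬ (η : P → ℂ) 1 = 1),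
        Complex.normSq (classInner (f0 σ P) (η : P → ℂ)) = 0 :=
      le_antisymm (by linarith) (Finset.sum_nonneg fun η _ => Complex.normSq_nonneg _)
    rw [Int.cast_zero]
    exact Complex.normSq_eq_zero.1 ((Finset.sum_eq_zero_iff_of_nonneg fun η _ =>
      Complex.normSq_nonneg _).1 hrest θ (Finset.mem_filter.2 ⟨Finset.mem_univ _, h1⟩))
  · obtain ⟨a, ha⟩ := hd.pow
    obtain ⟨n, ρ, hρ, e⟩ := θ.2
    have := hρ
    have hdvd : charDegree (θ : P → ℂ) ∣ 2 ^ (a + 3) := by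
      rw [← e, H42.charDegree_of_eq_nat ρ.char_one]
      refine (H25.finrank_dvd_card ρ).trans (dvd_of_eq ?_)
      rw [hd.card, ha]; ring
    obtain ⟨b, -, hb⟩ := (Nat.dvd_prime_pow Nat.prime_two).1 hdvd
    rcases b with - | b
    · rw [H42.irr_one_eq, hb]; simp
    · rw [hb, pow_succ] at hodd
      exact absurd (Nat.even_mul.2 (Or.inr even_two)) (Nat.not_even_iff_odd.2 hodd)

end Cfsg.Agent.H22.TameU
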