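import Cfsg.Agent.H22.TICore
import Cfsg.Agent.H56.FreeDefectIdem

/-!
# Class functions of the defect group inside a nilpotent block

The star products with a member of height zero carry the class functions of the defect group of a
nilpotent block isometrically onto the span of the block.
-/

set_option autoImplicit false
set_option linter.unusedSectionVars false

open scoped ComplexConjugate Classical

namespace Cfsg.Agent.H22.TameU

open Cfsg
open Cfsg.Agent.H41 (ResField)
open Cfsg.Agent.H40.NilpotentBlocks (ext0 ext0_one)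
open Cfsg.Agent.H56.FD (scal)

variable {H : Type*} [Group H] [Fintype H] [Fact (Nat.Prime 2)] {M : Ideal AlgInt} [M.IsMaximal]
  [CharP (ResField M) 2]

/-- A class function of the defect group as a function on the group. -/
noncomputable def gf (M : Ideal AlgInt) [M.IsMaximal] {P : Subgroup H}
    (e : MonoidAlgebra (ResField M) H) (ξ₀ : IrrCharacter H) (f : P → ℂ) : H → ℂ :=
  H22.star 2 M (P, e) (ext0 f) (ξ₀ : H → ℂ)

/-- The data. -/
structure Nil (M : Ideal AlgInt) [M.IsMaximal] (c : Set (IrrCharacter H)) (P : Subgroup H)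
    (e : MonoidAlgebra (ResField M) H) (ξ₀ : IrrCharacter H) : Prop where
  hM : IsPModular 2 M
  nil : IsNilpotentBlock 2 M c
  max : IsMaxEl 2 ⊤ (elTop M c) (P, e)
  defect : IsDefectGroup 2 M c P
  mem : ξ₀ ∈ c
  height : blockHeight 2 c (ξ₀ : H → ℂ) = 0

variable {c : Set (IrrCharacter H)} {P : Subgroup H} {e : MonoidAlgebra (ResField M) H}
  {ξ₀ : IrrCharacter H}

theorem gf_add (f f' : P → ℂ) (k : H) :
    gf M e ξ₀ (f + f') k = gf M e ξ₀ f k + gf M e ξ₀ f' k := by
  have h : ext0 (f + f') = ext0 f + ext0 f' := by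
    funext g
    unfold ext0
    simp only [Pi.add_apply]
    split_ifs <;> simp
  rw [gf, h, H40.StarNorm.star_add]
  rfl

theorem gf_sum {ι : Type*} (S : Finset ι) (a : ι → ℂ) (f : ι → P → ℂ) :
    gf M e ξ₀ (∑ i ∈ S, a i • f i) = ∑ i ∈ S, a i • gf M e ξ₀ (f i) := by
  funext k
  have h : ext0 (∑ i ∈ S, a i • f i) = fun g => ∑ i ∈ S, a i * ext0 (f i) g := by
    funext g
    unfold ext0
    split_ifs <;> simp [Finset.sum_apply]
  rw [gf, h, H40.StarNorm.star_sum, Finset.sum_apply]
  rfl

/-- A function vanishing at the elements of `P` conjugate to the `2`-part gives zero there. -/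
theorem gf_eq_zero {f : P → ℂ} {k : H}
    (h : ∀ (u : P) (x : H), x * pp 2 k * x⁻¹ = (u : H) → f u = 0) : gf M e ξ₀ f k = 0 := by
  rw [gf, H22.star]
  refine finsum_mem_eq_zero_of_forall_eq_zero fun b _ => mul_eq_zero_of_left ?_ _
  rw [wt]
  split_ifs with hx
  · unfold ext0
    split_ifs with hm
    · exact h ⟨_, hm⟩ _ rfl
    · rfl
  · rfl

variable (S : Nil M c P e ξ₀)

include S

theorem starInt : H40.NilpotentBlocks.StarInt 2 M (P, e) c :=
  H40.NilpotentBlocks.starInt S.hM S.nil.1 S.max

theorem isClassFunction_gf {f : P → ℂ} (hf : IsClassFunction P f) :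
    IsClassFunction H (gf M e ξ₀ f) :=
  isClassFunction_star (H40.NilpotentBlocks.pairStable_ext0 S.nil S.max hf)
    (H26.irr_isClassFunction ξ₀)

theorem gf_one (k : H) : gf M e ξ₀ (P := P) (fun _ => 1) k = (ξ₀ : H → ℂ) k := by
  rw [← H40.StarNorm.star_one S.hM S.nil.1 S.max S.mem k, gf, H22.star, H22.star]
  refine finsum_mem_congr rfl fun b _ => ?_
  congr 1
  rw [wt, wt]
  split_ifs with hx
  · exact dif_pos ((hx.choose_spec : CarriesInto 2 (P, e) _ _ _).le
      (conj_mem_cS (Subgroup.mem_zpowers _)))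
  · rfl

/-- At the identity the values multiply. -/
theorem gf_at_one (f : P → ℂ) : gf M e ξ₀ f 1 = f 1 * (ξ₀ : H → ℂ) 1 := by
  rw [gf, H40.StarNorm.star_of_regular S.hM S.nil.1 S.max S.mem _ (by simp), ext0_one]

/-- At a central `2`-element of `P` the values multiply. -/
theorem gf_at_central (f : P → ℂ) {v : P} (hv : ∀ g : H, g * (v : H) = (v : H) * g) :
    gf M e ξ₀ f (v : H) = f v * (ξ₀ : H → ℂ) (v : H) := by
  have h2 : IsPGroup 2 P := S.max.pair.pGroup
  have hpp : pp 2 (v : H) = (v : H) := by
    obtain ⟨j, hj⟩ := IsPGroup.iff_orderOf.1 h2 v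
    exact pp_eq ⟨1, mul_one _, Commute.one_right _, ⟨j, by rwa [Subgroup.orderOf_coe]⟩, by simp⟩
  have h0 : gf M e ξ₀ (f + fun _ => -(f v)) (v : H) = 0 := by
    refine gf_eq_zero fun u x hx => ?_
    rw [hpp, hv, mul_inv_cancel_right] at hx
    rw [show u = v from Subtype.ext hx.symm]
    simp
  rw [gf_add] at h0
  have hc : gf M e ξ₀ (P := P) (fun _ => -(f v)) (v : H) = -(f v) * (ξ₀ : H → ℂ) (v : H) := by
    have h := congrFun (gf_sum (M := M) (e := e) (ξ₀ := ξ₀) (Finset.univ : Finset (Fin 1))
      (fun _ => -(f v)) (fun _ => fun _ : P => (1 : ℂ))) (v : H)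
    simp only [Fin.sum_univ_one] at h
    rw [Pi.smul_apply, gf_one S, smul_eq_mul] at h
    rw [← h]
    congr 1
    funext u
    simp
  rw [hc] at h0
  linear_combination h0

/-- The images of the characters of `P` are the members of the block. -/
theorem exists_param : ∃ E : IrrCharacter P ≃ c, ∀ θ : IrrCharacter P,
    gf M e ξ₀ (θ : P → ℂ) = ((E θ : IrrCharacter H) : H → ℂ) := by
  have hint := starInt S
  choose Ψ hΨc hΨ using fun θ : IrrCharacter P => H40.NilpotentBlocks.exists_star_eq_irr S.nil
    S.max hint S.hM S.defect S.mem S.height θ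
  obtain ⟨Φ, -, -⟩ := H40.NilpotentBlocks.exists_equiv S.nil S.max hint S.hM S.defect S.mem S.height
  have hinj : Function.Injective (fun θ => (⟨Ψ θ, hΨc θ⟩ : c)) := by
    intro l l' hll
    by_contra hne
    have hll' : Ψ l = Ψ l' := congrArg Subtype.val hll
    have h := H40.NilpotentBlocks.classInner_star S.nil S.max hint S.hM S.defect S.mem S.height l l'
    rw [if_neg hne, hΨ, hΨ, hll', H26.classInner_irr, if_pos rfl] at h
    exact one_ne_zero h
  exact ⟨Equiv.ofBijective _ ((Fintype.bijective_iff_injective_and_card _).2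
    ⟨hinj, (Fintype.card_congr Φ).symm⟩), hΨ⟩

/-- The member attached to a character of `P`. -/
noncomputable def memb (θ : IrrCharacter P) : IrrCharacter H := ((exists_param S).choose θ).1

theorem memb_mem (θ : IrrCharacter P) : memb S θ ∈ c := ((exists_param S).choose θ).2

theorem gf_irr (θ : IrrCharacter P) : gf M e ξ₀ (θ : P → ℂ) = (memb S θ : H → ℂ) :=
  (exists_param S).choose_spec θ

theorem memb_inj : Function.Injective (memb S) := fun _ _ h =>
  (exists_param S).choose.injective (Subtype.ext h)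

theorem exists_memb {φ : IrrCharacter H} (hφ : φ ∈ c) : ∃ θ, memb S θ = φ :=
  ⟨(exists_param S).choose.symm ⟨φ, hφ⟩, by rw [memb, Equiv.apply_symm_apply]⟩

theorem gf_expansion {f : P → ℂ} (hf : IsClassFunction P f) :
    gf M e ξ₀ f = ∑ θ : IrrCharacter P, classInner f (θ : P → ℂ) • (memb S θ : H → ℂ) := by
  conv_lhs => rw [H26.class_function_expansion f hf]
  rw [gf_sum]
  exact Finset.sum_congr rfl fun θ _ => by rw [gf_irr S]

theorem classInner_gf_irr {f : P → ℂ} (hf : IsClassFunction P f) (θ : IrrCharacter P) :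
    classInner (gf M e ξ₀ f) (memb S θ : H → ℂ) = classInner f (θ : P → ℂ) := by
  rw [gf_expansion S hf, H26.classInner_sum_left, Finset.sum_eq_single θ]
  · rw [H26.classInner_smul_left, H26.classInner_irr, if_pos rfl, mul_one]
  · intro θ' _ hne
    rw [H26.classInner_smul_left, H26.classInner_irr, if_neg fun e' => hne (memb_inj S e'), mul_zero]
  · exact fun h => absurd (Finset.mem_univ _) h

theorem classInner_gf_eq_zero {f : P → ℂ} (hf : IsClassFunction P f) {φ : IrrCharacter H}
    (hφ : φ ∉ c) : classInner (gf M e ξ₀ f) (φ : H → ℂ) = 0 := by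
  rw [gf_expansion S hf, H26.classInner_sum_left]
  refine Finset.sum_eq_zero fun θ _ => ?_
  rw [H26.classInner_smul_left, H26.classInner_irr, if_neg, mul_zero]
  rintro rfl
  exact hφ (memb_mem S θ)

theorem classInner_gf {f f' : P → ℂ} (hf : IsClassFunction P f) (hf' : IsClassFunction P f') :
    classInner (gf M e ξ₀ f) (gf M e ξ₀ f') = classInner f f' := by
  conv_rhs => rw [H26.class_function_expansion f' hf', H26.classInner_sum_right]
  conv_lhs => rw [gf_expansion S hf' , H26.classInner_sum_right]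
  exact Finset.sum_congr rfl fun θ _ => by
    rw [H26.classInner_smul_right, H26.classInner_smul_right, classInner_gf_irr S hf]

/-- The scaled degree of a member. -/
theorem scaledDeg_memb (θ : IrrCharacter P) :
    H32.scaledDeg 2 c (memb S θ) = (charDegree (θ : P → ℂ) : ℤ) * H32.scaledDeg 2 c ξ₀ := by
  have h := gf_at_one S (θ : P → ℂ)
  rw [gf_irr S, H42.irr_one_eq, H42.irr_one_eq, H42.irr_one_eq, ← Nat.cast_mul, Nat.cast_inj] at h
  refine mul_right_cancel₀ (pow_ne_zero (H32.minVal 2 c)
    (Int.natCast_ne_zero.2 (Fact.out : Nat.Prime 2).ne_zero)) ?_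
  rw [mul_assoc, H32.scaledDeg_mul S.mem, H32.scaledDeg_mul (memb_mem S θ), h]
  push_cast
  rfl

omit S in
/-- A function turning by `a` under a central element only sees the characters doing so. -/
theorem scal_eq_of_classInner {K : Type*} [Group K] [Fintype K] {z : K} (hz : ∀ g : K, Commute z g)
    (hz2 : z * z = 1) {f : K → ℂ} {a : ℂ} (hf : ∀ k, f (k * z) = a * f k) (φ : IrrCharacter K)
    (hne : classInner f (φ : K → ℂ) ≠ 0) : scal φ z = a := by
  have hs2 : scal φ z * scal φ z = 1 := by
    rw [← H56.FD.scal_mul hz φ, hz2, H56.FD.scal_one]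
  have hreal : conj (scal φ z) = scal φ z := by
    rcases mul_self_eq_one_iff.1 hs2 with e' | e' <;> rw [e'] <;> simp
  have key : classInner f (φ : K → ℂ) = a * scal φ z * classInner f (φ : K → ℂ) := by
    conv_lhs => rw [classInner, ← Equiv.sum_comp (Equiv.mulRight z)]
    rw [classInner, Finset.mul_sum, Finset.mul_sum, Finset.mul_sum]
    refine Finset.sum_congr rfl fun k _ => ?_
    rw [Equiv.coe_mulRight, hf, H56.FD.irr_mul_central hz, map_mul, hreal]
    ring
  have h1 : a * scal φ z = 1 :=
    mul_right_cancel₀ hne (by rw [one_mul]; exact key.symm)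
  linear_combination (-scal φ z) * h1 + a * hs2

/-- A function turning by `a` under a central involution of `P` is carried to one turning by
`a` times the scalar of `ξ₀`. -/
theorem gf_mul_central {f : P → ℂ} (hf : IsClassFunction P f) {v : P}
    (hv : ∀ g : H, g * (v : H) = (v : H) * g) (hv2 : v * v = 1) {a : ℂ}
    (ha : ∀ w, f (w * v) = a * f w) (k : H) :
    gf M e ξ₀ f (k * (v : H)) = a * scal ξ₀ (v : H) * gf M e ξ₀ f k := by
  have hvH : ∀ g : H, Commute (v : H) g := fun g => (hv g).symm
  have hvP : ∀ g : P, Commute v g := fun g => Subtype.ext (hv g).symm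
  rw [gf_expansion S hf, Finset.sum_apply, Finset.sum_apply, Finset.mul_sum]
  refine Finset.sum_congr rfl fun θ _ => ?_
  simp only [Pi.smul_apply, smul_eq_mul]
  by_cases h0 : classInner f (θ : P → ℂ) = 0
  · rw [h0]; ring
  have hθ := scal_eq_of_classInner hvP hv2 ha θ h0
  have hval : scal (memb S θ) (v : H) = scal θ v * scal ξ₀ (v : H) := by
    rw [scal, scal, scal, ← gf_irr S, gf_at_central S _ hv, gf_at_one S, mul_div_mul_comm]
  rw [H56.FD.irr_mul_central hvH, hval, hθ]
  ring

end Cfsg.Agent.H22.TameU
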